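import Cfsg.Agent.H4.Sl1

set_option autoImplicit false
set_option linter.unusedSectionVars false

/-! Simply laced Chevalley groups in any characteristic: the cocycle model and its relations. -/

namespace Cfsg.Agent.LD.E8

open Cfsg.Agent.H4.Sl Cfsg.Agent.H4.Sl.RS

structure SR (ι Φ : Type) [Fintype ι] [DecidableEq ι] extends RS ι Φ where
  β : (ι → ℤ) →ₗ[ℤ] (ι → ℤ) →ₗ[ℤ] ℤ
  βs : ∀ v w, β v w + β w v = b v w

section sg
variable (K : Type*) [Field K]

def sg (n : ℤ) : K := (-1) ^ n

variable {K}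

theorem sg_add (m n : ℤ) : sg K (m + n) = sg K m * sg K n := zpow_add₀ (by simp) _ _
theorem sg_zero : sg K 0 = 1 := zpow_zero _
theorem sg_one : sg K 1 = -1 := zpow_one _
theorem sg_two_mul (n : ℤ) : sg K (2 * n) = 1 := by simp [sg, zpow_mul]
theorem sg_congr {m n : ℤ} (h : 2 ∣ m - n) : sg K m = sg K n := by
  obtain ⟨c, hc⟩ := h
  rw [show m = n + 2 * c by omega, sg_add, sg_two_mul, mul_one]
theorem sg_sq (n : ℤ) : sg K n * sg K n = 1 := by rw [← sg_add, ← two_mul, sg_two_mul]
theorem sg_neg (n : ℤ) : sg K (-n) = sg K n := sg_congr ⟨-n, by ring⟩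
theorem sg_ne (n : ℤ) : sg K n ≠ 0 := fun h => by have := sg_sq (K := K) n; rw [h, mul_zero] at this; simp at this
theorem map_sg {K' : Type*} [Field K'] (φ : K →+* K') (n : ℤ) : φ (sg K n) = sg K' n := by simp [sg]

end sg

namespace SR

variable {ι Φ : Type} [Fintype ι] [DecidableEq ι] [Fintype Φ] [DecidableEq Φ] (S : SR ι Φ)
variable (K : Type*) [Field K]

def ε (v w : ι → ℤ) : K := sg K (S.β v w)

variable {S K}

theorem ε_addl (v v' w : ι → ℤ) : S.ε K (v + v') w = S.ε K v w * S.ε K v' w := by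
  simp only [ε, map_add, LinearMap.add_apply, sg_add]
theorem ε_addr (v w w' : ι → ℤ) : S.ε K v (w + w') = S.ε K v w * S.ε K v w' := by
  simp only [ε, map_add, sg_add]
theorem ε_negl (v w : ι → ℤ) : S.ε K (-v) w = S.ε K v w := by
  simp only [ε, map_neg, LinearMap.neg_apply, sg_neg]
theorem ε_negr (v w : ι → ℤ) : S.ε K v (-w) = S.ε K v w := by
  simp only [ε, map_neg, sg_neg]
theorem ε_sq (v w : ι → ℤ) : S.ε K v w * S.ε K v w = 1 := sg_sq _
theorem ε_ne (v w : ι → ℤ) : S.ε K v w ≠ 0 := sg_ne _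
theorem β_self {r : ι → ℤ} (h : S.R r) : S.β r r = 1 := by
  have := S.βs r r; rw [h.nrm] at this; omega
theorem ε_self {r : ι → ℤ} (h : S.R r) : S.ε K r r = -1 := by rw [ε, β_self h, sg_one]
theorem ε_even {v w : ι → ℤ} (h : 2 ∣ S.b v w) : S.ε K w v = S.ε K v w :=
  sg_congr (by have := S.βs v w; omega)
theorem ε_odd {v w : ι → ℤ} (h : ¬ 2 ∣ S.b v w) : S.ε K w v = -S.ε K v w := by
  rw [ε, ε, ← mul_neg_one, ← sg_one, ← sg_add]
  exact sg_congr (by have := S.βs v w; omega)

variable (S K)

noncomputable def x (r : ι → ℤ) (t : K) : Module.End K (L ι Φ K) :=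
  S.mkL K
    { toFun := fun v => hh K v - (t * (S.b v r : K)) • S.e K r
      map_zero' := by simp
      map_add' := fun v w => by simp only [map_add, LinearMap.add_apply, Int.cast_add]; module }
    fun a => S.e K a + (if S.b r a = -1 then (t * S.ε K r a) • S.e K (r + a)
      else if S.b r a = -2 then (-t) • hh K r + t ^ 2 • S.e K r else 0)

variable {S K}

theorem xh (r : ι → ℤ) (t : K) (v : ι → ℤ) :
    S.x K r t (hh K v) = hh K v - (t * (S.b v r : K)) • S.e K r := mkL_hh _ _ _

theorem xe0 (r : ι → ℤ) (t : K) {a : ι → ℤ} (h : S.R a) (hb : 0 ≤ S.b r a) :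
    S.x K r t (S.e K a) = S.e K a := by
  rw [x, mkL_e _ _ h, if_neg (by omega), if_neg (by omega), add_zero]

theorem xe1 (r : ι → ℤ) (t : K) {a : ι → ℤ} (h : S.R a) (hb : S.b r a = -1) :
    S.x K r t (S.e K a) = S.e K a + (t * S.ε K r a) • S.e K (r + a) := by
  rw [x, mkL_e _ _ h, if_pos hb]

theorem xe2 {r : ι → ℤ} (t : K) (h : S.R r) :
    S.x K r t (S.e K (-r)) = S.e K (-r) + (-t) • hh K r + t ^ 2 • S.e K r := by
  have : S.b r (-r) = -2 := by simp [h.nrm]
  rw [x, mkL_e _ _ h.ng, if_neg (by omega), if_pos this, add_assoc]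

theorem x_zero (r : ι → ℤ) (hr : S.R r) : S.x K r 0 = 1 := by
  refine lin_ext (S := S.toRS) (fun a ha => ?_) (fun v => by simp [xh])
  rcases hr.cases ha with rfl | hb | hb
  · simp [xe2 _ hr]
  · simp [xe1 _ _ ha hb]
  · simp [xe0 _ _ ha hb]

theorem x_add {r : ι → ℤ} (hr : S.R r) (t u : K) : S.x K r t * S.x K r u = S.x K r (t + u) := by
  have hrr := hr.nrm
  have h0 : ∀ t, S.x K r t (S.e K r) = S.e K r := fun t => xe0 _ _ hr (by omega)
  refine lin_ext (S := S.toRS) (fun a ha => ?_) (fun v => ?_)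
  · rw [Module.End.mul_apply]
    rcases hr.cases ha with rfl | hb | hb
    · simp only [xe2 _ hr, map_add, map_smul, xh, h0, hrr]
      push_cast; module
    · simp only [xe1 _ _ ha hb, map_add, map_smul]
      rw [xe0 _ _ (hr.ad ha hb) (by simp [hrr, hb])]; module
    · simp only [xe0 _ _ ha hb]
  · rw [Module.End.mul_apply]
    simp only [xh, map_sub, map_smul, h0]; module

theorem x_neg {r : ι → ℤ} (hr : S.R r) (t : K) : S.x K r t * S.x K r (-t) = 1 := by
  rw [x_add hr, add_neg_cancel, x_zero _ hr]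

theorem x_neg' {r : ι → ℤ} (hr : S.R r) (t : K) : S.x K r (-t) * S.x K r t = 1 := by
  rw [x_add hr, neg_add_cancel, x_zero _ hr]

theorem x_comm {r s : ι → ℤ} (hr : S.R r) (hs : S.R s) (hb : 0 ≤ S.b r s) (t u : K) :
    S.x K r t * S.x K s u = S.x K s u * S.x K r t := by
  by_cases hrs : s = r
  · subst hrs; rw [x_add hr, x_add hr, add_comm]
  have hc : S.b r s = 0 ∨ S.b r s = 1 := by
    have := hr.le hs
    have : S.b r s ≠ 2 := fun h => hrs (hr.eq_of hs h)
    omega
  have hsr := S.symm s r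
  have hrr := hr.nrm
  have hss := hs.nrm
  have key : ∀ {r s : ι → ℤ} (hr : S.R r) (hs : S.R s) (hc : S.b r s = 0 ∨ S.b r s = 1) (t u : K),
      S.x K r t (S.x K s u (S.e K (-r))) = S.x K s u (S.x K r t (S.e K (-r))) := by
    intro r s hr hs hc t u
    have hsr := S.symm s r
    have hrr := hr.nrm
    have hss := hs.nrm
    rcases hc with hc | hc
    · rw [xe0 s u hr.ng (by simp [hsr, hc]), xe2 _ hr]
      simp only [map_add, map_smul, xh, hc]
      rw [xe0 s u hr.ng (by simp [hsr, hc]), xe0 s u hr (by omega)]; simp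
    · have h1 : S.R (s + -r) := hs.ad hr.ng (by simp [hsr, hc])
      rw [xe1 s u hr.ng (by simp [hsr, hc]), xe2 _ hr]
      simp only [map_add, map_smul, xh, hc]
      rw [xe1 s u hr.ng (by simp [hsr, hc]), xe0 s u hr (by omega), xe2 _ hr,
        xe1 r t h1 (by simp [hc, hrr]), show r + (s + -r) = s by abel]
      have e1 := ε_odd (S := S) (K := K) (v := r) (w := s) (by omega)
      have e2 := ε_sq (S := S) (K := K) r s
      simp only [Int.cast_one, ε_addr, ε_negr, ε_self hr, e1]
      match_scalars <;> grind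
  refine lin_ext (S := S.toRS) (fun a ha => ?_) (fun v => ?_)
  · simp only [Module.End.mul_apply]
    rcases hr.cases ha with rfl | hp | hp
    · exact key hr hs hc t u
    all_goals rcases hs.cases ha with rfl | hq | hq
    · exact (key hs hr (by omega) u t).symm
    · have h1 := hr.ad ha hp
      have h2 := hs.ad ha hq
      rw [xe1 _ _ ha hp, xe1 _ _ ha hq]
      simp only [map_add, map_smul]
      rw [xe1 _ _ ha hp, xe1 _ _ ha hq]
      rcases hc with hc | hc
      · rw [xe1 r t h2 (by simp [hc, hp]), xe1 s u h1 (by simp [hc, hq, hsr]),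
          show s + (r + a) = r + (s + a) by abel]
        simp only [ε_addr, ε_even (S := S) (K := K) (v := r) (w := s) (by omega)]
        module
      · rw [xe0 r t h2 (by simp [hc, hp]), xe0 s u h1 (by simp [hc, hq, hsr])]; module
    · have h1 := hr.ad ha hp
      rw [xe1 _ _ ha hp, xe0 _ _ ha hq]
      simp only [map_add, map_smul]
      rw [xe1 _ _ ha hp, xe0 _ _ ha hq, xe0 s u h1 (by simp only [map_add]; omega)]
    · exact (key hs hr (by omega) u t).symm
    · have h2 := hs.ad ha hq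
      rw [xe1 _ _ ha hq, xe0 _ _ ha hp]
      simp only [map_add, map_smul]
      rw [xe1 _ _ ha hq, xe0 _ _ ha hp, xe0 r t h2 (by simp only [map_add]; omega)]
    · rw [xe0 _ _ ha hq, xe0 _ _ ha hp, xe0 _ _ ha hq]
  · simp only [Module.End.mul_apply, xh, map_sub, map_smul]
    rw [xe0 r t hs hb, xe0 s u hr (by omega)]; module

theorem x_comm1 {r s : ι → ℤ} (hr : S.R r) (hs : S.R s) (hc : S.b r s = -1) (t u : K) :
    S.x K r t * S.x K s u = S.x K s u * S.x K r t * S.x K (r + s) (S.ε K r s * t * u) := by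
  have hsr : S.b s r = -1 := (S.symm s r).trans hc
  have hrr := hr.nrm
  have hss := hs.nrm
  have hw := hr.ad hs hc
  have e1 := ε_odd (S := S) (K := K) (v := r) (w := s) (by omega)
  have e2 := ε_sq (S := S) (K := K) r s
  have hre : ∀ t, S.x K r t (S.e K (r + s)) = S.e K (r + s) := fun t => xe0 _ _ hw (by simp [hrr, hc])
  have hse : ∀ t, S.x K s t (S.e K (r + s)) = S.e K (r + s) := fun t => xe0 _ _ hw (by simp [hss, hsr])
  have hrr' : ∀ t, S.x K r t (S.e K r) = S.e K r := fun t => xe0 _ _ hr (by omega)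
  have hss' : ∀ t, S.x K s t (S.e K s) = S.e K s := fun t => xe0 _ _ hs (by omega)
  have hrs' : ∀ t, S.x K r t (S.e K s) = S.e K s + (t * S.ε K r s) • S.e K (r + s) :=
    fun t => xe1 _ _ hs hc
  have hsr' : ∀ t, S.x K s t (S.e K r) = S.e K r + (t * -S.ε K r s) • S.e K (r + s) := fun t => by
    rw [xe1 _ _ hr hsr, add_comm s r, e1]
  have hn1 : ∀ t, S.x K s t (S.e K (-r)) = S.e K (-r) := fun t => xe0 _ _ hr.ng (by simp [hsr])
  have hn2 : ∀ t, S.x K r t (S.e K (-s)) = S.e K (-s) := fun t => xe0 _ _ hs.ng (by simp [hc])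
  refine lin_ext (S := S.toRS) (fun a ha => ?_) (fun v => ?_)
  · simp only [Module.End.mul_apply]
    rcases hr.cases ha with rfl | hp | hp
    · rw [xe1 (r + s) _ hr.ng (by simp [hrr, hsr]), show r + s + -r = s by abel]
      simp only [map_add, map_smul, hn1, xe2 _ hr, xh, hre, hse, hrr', hss', hrs', hsr', hc, ε_addl, ε_negr,
        ε_self hr, e1]
      push_cast
      match_scalars <;> grind
    all_goals rcases hs.cases ha with rfl | hq | hq
    · simp [hc] at hp
    · have : a = -(r + s) := hw.eq_neg ha (by simp [hp, hq])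
      subst this
      have g1 : ∀ t, S.x K r t (S.e K (-(r + s))) = S.e K (-(r + s)) + (t * -S.ε K r s) • S.e K (-s) :=
        fun t => by
        rw [xe1 _ _ ha hp, ε_negr, ε_addr, ε_self hr, neg_one_mul]; congr 3; abel
      have g2 : ∀ t, S.x K s t (S.e K (-(r + s))) = S.e K (-(r + s)) + (t * S.ε K r s) • S.e K (-r) :=
        fun t => by
        rw [xe1 _ _ ha hq, ε_negr, ε_addr, ε_self hs, e1, mul_neg_one, neg_neg]; congr 3; abel
      simp only [map_add, map_sub, map_smul, hn1, hn2, xe2 _ hr, xe2 _ hs, xe2 _ hw, xh, hre, hse, hrr', hss',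
        hrs', hsr', hc, g1, g2, hrr, hss, hsr, LinearMap.add_apply]
      push_cast
      match_scalars <;> grind
    · have h1 := hr.ad ha hp
      rw [xe0 _ _ ha hq, xe1 _ _ ha hp]
      rcases eq_or_lt_of_le hq with hq0 | hq0
      · have h3 := hw.ad ha (by simp [hp, ← hq0])
        rw [xe1 (r + s) _ ha (by simp [hp, ← hq0])]
        simp only [map_add, map_smul]
        rw [xe1 _ _ ha hp, xe0 r t h3 (by simp [hrr, hc, hp])]
        simp only [map_add, map_smul]
        rw [xe0 _ _ ha hq, xe1 s u h1 (by simp [hsr, ← hq0]), xe0 s u h3 (by simp [hsr, hss, ← hq0]),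
          show s + (r + a) = r + s + a by abel]
        simp only [ε_addl, ε_addr, e1]
        module
      · rw [xe0 (r + s) _ ha (by simp only [map_add, LinearMap.add_apply]; omega), xe1 _ _ ha hp]
        simp only [map_add, map_smul]
        rw [xe0 _ _ ha hq, xe0 s u h1 (by simp only [map_add]; omega)]
    · rw [xe1 (r + s) _ hs.ng (by simp [hss, hc]), show r + s + -s = r by abel]
      simp only [map_add, map_sub, map_smul, hn2, xe2 _ hs, xh, hre, hse, hrr', hss', hrs', hsr', hc, hsr,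
        ε_addl, ε_negr, ε_self hs]
      push_cast
      match_scalars <;> grind
    · have h1 := hs.ad ha hq
      rw [xe1 _ _ ha hq]
      simp only [map_add, map_smul]
      rw [xe0 _ _ ha hp]
      rcases eq_or_lt_of_le hp with hp0 | hp0
      · have h3 := hw.ad ha (by simp [hq, ← hp0])
        rw [xe1 (r + s) _ ha (by simp [hq, ← hp0])]
        simp only [map_add, map_smul]
        rw [xe0 _ _ ha hp, xe0 r t h3 (by simp [hrr, hc, ← hp0]), xe1 r t h1 (by simp [hc, ← hp0]),
          xe1 _ _ ha hq, xe0 s u h3 (by simp [hsr, hss, hq]), show r + (s + a) = r + s + a by abel]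
        simp only [ε_addl, ε_addr]
        module
      · rw [xe0 (r + s) _ ha (by simp only [map_add, LinearMap.add_apply]; omega), xe0 _ _ ha hp,
          xe1 _ _ ha hq, xe0 r t h1 (by simp only [map_add]; omega)]
    · rw [xe0 (r + s) _ ha (by simp only [map_add, LinearMap.add_apply]; omega), xe0 _ _ ha hq,
        xe0 _ _ ha hp, xe0 _ _ ha hq]
  · simp only [Module.End.mul_apply, xh, map_add, map_sub, map_smul, hre, hse, hrr', hss', hrs', hsr']
    push_cast
    module

end SR

end Cfsg.Agent.LD.E8
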