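import Cfsg.Agent.LD.E1
import Cfsg.Agent.H4.Sl3

set_option autoImplicit false
set_option linter.unusedSectionVars false

/-! Simply laced Chevalley groups (cocycle model): monomial elements, unipotent subgroups. -/

namespace Cfsg.Agent.LD.E8

open Cfsg.Agent.H4.Sl
open Cfsg.Agent.H4.Sl.RS (L hh Γ lin_ext finite_R co_e_self co_e_ne co_hh b_σ b_σ' σ_apply σ_self σ_σ σ_bij R_ρ)

namespace SR

variable {ι Φ : Type} [Fintype ι] [DecidableEq ι] [Fintype Φ] [DecidableEq Φ] (S : SR ι Φ)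
variable (K : Type*) [Field K]

open Classical in
noncomputable def X (r : ι → ℤ) (t : K) : Γ ι Φ K :=
  if h : S.R r then ⟨S.x K r t, S.x K r (-t), x_neg h t, x_neg' h t⟩ else 1

variable {S K}

theorem coe_X {r : ι → ℤ} (h : S.R r) (t : K) : (S.X K r t : Module.End K (L ι Φ K)) = S.x K r t := by
  rw [X, dif_pos h]

theorem X_add {r : ι → ℤ} (h : S.R r) (t u : K) : S.X K r t * S.X K r u = S.X K r (t + u) := by
  ext1; simp only [Units.val_mul, coe_X h, x_add h]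

theorem X_zero {r : ι → ℤ} (h : S.R r) : S.X K r 0 = 1 := by
  ext1; simp only [coe_X h, x_zero _ h, Units.val_one]

theorem X_inv {r : ι → ℤ} (h : S.R r) (t : K) : (S.X K r t)⁻¹ = S.X K r (-t) :=
  inv_eq_of_mul_eq_one_right (by rw [X_add h, add_neg_cancel, X_zero h])

theorem X_comm {r s : ι → ℤ} (hr : S.R r) (hs : S.R s) (hb : 0 ≤ S.b r s) (t u : K) :
    S.X K r t * S.X K s u = S.X K s u * S.X K r t := by
  ext1; simp only [Units.val_mul, coe_X hr, coe_X hs, x_comm hr hs hb]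

theorem X_comm1 {r s : ι → ℤ} (hr : S.R r) (hs : S.R s) (hc : S.b r s = -1) (t u : K) :
    S.X K r t * S.X K s u = S.X K s u * S.X K r t * S.X K (r + s) (S.ε K r s * t * u) := by
  ext1; simp only [Units.val_mul, coe_X hr, coe_X hs, coe_X (hr.ad hs hc), x_comm1 hr hs hc]

theorem X_conj1 {r s : ι → ℤ} (hr : S.R r) (hs : S.R s) (hc : S.b r s = -1) (t u : K) :
    S.X K r t * S.X K s u * (S.X K r t)⁻¹ = S.X K s u * S.X K (r + s) (S.ε K r s * t * u) := by
  rw [X_comm1 hr hs hc, mul_assoc (S.X K s u), X_comm hr (hr.ad hs hc) (by simp [hr.nrm, hc])]; group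

theorem X_sum {r s : ι → ℤ} (hr : S.R r) (hs : S.R s) (hc : S.b r s = -1) (t : K) :
    S.X K (r + s) t = (S.X K s (S.ε K r s))⁻¹ * (S.X K r t * S.X K s (S.ε K r s) * (S.X K r t)⁻¹) := by
  rw [X_conj1 hr hs hc, mul_right_comm, ε_sq, one_mul]; group

variable (S)

/-- `n` is monomial with lattice part `w` and character `χ`. -/
structure Mon (n : Γ ι Φ K) (w : (ι → ℤ) →ₗ[ℤ] (ι → ℤ)) (χ : (ι → ℤ) → K) : Prop where
  iso : ∀ v v', S.b (w v) (w v') = S.b v v'
  root : ∀ v, S.R v → S.R (w v)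
  bij : Function.Bijective w
  χ0 : χ 0 = 1
  χa : ∀ v v', χ (v + v') * S.ε K v v' = χ v * χ v' * S.ε K (w v) (w v')
  he : ∀ a, S.R a → (n : Module.End K (L ι Φ K)) (S.e K a) = χ a • S.e K (w a)
  hh : ∀ v, (n : Module.End K (L ι Φ K)) (hh K v) = hh K (w v)

variable {S}

namespace Mon
variable {n n' : Γ ι Φ K} {w w' : (ι → ℤ) →ₗ[ℤ] (ι → ℤ)} {χ χ' : (ι → ℤ) → K}

theorem χn (h : S.Mon n w χ) (v : ι → ℤ) : χ (-v) * χ v = 1 := by
  have h1 := h.χa (-v) v
  have h2 : S.ε K (w v) (w v) = S.ε K v v := by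
    have e1 := S.βs (w v) (w v)
    have e2 := S.βs v v
    rw [h.iso] at e1
    rw [ε, ε, show S.β (w v) (w v) = S.β v v by omega]
  rw [neg_add_cancel, h.χ0, map_neg, ε_negl, ε_negl, h2] at h1
  exact (mul_right_cancel₀ (ε_ne v v) h1).symm

theorem χa_id (h : S.Mon n LinearMap.id χ) (v v' : ι → ℤ) : χ (v + v') = χ v * χ v' :=
  mul_right_cancel₀ (ε_ne v v') (h.χa v v')

theorem χne (h : S.Mon n w χ) (v : ι → ℤ) : χ v ≠ 0 := fun h0 => by
  have := h.χn v; rw [h0, mul_zero] at this; exact zero_ne_one this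

theorem root_surj (h : S.Mon n w χ) {a : ι → ℤ} (ha : S.R a) : ∃ c, S.R c ∧ w c = a := by
  have hm : Set.MapsTo w {v | S.R v} {v | S.R v} := fun v hv => h.root v hv
  have := ((finite_R (S := S.toRS)).injOn_iff_bijOn_of_mapsTo hm).mp h.bij.1.injOn
  obtain ⟨c, hc, rfl⟩ := this.2.2 ha
  exact ⟨c, hc, rfl⟩

theorem root' (h : S.Mon n w χ) {a : ι → ℤ} (ha : S.R (w a)) : S.R a := by
  obtain ⟨c, hc, h2⟩ := h.root_surj ha
  rwa [← h.bij.1 h2]

theorem one : S.Mon (1 : Γ ι Φ K) LinearMap.id (fun _ => 1) :=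
  ⟨fun _ _ => rfl, fun _ h => h, Function.bijective_id, rfl, fun _ _ => by simp,
    fun _ _ => by simp, fun _ => by simp⟩

theorem mul (h : S.Mon n w χ) (h' : S.Mon n' w' χ') :
    S.Mon (n * n') (w ∘ₗ w') (fun v => χ' v * χ (w' v)) := by
  refine ⟨fun v v' => by simp [h.iso, h'.iso], fun v hv => h.root _ (h'.root _ hv), h.bij.comp h'.bij,
    by simp [h.χ0, h'.χ0], fun v v' => by
      have e1 := h.χa (w' v) (w' v')
      have e2 := h'.χa v v'
      simp only [map_add, LinearMap.comp_apply]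
      linear_combination χ (w' v + w' v') * e2 + χ' v * χ' v' * e1, fun a ha => ?_, fun v => ?_⟩
  · simp only [Units.val_mul, Module.End.mul_apply, h'.he a ha, map_smul, h.he _ (h'.root a ha), smul_smul]
    rfl
  · simp only [Units.val_mul, Module.End.mul_apply, h'.hh, h.hh]; rfl

noncomputable def wi (h : S.Mon n w χ) : (ι → ℤ) →ₗ[ℤ] (ι → ℤ) :=
  (LinearEquiv.ofBijective w h.bij).symm.toLinearMap

theorem w_wi (h : S.Mon n w χ) (v : ι → ℤ) : w (h.wi v) = v :=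
  (LinearEquiv.ofBijective w h.bij).apply_symm_apply v

theorem wi_w (h : S.Mon n w χ) (v : ι → ℤ) : h.wi (w v) = v :=
  (LinearEquiv.ofBijective w h.bij).symm_apply_apply v

theorem inv (h : S.Mon n w χ) : S.Mon n⁻¹ h.wi (fun v => χ (-h.wi v)) := by
  have hn : ∀ y, ((n⁻¹ : Γ ι Φ K) : Module.End K (L ι Φ K)) ((n : Module.End K (L ι Φ K)) y) = y := fun y => by
    rw [← Module.End.mul_apply, ← Units.val_mul, inv_mul_cancel]; rfl
  refine ⟨fun v v' => by rw [← h.iso, h.w_wi, h.w_wi], fun v hv => h.root' (by rwa [h.w_wi]),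
    (LinearEquiv.ofBijective w h.bij).symm.bijective, by simp [h.χ0],
    fun v v' => by
      have e1 := h.χa (-h.wi v) (-h.wi v')
      have e2 := ε_sq (S := S) (K := K) v v'
      have e3 := ε_sq (S := S) (K := K) (h.wi v) (h.wi v')
      simp only [map_neg, h.w_wi, ε_negl, ε_negr] at e1
      rw [map_add, neg_add]
      grind, fun a ha => ?_, fun v => ?_⟩
  · have h1 := hn (S.e K (h.wi a))
    rw [h.he _ (h.root' (by rwa [h.w_wi])), h.w_wi, map_smul] at h1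
    rw [← h1, smul_smul, h.χn, one_smul]
  · have h1 := hn (RS.hh K (h.wi v))
    rwa [h.hh, h.w_wi] at h1

theorem eq (h : S.Mon n w χ) (h' : S.Mon n' w' χ') (hw : ∀ v, w v = w' v) (hχ : ∀ a, S.R a → χ a = χ' a) :
    n = n' := by
  ext1
  refine lin_ext (S := S.toRS) (fun a ha => ?_) (fun v => ?_)
  · rw [h.he a ha, h'.he a ha, hw, hχ a ha]
  · rw [h.hh, h'.hh, hw]

theorem congr (h : S.Mon n w χ) (hw : ∀ v, w v = w' v) (hχ : ∀ v, χ v = χ' v) : S.Mon n w' χ' := by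
  have : w = w' := LinearMap.ext hw
  have : χ = χ' := funext hχ
  subst w' χ'; exact h

theorem conj (h : S.Mon n w χ) {r : ι → ℤ} (hr : S.R r) (t : K) :
    n * S.X K r t = S.X K (w r) (χ r * t) * n := by
  ext1
  simp only [Units.val_mul, coe_X hr, coe_X (h.root r hr)]
  refine lin_ext (S := S.toRS) (fun a ha => ?_) (fun v => ?_)
  · simp only [Module.End.mul_apply]
    rcases hr.cases ha with rfl | hb | hb
    · rw [xe2 _ hr, h.he _ ha, map_neg, map_smul, xe2 _ (h.root r hr)]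
      simp only [map_add, map_smul, h.he _ ha, h.hh, h.he _ hr, map_neg]
      have := h.χn r
      match_scalars <;> grind
    · rw [xe1 _ _ ha hb, h.he _ ha, map_smul, xe1 _ _ (h.root a ha) (by rw [h.iso, hb])]
      simp only [map_add, map_smul, h.he _ ha, h.he _ (hr.ad ha hb)]
      have e1 := h.χa r a
      match_scalars <;> grind
    · rw [xe0 _ _ ha hb, h.he _ ha, map_smul, xe0 _ _ (h.root a ha) (by rw [h.iso]; exact hb)]
  · simp only [Module.End.mul_apply, xh, map_sub, map_smul, h.hh, h.he _ hr, h.iso]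
    module

theorem conj' (h : S.Mon n w χ) {r : ι → ℤ} (hr : S.R r) (t : K) :
    n * S.X K r t * n⁻¹ = S.X K (w r) (χ r * t) := by
  rw [h.conj hr, mul_inv_cancel_right]

theorem co (h : S.Mon n w χ) {s : ι → ℤ} (y : L ι Φ K) :
    S.co K (w s) ((n : Module.End K (L ι Φ K)) y) = χ s * S.co K s y := by
  have : (S.co K (w s)) ∘ₗ (n : Module.End K (L ι Φ K)) = χ s • S.co K s := by
    refine lin_ext (S := S.toRS) (fun a ha => ?_) (fun v => ?_)
    · simp only [LinearMap.comp_apply, h.he a ha, map_smul, LinearMap.smul_apply, smul_eq_mul]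
      by_cases has : a = s
      · subst has; rw [co_e_self ha, co_e_self (h.root a ha)]
      · rw [co_e_ne has, co_e_ne (fun h' => has (h.bij.1 h'))]; simp
    · simp [h.hh, co_hh]
  exact LinearMap.congr_fun this y

end Mon

variable (S)

noncomputable def nn (r : ι → ℤ) (t : K) : Γ ι Φ K := S.X K r t * S.X K (-r) t⁻¹ * S.X K r t

variable {S}

theorem mon_nn {r : ι → ℤ} (hr : S.R r) {t : K} (ht : t ≠ 0) :
    S.Mon (S.nn r t) (S.σ r) (fun v => t ^ (-S.b r v) * sg K (S.b r v * S.β r v)) := by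
  have hrr := hr.nrm
  have a1 : ∀ t, S.x K r t (S.e K r) = S.e K r := fun t => xe0 _ _ hr (by omega)
  have a2 : ∀ t, S.x K (-r) t (S.e K (-r)) = S.e K (-r) := fun t => xe0 _ _ hr.ng (by simp [hrr])
  have a3 : ∀ t, S.x K (-r) t (S.e K r) = S.e K r + (-t) • hh K (-r) + t ^ 2 • S.e K (-r) := fun t => by
    have := xe2 t hr.ng; rwa [neg_neg] at this
  have e1 : t * t⁻¹ = 1 := mul_inv_cancel₀ ht
  refine ⟨b_σ hr, fun v hv => hr.refl hv, σ_bij hr, by simp [sg_zero], fun v v' => ?_, fun a ha => ?_,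
    fun v => ?_⟩
  · have : sg K (S.b r (v + v') * S.β r (v + v')) * S.ε K v v' =
        sg K (S.b r v * S.β r v) * sg K (S.b r v' * S.β r v') * S.ε K (S.σ r v) (S.σ r v') := by
      rw [ε, ε, ← sg_add, ← sg_add, ← sg_add]
      refine sg_congr ⟨S.b r v * S.β r v', ?_⟩
      have e2 : S.β v r = S.b r v - S.β r v := by have := S.βs r v; omega
      simp only [σ_apply, map_add, map_sub, map_smul, LinearMap.sub_apply, LinearMap.smul_apply, smul_eq_mul,
        β_self hr, e2]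
      ring
    rw [map_add (S.b r), neg_add, zpow_add₀ ht, ← map_add (S.b r), mul_assoc, this]; ring
  · simp only [nn, Units.val_mul, coe_X hr, coe_X hr.ng, Module.End.mul_apply]
    have h1 := hr.ge ha; have h2' := hr.le ha
    have : S.b r a = -2 ∨ S.b r a = -1 ∨ S.b r a = 0 ∨ S.b r a = 1 ∨ S.b r a = 2 := by omega
    rcases this with hb | hb | hb | hb | hb
    · obtain rfl := hr.eq_neg ha hb
      have e2 : t ^ (- -2 : ℤ) = t ^ 2 := by norm_num [zpow_ofNat]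
      rw [hb, e2, map_neg (S.σ r), σ_self hr, neg_neg, neg_mul, sg_neg, sg_two_mul]
      simp only [xe2 _ hr, map_add, map_sub, map_smul, a1, a2, a3, xh, map_neg, LinearMap.neg_apply, hrr]
      push_cast
      match_scalars <;> grind
    · have h3 := hr.ad ha hb
      rw [xe1 _ _ ha hb, map_add, map_smul, xe0 (-r) _ ha (by simp [hb]),
        xe1 (-r) _ h3 (by simp [hb, hrr]), show -r + (r + a) = a by abel, σ_apply, hb,
        show a - (-1 : ℤ) • r = r + a by module]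
      simp only [map_add, map_smul, xe1 _ _ ha hb, xe0 r _ h3 (by simp [hb, hrr])]
      have e2 : t ^ (- -1 : ℤ) = t := by norm_num
      have e3 := ε_sq (S := S) (K := K) r a
      rw [e2, neg_one_mul, sg_neg, ← ε, ε_negl, ε_addr, ε_self hr]
      match_scalars <;> grind
    · rw [xe0 _ _ ha hb.ge, xe0 _ _ ha (by simp [hb]), xe0 _ _ ha hb.ge, σ_apply, hb]; simp [sg_zero]
    · have h3 := hr.ng.ad ha (by simp [hb])
      rw [xe0 _ _ ha (by omega), xe1 _ _ ha (by simp [hb]), map_add, map_smul, xe0 _ _ ha (by omega),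
        xe1 r _ h3 (by simp [hb, hrr]), show r + (-r + a) = a by abel, σ_apply, hb,
        show a - (1 : ℤ) • r = -r + a by module]
      have e2 : t ^ (-1 : ℤ) = t⁻¹ := by norm_num
      have e3 := ε_sq (S := S) (K := K) r a
      rw [e2, one_mul, ← ε, ε_negl, ε_addr, ε_negr, ε_self hr]
      match_scalars <;> grind
    · obtain rfl := hr.eq_of ha hb
      rw [hb, σ_self hr, sg_two_mul]
      simp only [xe2 _ hr, map_add, map_sub, map_smul, a1, a2, a3, xh, map_neg, LinearMap.neg_apply, hrr]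
      have e2 : t ^ (-2 : ℤ) = t⁻¹ ^ 2 := by rw [zpow_neg, inv_pow]; norm_cast
      rw [e2]
      push_cast
      match_scalars <;> grind
  · simp only [nn, Units.val_mul, coe_X hr, coe_X hr.ng, Module.End.mul_apply, xh, map_add, map_smul,
      a1, a2, a3, xe2 _ hr, σ_apply, map_sub, map_zsmul, map_neg, hrr, S.symm v r]
    rw [← Int.cast_smul_eq_zsmul K]
    push_cast
    match_scalars <;> grind

variable (S K)

def U (T : Set (ι → ℤ)) : Subgroup (Γ ι Φ K) :=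
  Subgroup.closure {g | ∃ r ∈ T, S.R r ∧ ∃ t, g = S.X K r t}

variable {S K}

theorem X_mem {T : Set (ι → ℤ)} {r : ι → ℤ} (h : r ∈ T) (hr : S.R r) (t : K) : S.X K r t ∈ S.U K T :=
  Subgroup.subset_closure ⟨r, h, hr, t, rfl⟩

theorem U_le {T : Set (ι → ℤ)} {M : Subgroup (Γ ι Φ K)} (h : ∀ r ∈ T, S.R r → ∀ t, S.X K r t ∈ M) :
    S.U K T ≤ M := by
  rw [U, Subgroup.closure_le]; rintro _ ⟨r, h1, h2, t, rfl⟩; exact h r h1 h2 t

theorem U_mono {T T' : Set (ι → ℤ)} (h : ∀ r ∈ T, S.R r → r ∈ T') : S.U K T ≤ S.U K T' :=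
  U_le fun r h1 h2 t => X_mem (h r h1 h2) h2 t

/-- induction for `U T` -/
theorem U_ind {T : Set (ι → ℤ)} {p : Γ ι Φ K → Prop} (h1 : p 1)
    (hm : ∀ r ∈ T, S.R r → ∀ t g, g ∈ S.U K T → p g → p (S.X K r t * g)) {g : Γ ι Φ K} (hg : g ∈ S.U K T) :
    p g := by
  induction hg using Subgroup.closure_induction_left with
  | one => exact h1
  | mul_left x hx y hy ih => obtain ⟨r, h1, h2, t, rfl⟩ := hx; exact hm r h1 h2 t y hy ih
  | inv_mul_cancel x hx y hy ih =>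
    obtain ⟨r, h1, h2, t, rfl⟩ := hx; rw [X_inv h2]; exact hm r h1 h2 _ y hy ih

theorem conj_mem_of {T : Set (ι → ℤ)} {M : Subgroup (Γ ι Φ K)} {g : Γ ι Φ K}
    (h : ∀ r ∈ T, S.R r → ∀ t, g * S.X K r t * g⁻¹ ∈ M) {u : Γ ι Φ K} (hu : u ∈ S.U K T) :
    g * u * g⁻¹ ∈ M := by
  have : S.U K T ≤ M.comap (MulAut.conj g).toMonoidHom := U_le fun r h1 h2 t => h r h1 h2 t
  exact this hu

variable (S) in
/-- `I` is stable under adding roots of `T` -/
def Idl (T I : Set (ι → ℤ)) : Prop :=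
  ∀ r ∈ T, ∀ s ∈ I, S.R r → S.R s → s ≠ -r ∧ (S.b r s = -1 → r + s ∈ I)

theorem Idl.conj {T I : Set (ι → ℤ)} (h : S.Idl T I) {g u : Γ ι Φ K} (hg : g ∈ S.U K T) (hu : u ∈ S.U K I) :
    g * u * g⁻¹ ∈ S.U K I := by
  refine U_ind (p := fun g => g * u * g⁻¹ ∈ S.U K I) (by simpa using hu) (fun r h1 h2 t g _ ih => ?_) hg
  have : S.X K r t * g * u * (S.X K r t * g)⁻¹ = S.X K r t * (g * u * g⁻¹) * (S.X K r t)⁻¹ := by group
  rw [this]
  refine conj_mem_of (fun s h3 h4 c => ?_) ih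
  obtain ⟨h5, h6⟩ := h r h1 s h3 h2 h4
  rcases h2.cases h4 with hb | hb | hb
  · exact absurd hb h5
  · rw [X_conj1 h2 h4 hb]; exact mul_mem (X_mem h3 h4 _) (X_mem (h6 hb) (h2.ad h4 hb) _)
  · rw [X_comm h2 h4 hb, mul_inv_cancel_right]; exact X_mem h3 h4 _

theorem peel {T : Set (ι → ℤ)} {r : ι → ℤ} (hr : S.R r) (h : S.Idl {r} (T \ {r})) {u : Γ ι Φ K}
    (hu : u ∈ S.U K T) : ∃ t, ∃ u' ∈ S.U K (T \ {r}), u = S.X K r t * u' := by
  refine U_ind (p := fun u => ∃ t, ∃ u' ∈ S.U K (T \ {r}), u = S.X K r t * u')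
    ⟨0, 1, one_mem _, by simp [X_zero hr]⟩ (fun s h1 h2 c g _ ⟨t, u', h3, h4⟩ => ?_) hu
  by_cases hs : s = r
  · subst hs; exact ⟨c + t, u', h3, by rw [h4, ← mul_assoc, X_add hr]⟩
  · refine ⟨t, ((S.X K r t)⁻¹ * S.X K s c * (S.X K r t)⁻¹⁻¹) * u', mul_mem
      (h.conj (inv_mem (X_mem (Set.mem_singleton r) hr t)) (X_mem (show s ∈ T \ {r} from ⟨h1, hs⟩) h2 c)) h3, ?_⟩
    rw [h4]; group

theorem Mon.conjU {n : Γ ι Φ K} {w : (ι → ℤ) →ₗ[ℤ] (ι → ℤ)} {χ : (ι → ℤ) → K} (h : S.Mon n w χ)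
    {T T' : Set (ι → ℤ)} (hT : ∀ r ∈ T, S.R r → w r ∈ T') {u : Γ ι Φ K} (hu : u ∈ S.U K T) :
    n * u * n⁻¹ ∈ S.U K T' :=
  conj_mem_of (fun r h1 h2 t => by rw [h.conj' h2]; exact X_mem (hT r h1 h2) (h.root r h2) _) hu

variable (S K) in
/-- span of root vectors -/
def V (T : Set (ι → ℤ)) : Submodule K (L ι Φ K) := Submodule.span K {y | ∃ a ∈ T, S.R a ∧ y = S.e K a}

theorem e_mem {T : Set (ι → ℤ)} {a : ι → ℤ} (h : a ∈ T) (ha : S.R a) : S.e K a ∈ S.V K T :=
  Submodule.subset_span ⟨a, h, ha, rfl⟩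

theorem V_le {T : Set (ι → ℤ)} {M : Submodule K (L ι Φ K)} (h : ∀ a ∈ T, S.R a → S.e K a ∈ M) :
    S.V K T ≤ M := by
  rw [V, Submodule.span_le]; rintro _ ⟨a, h1, h2, rfl⟩; exact h a h1 h2

theorem V_mono {T T' : Set (ι → ℤ)} (h : ∀ r ∈ T, S.R r → r ∈ T') : S.V K T ≤ S.V K T' :=
  V_le fun r h1 h2 => e_mem (h r h1 h2) h2

theorem co_V {T : Set (ι → ℤ)} {s : ι → ℤ} (hs : s ∉ T) {y : L ι Φ K} (hy : y ∈ S.V K T) :
    S.co K s y = 0 := by
  have : S.V K T ≤ LinearMap.ker (S.co K s) := V_le fun a h1 _ =>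
    co_e_ne (fun h => hs (h ▸ h1))
  exact this hy

theorem Idl.X_V {T I : Set (ι → ℤ)} (h : S.Idl T I) {r : ι → ℤ} (h1 : r ∈ T) (h2 : S.R r) (t : K)
    {y : L ι Φ K} (hy : y ∈ S.V K I) : S.x K r t y ∈ S.V K I := by
  have : S.V K I ≤ (S.V K I).comap (S.x K r t) := V_le fun a h3 h4 => by
    obtain ⟨h5, h6⟩ := h r h1 a h3 h2 h4
    rw [Submodule.mem_comap]
    rcases h2.cases h4 with hb | hb | hb
    · exact absurd hb h5
    · rw [xe1 _ _ h4 hb]
      exact add_mem (e_mem h3 h4) (Submodule.smul_mem _ _ (e_mem (h6 hb) (h2.ad h4 hb)))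
    · rw [xe0 _ _ h4 hb]; exact e_mem h3 h4
  exact this hy

theorem Idl.U_V {T I : Set (ι → ℤ)} (h : S.Idl T I) {u : Γ ι Φ K} (hu : u ∈ S.U K T)
    {y : L ι Φ K} (hy : y ∈ S.V K I) : (u : Module.End K (L ι Φ K)) y ∈ S.V K I := by
  refine U_ind (p := fun u => (u : Module.End K (L ι Φ K)) y ∈ S.V K I) (by simpa using hy)
    (fun r h1 h2 t g _ ih => ?_) hu
  rw [Units.val_mul, Module.End.mul_apply, coe_X h2]
  exact h.X_V h1 h2 t ih

theorem Idl.U_hh {T : Set (ι → ℤ)} (h : S.Idl T T) {u : Γ ι Φ K} (hu : u ∈ S.U K T) (v : ι → ℤ) :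
    (u : Module.End K (L ι Φ K)) (hh K v) - hh K v ∈ S.V K T := by
  refine U_ind (p := fun u => (u : Module.End K (L ι Φ K)) (hh K v) - hh K v ∈ S.V K T) (by simp)
    (fun r h1 h2 t g _ ih => ?_) hu
  rw [Units.val_mul, Module.End.mul_apply, coe_X h2]
  have := h.X_V h1 h2 t ih
  rw [map_sub, xh] at this
  have h3 := sub_mem this (Submodule.smul_mem _ (t * (S.b v r : K)) (e_mem h1 h2))
  convert h3 using 1; abel

end SR

end Cfsg.Agent.LD.E8
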