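import Cfsg.Agent.LD.E2

set_option autoImplicit false
set_option linter.unusedSectionVars false

/-! Simply laced Chevalley groups (cocycle model): filtrations, Bruhat decomposition. -/

namespace Cfsg.Agent.LD.E8

open Cfsg.Agent.H4.Sl
open Cfsg.Agent.H4.Sl.RS (L hh Γ lin_ext finite_R co_e_self co_e_ne co_hh b_σ b_σ' σ_apply σ_self σ_σ σ_bij R_ρ
  sum_R)

namespace SR

variable {ι Φ : Type} [Fintype ι] [DecidableEq ι] [Fintype Φ] [DecidableEq Φ] {S : SR ι Φ}
variable (K : Type*) [Field K]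

variable (S)

def Lge (l : (ι → ℤ) →+ ℤ) (k : ℤ) : Submodule K (L ι Φ K) :=
  Submodule.span K ({y | ∃ a, S.R a ∧ k ≤ l a ∧ y = S.e K a} ∪ {y | k ≤ 0 ∧ ∃ v, y = hh K v})

variable {S K}

theorem e_Lge {l : (ι → ℤ) →+ ℤ} {k : ℤ} {a : ι → ℤ} (ha : S.R a) (h : k ≤ l a) : S.e K a ∈ S.Lge K l k :=
  Submodule.subset_span (Or.inl ⟨a, ha, h, rfl⟩)

theorem hh_Lge {l : (ι → ℤ) →+ ℤ} {k : ℤ} (h : k ≤ 0) (v : ι → ℤ) : hh K v ∈ S.Lge K l k :=
  Submodule.subset_span (Or.inr ⟨h, v, rfl⟩)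

theorem Lge_le {l : (ι → ℤ) →+ ℤ} {k : ℤ} {M : Submodule K (L ι Φ K)}
    (h1 : ∀ a, S.R a → k ≤ l a → S.e K a ∈ M) (h2 : k ≤ 0 → ∀ v, hh K v ∈ M) : S.Lge K l k ≤ M := by
  rw [Lge, Submodule.span_le]
  rintro _ (⟨a, ha, h, rfl⟩ | ⟨h, v, rfl⟩)
  · exact h1 a ha h
  · exact h2 h v

theorem Lge_mono {l : (ι → ℤ) →+ ℤ} {k k' : ℤ} (h : k ≤ k') : S.Lge K l k' ≤ S.Lge K l k :=
  Lge_le (fun _ ha h' => e_Lge ha (h.trans h')) (fun h' v => hh_Lge (h.trans h') v)

theorem co_Lge {l : (ι → ℤ) →+ ℤ} {k : ℤ} {s : ι → ℤ} (hs : l s < k) {y : L ι Φ K}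
    (hy : y ∈ S.Lge K l k) : S.co K s y = 0 := by
  have : S.Lge K l k ≤ LinearMap.ker (S.co K s) :=
    Lge_le (fun a _ h => co_e_ne (by rintro rfl; omega)) (fun _ v => co_hh s v)
  exact this hy

theorem x_Lge {l : (ι → ℤ) →+ ℤ} {k : ℤ} {r : ι → ℤ} (hr : S.R r) (h0 : 0 ≤ l r) (t : K) {y : L ι Φ K}
    (hy : y ∈ S.Lge K l k) : S.x K r t y - y ∈ S.Lge K l (k + l r) := by
  have : S.Lge K l k ≤ (S.Lge K l (k + l r)).comap (S.x K r t - 1) := by
    refine Lge_le (fun a ha h => ?_) (fun h v => ?_)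
    · rw [Submodule.mem_comap, LinearMap.sub_apply, Module.End.one_apply]
      rcases hr.cases ha with rfl | hb | hb
      · rw [map_neg] at h
        rw [xe2 _ hr, add_assoc, add_sub_cancel_left]
        exact add_mem (Submodule.smul_mem _ _ (hh_Lge (by omega) _))
          (Submodule.smul_mem _ _ (e_Lge hr (by omega)))
      · rw [xe1 _ _ ha hb, add_sub_cancel_left]
        exact Submodule.smul_mem _ _ (e_Lge (hr.ad ha hb) (by rw [map_add]; omega))
      · rw [xe0 _ _ ha hb, sub_self]; exact zero_mem _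
    · rw [Submodule.mem_comap, LinearMap.sub_apply, Module.End.one_apply, xh, sub_sub_cancel_left]
      exact neg_mem (Submodule.smul_mem _ _ (e_Lge hr (by omega)))
  exact this hy

theorem U_Lge {l : (ι → ℤ) →+ ℤ} {k j : ℤ} (hj : 0 ≤ j) {T : Set (ι → ℤ)} (hT : ∀ r ∈ T, S.R r → j ≤ l r)
    {u : Γ ι Φ K} (hu : u ∈ S.U K T) {y : L ι Φ K}
    (hy : y ∈ S.Lge K l k) : (u : Module.End K (L ι Φ K)) y - y ∈ S.Lge K l (k + j) := by
  refine U_ind (p := fun u => (u : Module.End K (L ι Φ K)) y - y ∈ S.Lge K l (k + j)) (by simp)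
    (fun r h1 h2 t g _ ih => ?_) hu
  rw [Units.val_mul, Module.End.mul_apply, coe_X h2]
  have h3 := hT r h1 h2
  have h4 : (g : Module.End K (L ι Φ K)) y ∈ S.Lge K l k := by
    have := add_mem (Lge_mono (by omega : k ≤ k + j) ih) hy
    rwa [sub_add_cancel] at this
  have h5 := Lge_mono (by omega : k + j ≤ k + l r) (x_Lge h2 (by omega) t h4)
  have := add_mem h5 ih
  rwa [sub_add_sub_cancel] at this

theorem U_Lge' {l : (ι → ℤ) →+ ℤ} {k : ℤ} {T : Set (ι → ℤ)} (hT : ∀ r ∈ T, S.R r → 0 ≤ l r)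
    {u : Γ ι Φ K} (hu : u ∈ S.U K T) {y : L ι Φ K}
    (hy : y ∈ S.Lge K l k) : (u : Module.End K (L ι Φ K)) y ∈ S.Lge K l k := by
  have := add_mem (U_Lge le_rfl hT hu hy) (by rw [add_zero]; exact hy)
  rwa [sub_add_cancel, add_zero] at this

theorem idl_of (f : (ι → ℤ) →+ ℤ) {T I : Set (ι → ℤ)} (hT : ∀ r ∈ T, S.R r → 0 ≤ f r)
    (hI : ∀ s ∈ I, S.R s → 0 < f s) (h : ∀ r ∈ T, ∀ s ∈ I, S.R r → S.R s → S.R (r + s) → r + s ∈ I) :
    S.Idl T I := fun r h1 s h2 h3 h4 =>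
  ⟨by rintro rfl; have := hT r h1 h3; have := hI _ h2 h4; rw [map_neg] at this; omega,
    fun hb => h r h1 s h2 h3 h4 (h3.ad h4 hb)⟩

theorem readout (h2K : (2 : K) ≠ 0) {f : (ι → ℤ) →+ ℤ} (hf : S.Gen f) {T : Set (ι → ℤ)}
    (hT : ∀ a ∈ T, ∀ a', S.R a → S.R a' → f a < f a' → a' ∈ T) {u : Γ ι Φ K}
    (hu : u ∈ S.U K {v | 0 < f v})
    (h0 : ∀ v a, S.R a → a ∉ T → S.co K a ((u : Module.End K (L ι Φ K)) (hh K v)) = 0) : u ∈ S.U K T := by
  have key : ∀ k : ℕ, u ∈ S.U K {v | (k : ℤ) < f v} ∨ u ∈ S.U K T := by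
    intro k
    induction k with
    | zero => exact Or.inl (by simpa using hu)
    | succ k ih =>
      rcases ih with ih | ih
      swap; · exact Or.inr ih
      by_cases hex : ∃ r, S.R r ∧ f r = k + 1
      swap
      · left
        refine U_mono (fun r h1 h2 => ?_) ih
        have : f r ≠ k + 1 := fun h => hex ⟨r, h2, h⟩
        simp only [Set.mem_setOf_eq] at h1 ⊢; push_cast; omega
      obtain ⟨r, hr, hfr⟩ := hex
      by_cases hrT : r ∈ T
      · right
        refine U_mono (fun s h1 h2 => ?_) ih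
        simp only [Set.mem_setOf_eq] at h1
        by_cases hs : f s = f r
        · rwa [hf s r h2 hr hs]
        · exact hT r hrT s hr h2 (by omega)
      left
      have hsub : ∀ s ∈ {v | (k : ℤ) < f v} \ {r}, S.R s → (k : ℤ) + 2 ≤ f s := fun s h1 h2 => by
        have h3 : f s ≠ f r := fun h => h1.2 (hf s r h2 hr h)
        have h4 : (k : ℤ) < f s := h1.1
        omega
      obtain ⟨t, u', h1, rfl⟩ := peel hr (T := {v | (k : ℤ) < f v}) (idl_of f
        (by rintro _ rfl _; omega) (fun s h1 h2 => by have := hsub s h1 h2; omega)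
        (by
          rintro _ rfl s h1 _ h2 _
          have := hsub s h1 h2
          refine ⟨by simp only [Set.mem_setOf_eq, map_add]; omega, fun h => ?_⟩
          have h3 : f (_ + s) = f _ := congrArg f h
          rw [map_add] at h3; omega)) ih
      have h2 := h0 r r hr hrT
      have h3 := U_Lge (l := f) (k := 0) (j := (k : ℤ) + 2) (by omega) hsub h1 (hh_Lge (S := S) le_rfl r)
      have h4 := U_Lge' (l := f) (T := {r}) (by rintro _ rfl _; omega) (X_mem (Set.mem_singleton r) hr t) h3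
      have h5 := co_Lge (s := r) (by omega) h4
      rw [map_sub, map_sub, ← Module.End.mul_apply, ← Units.val_mul, h2, coe_X hr, xh, map_sub, co_hh,
        map_smul, co_e_self hr, hr.nrm] at h5
      have ht : t = 0 := by
        push_cast at h5
        simpa [h2K] using h5
      rw [ht, X_zero hr, one_mul]
      exact U_mono (fun s h1 h2 => by have := hsub s h1 h2; simp only [Set.mem_setOf_eq]; push_cast; omega) h1
  obtain ⟨N, hN⟩ := (finite_R (S := S.toRS)).image f |>.bddAbove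
  rcases key N.toNat with h | h
  · refine U_mono (fun r h1 h2 => ?_) h
    have := hN ⟨r, h2, rfl⟩
    simp only [Set.mem_setOf_eq] at h1
    omega
  · exact h

theorem simple_idl {f : (ι → ℤ) →+ ℤ} {α : ι → ℤ} (h : S.Simple f α) :
    S.Idl {α} ({v | 0 < f v} \ {α}) :=
  idl_of f (by rintro _ rfl _; exact h.2.1.le) (fun s h1 _ => h1.1) (by
    rintro _ rfl s h1 _ _ _
    have h2 : 0 < f s := h1.1
    have h3 := h.2.1
    refine ⟨by simp only [Set.mem_setOf_eq, map_add]; omega, fun h4 => ?_⟩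
    have h5 : f (_ + s) = f _ := congrArg f h4
    rw [map_add] at h5; omega)

variable (S) in
/-- a subgroup of monomial elements containing all `nn r t` -/
structure IsN (N : Subgroup (Γ ι Φ K)) : Prop where
  mon : ∀ n ∈ N, ∃ w χ, S.Mon n w χ
  nn : ∀ r, S.R r → ∀ t, t ≠ 0 → S.nn r t ∈ N

theorem X_neg_eq {r : ι → ℤ} (hr : S.R r) {t : K} :
    S.X K (-r) t = S.X K r (-t⁻¹) * S.nn r t⁻¹ * S.X K r (-t⁻¹) := by
  rw [nn, inv_inv, ← X_inv hr]; group

theorem bruhat {f : (ι → ℤ) →+ ℤ} (hf : S.Gen f) {N : Subgroup (Γ ι Φ K)} (hN : S.IsN N)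
    {g : Γ ι Φ K} (hg : g ∈ S.U K Set.univ) {n : Γ ι Φ K} (hn : n ∈ N) :
    ∃ u ∈ S.U K {v | 0 < f v}, ∃ m ∈ N, ∃ u' ∈ S.U K {v | 0 < f v}, g * n = u * m * u' := by
  set Up := S.U K {v | 0 < f v} with hUp
  let B : Γ ι Φ K → Prop := fun y => ∃ u ∈ Up, ∃ m ∈ N, ∃ u' ∈ Up, y = u * m * u'
  have hU : ∀ u ∈ Up, ∀ y, B y → B (u * y) := by
    rintro u hu _ ⟨u1, h1, m, hm, u2, h2, rfl⟩
    exact ⟨u * u1, mul_mem hu h1, m, hm, u2, h2, by group⟩
  have hUr : ∀ u ∈ Up, ∀ y, B y → B (y * u) := by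
    rintro u hu _ ⟨u1, h1, m, hm, u2, h2, rfl⟩
    exact ⟨u1, h1, m, hm, u2 * u, mul_mem h2 hu, by group⟩
  have hNB : ∀ m ∈ N, B m := fun m hm => ⟨1, one_mem _, m, hm, 1, one_mem _, by group⟩
  have hS : ∀ α, S.Simple f α → ∀ t, t ≠ 0 → ∀ y, B y → B (S.nn α t * y) := by
    rintro α hα t ht _ ⟨u1, h1, m, hm, u2, h2, rfl⟩
    obtain ⟨s', u3, h3, h4⟩ := peel hα.1 (simple_idl hα) (inv_mem h1)
    obtain ⟨s, h5⟩ : ∃ s, u1 = u3⁻¹ * S.X K α s :=
      ⟨-s', by rw [← inv_inv u1, h4, mul_inv_rev, X_inv hα.1]⟩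
    have h6 : S.nn α t * u3⁻¹ * (S.nn α t)⁻¹ ∈ Up :=
      (mon_nn hα.1 ht).conjU (fun r h7 h8 => hα.refl hf h8 h7.1 h7.2) (inv_mem h3)
    have h7 : S.nn α t * (u1 * m * u2) =
        (S.nn α t * u3⁻¹ * (S.nn α t)⁻¹) * ((S.nn α t * S.X K α s * m) * u2) := by rw [h5]; group
    rw [h7]
    refine hU _ h6 _ (hUr _ h2 _ ?_)
    by_cases hs : s = 0
    · rw [hs, X_zero hα.1, mul_one]; exact hNB _ (mul_mem (hN.nn α hα.1 t ht) hm)
    obtain ⟨w, χ, hw⟩ := hN.mon _ (inv_mem hm)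
    have hc : ∀ r c, S.R r → S.X K r c * m = m * S.X K (w r) (χ r * c) := fun r c hr => by
      rw [← hw.conj' hr]; group
    rcases lt_or_gt_of_ne (hf.ne (hw.root α hα.1)) with hneg | hpos
    · have e1 : S.X K α s = S.nn α s * S.X K α (-s) * S.X K (-α) (-s⁻¹) := by
        rw [nn, ← X_inv hα.1, ← X_inv hα.1.ng]; group
      have hm2 := (mon_nn hα.1 ht).mul (mon_nn (K := K) hα.1 hs)
      have e2 := hm2.conj hα.1 (-s)
      simp only [LinearMap.comp_apply, σ_σ hα.1] at e2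
      have : S.nn α t * S.X K α s * m = (S.nn α t * S.nn α s * S.X K α (-s)) * (S.X K (-α) (-s⁻¹) * m) := by
        nth_rewrite 1 [e1]; group
      rw [this, e2, hc _ _ hα.1.ng, mul_assoc]
      refine hU _ (X_mem hα.2.1 hα.1 _) _ ?_
      rw [← mul_assoc]
      refine hUr _ (X_mem (by simp only [Set.mem_setOf_eq, map_neg]; omega) (hw.root _ hα.1.ng) _) _ ?_
      exact hNB _ (mul_mem (mul_mem (hN.nn α hα.1 t ht) (hN.nn α hα.1 s hs)) hm)
    · rw [mul_assoc, hc _ _ hα.1, ← mul_assoc]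
      exact hUr _ (X_mem hpos (hw.root _ hα.1) _) _ (hNB _ (mul_mem (hN.nn α hα.1 t ht) hm))
  have hneg : ∀ k : ℕ, ∀ r, S.R r → 0 < f r → f r ≤ k → ∀ t y, B y → B (S.X K (-r) t * y) := by
    intro k
    induction k with
    | zero => intro r _ h1 h2; simp at h2; omega
    | succ k ih =>
      intro r hr h1 h2 t y hy
      by_cases hα : S.Simple f r
      · by_cases ht : t = 0
        · rwa [ht, X_zero hr.ng, one_mul]
        rw [X_neg_eq hr, mul_assoc, mul_assoc]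
        exact hU _ (X_mem h1 hr _) _ (hS r hα _ (inv_ne_zero ht) _ (hU _ (X_mem h1 hr _) _ hy))
      · simp only [RS.Simple, hr, h1, true_and, not_forall, ne_eq, not_not] at hα
        obtain ⟨a, c, ha, hc, h3, h4, rfl⟩ := hα
        have hb : S.b (-a) (-c) = -1 := by
          have := hr.nrm
          simp only [map_add, LinearMap.add_apply, ha.nrm, hc.nrm, S.symm c a] at this
          simp only [map_neg, LinearMap.neg_apply]; omega
        rw [map_add] at h2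
        push_cast at h2
        rw [neg_add, X_sum ha.ng hc.ng hb, X_inv ha.ng, X_inv hc.ng, mul_assoc, mul_assoc, mul_assoc]
        exact ih c hc h4 (by omega) _ _ (ih a ha h3 (by omega) _ _ (ih c hc h4 (by omega) _ _
          (ih a ha h3 (by omega) _ _ hy)))
  refine U_ind (p := fun g => B (g * n)) (by rw [one_mul]; exact hNB n hn) (fun r _ hr t g _ ih => ?_) hg
  rw [mul_assoc]
  rcases lt_or_gt_of_ne (hf.ne hr) with h | h
  · have := hneg (f (-r)).toNat (-r) hr.ng (by rw [map_neg]; omega) (by omega) t _ ih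
    rwa [neg_neg] at this
  · exact hU _ (X_mem h hr _) _ ih

theorem bruhat_unique {f : (ι → ℤ) →+ ℤ} {n n' u u' : Γ ι Φ K} {w w' : (ι → ℤ) →ₗ[ℤ] (ι → ℤ)}
    {χ χ' : (ι → ℤ) → K} (h : S.Mon n w χ) (h' : S.Mon n' w' χ') (hu : u ∈ S.U K {v | 0 < f v})
    (hu' : u' ∈ S.U K {v | 0 < f v}) (e : n * u = u' * n') (a : ι → ℤ) (ha : S.R a) :
    w a = w' a ∧ χ a = χ' a := by
  have key : ∀ a, S.R a → (w a = w' a ∧ χ a = χ' a) ∨ f (w' a) < f (w a) := fun a ha => by
    have e1 : S.co K (w a) (((n * u : Γ ι Φ K) : Module.End K (L ι Φ K)) (S.e K a)) = χ a := by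
      rw [Units.val_mul, Module.End.mul_apply, h.co]
      have := co_Lge (s := a) (by omega) (U_Lge (l := f) (k := f a) (j := 1) zero_le_one
        (fun r h1 _ => h1) hu (e_Lge ha le_rfl))
      rw [map_sub, co_e_self ha, sub_eq_zero] at this
      rw [this, mul_one]
    rw [e, Units.val_mul, Module.End.mul_apply, h'.he a ha, map_smul, map_smul] at e1
    by_contra hcon
    rw [not_or, not_lt] at hcon
    have := co_Lge (s := w a) (by omega) (U_Lge (l := f) (k := f (w' a)) (j := 1) zero_le_one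
        (fun r h1 _ => h1) hu' (e_Lge (h'.root a ha) le_rfl))
    rw [map_sub, sub_eq_zero] at this
    rw [this] at e1
    by_cases hww : w' a = w a
    · rw [hww, co_e_self (h.root a ha), smul_eq_mul, mul_one] at e1
      exact hcon.1 ⟨hww.symm, e1.symm⟩
    · rw [co_e_ne hww, smul_zero] at e1
      exact h.χne a e1.symm
  have s1 := sum_R (S := S.toRS) f h.root h.bij.1
  have s2 := sum_R (S := S.toRS) f h'.root h'.bij.1
  have hle : ∀ c ∈ (Finset.univ : Finset Φ), f (w' (S.ρ c)) ≤ f (w (S.ρ c)) := fun c _ => by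
    rcases key _ (R_ρ c) with h1 | h1
    · rw [h1.1]
    · exact h1.le
  have := (Finset.sum_eq_sum_iff_of_le hle).mp (s2.trans s1.symm)
  obtain ⟨c, rfl⟩ := ha
  rcases key _ (R_ρ c) with h1 | h1
  · exact h1
  · have := this c (Finset.mem_univ _); omega

end SR

end Cfsg.Agent.LD.E8
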