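import Cfsg.Agent.LD.E3
import Cfsg.Agent.H4.Sl8

set_option autoImplicit false
set_option linter.unusedSectionVars false

/-! Semisimple elements of simply laced Chevalley groups in characteristic three. -/

namespace Cfsg.Agent.LD.E8

open Cfsg.Agent.H4.Sl
open Cfsg.Agent.H4.Sl.RS (L hh Γ lin_ext finite_R co_e_self co_e_ne co_hh b_σ b_σ' σ_apply σ_self σ_σ σ_bij R_ρ
  sum_R lin_eq_of_roots)

theorem two_ne (K : Type*) [Field K] [CharP K 3] : (2 : K) ≠ 0 := fun h => by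
  have h3 : ((3 : ℕ) : K) = 0 := CharP.cast_eq_zero K 3
  have : (1 : K) = 0 := by push_cast at h3; linear_combination h3 - h
  exact one_ne_zero this

namespace SR

variable {ι Φ : Type} [Fintype ι] [DecidableEq ι] [Fintype Φ] [DecidableEq Φ] (S : SR ι Φ)
variable (K : Type*) [Field K]

instance finΓ3 [Finite K] : Finite (Γ ι Φ K) := by
  have : Finite (Module.End K (L ι Φ K)) :=
    Finite.of_injective (fun f : Module.End K (L ι Φ K) => (f : L ι Φ K → L ι Φ K)) DFunLike.coe_injective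
  infer_instance

def NK : Subgroup (Γ ι Φ K) := Subgroup.closure {n | ∃ r, S.R r ∧ ∃ t, t ≠ 0 ∧ n = S.nn r t}

variable {S K}

theorem isNK : S.IsN (S.NK K) := by
  refine ⟨fun n hn => ?_, fun r hr t ht => Subgroup.subset_closure ⟨r, hr, t, ht, rfl⟩⟩
  induction hn using Subgroup.closure_induction with
  | mem x hx => obtain ⟨r, hr, t, ht, rfl⟩ := hx; exact ⟨_, _, mon_nn hr ht⟩
  | one => exact ⟨_, _, Mon.one⟩
  | mul x y _ _ h1 h2 => obtain ⟨_, _, h1⟩ := h1; obtain ⟨_, _, h2⟩ := h2; exact ⟨_, _, h1.mul h2⟩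
  | inv x _ h1 => obtain ⟨_, _, h1⟩ := h1; exact ⟨_, _, h1.inv⟩

theorem NK_le : S.NK K ≤ S.U K Set.univ := by
  rw [NK, Subgroup.closure_le]; rintro _ ⟨r, hr, t, _, rfl⟩
  exact mul_mem (mul_mem (X_mem (Set.mem_univ _) hr _) (X_mem (Set.mem_univ _) hr.ng _))
    (X_mem (Set.mem_univ _) hr _)

theorem Mon.inv_id {n : Γ ι Φ K} {χ : (ι → ℤ) → K} (h : S.Mon n LinearMap.id χ) :
    S.Mon n⁻¹ LinearMap.id (fun v => χ (-v)) :=
  h.inv.congr (fun v => h.wi_w v) (fun v => by rw [show h.wi v = v from h.wi_w v])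

variable (S K)

def TK : Subgroup (Γ ι Φ K) where
  carrier := {n | n ∈ S.NK K ∧ ∃ χ, S.Mon n LinearMap.id χ}
  one_mem' := ⟨one_mem _, _, Mon.one⟩
  mul_mem' := fun ⟨h1, _, h2⟩ ⟨h3, _, h4⟩ => ⟨mul_mem h1 h3, _, h2.mul h4⟩
  inv_mem' := fun ⟨h1, _, h2⟩ => ⟨inv_mem h1, _, h2.inv_id⟩

def Tp (p : ℕ) : Subgroup (Γ ι Φ K) where
  carrier := {n | n ∈ S.NK K ∧ ∃ χ, S.Mon n LinearMap.id χ ∧ ∀ v, χ v ^ p = 1}
  one_mem' := ⟨one_mem _, _, Mon.one, fun _ => one_pow _⟩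
  mul_mem' := fun ⟨h1, _, h2, h2'⟩ ⟨h3, _, h4, h4'⟩ => ⟨mul_mem h1 h3, _, h2.mul h4, fun v => by
    simp only [mul_pow, h2', h4', mul_one]⟩
  inv_mem' := fun ⟨h1, _, h2, h2'⟩ => ⟨inv_mem h1, _, h2.inv_id, fun v => h2' _⟩

abbrev Up (f : (ι → ℤ) →+ ℤ) : Subgroup (Γ ι Φ K) := S.U K {v | 0 < f v}

variable {S K}

theorem T_conj {f : (ι → ℤ) →+ ℤ} {t u : Γ ι Φ K} (ht : t ∈ S.TK K) (hu : u ∈ S.Up K f) :
    t * u * t⁻¹ ∈ S.Up K f := by
  obtain ⟨_, χ, h⟩ := ht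
  exact h.conjU (fun r h _ => h) hu

variable (S K) in
def BK (f : (ι → ℤ) →+ ℤ) : Subgroup (Γ ι Φ K) where
  carrier := {g | ∃ t ∈ S.TK K, ∃ u ∈ S.Up K f, g = t * u}
  one_mem' := ⟨1, one_mem _, 1, one_mem _, by simp⟩
  mul_mem' := by
    rintro _ _ ⟨t, ht, u, hu, rfl⟩ ⟨t', ht', u', hu', rfl⟩
    exact ⟨t * t', mul_mem ht ht', t'⁻¹ * u * t'⁻¹⁻¹ * u', mul_mem (T_conj (inv_mem ht') hu) hu', by group⟩
  inv_mem' := by
    rintro _ ⟨t, ht, u, hu, rfl⟩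
    exact ⟨t⁻¹, inv_mem ht, t * u⁻¹ * t⁻¹, T_conj ht (inv_mem hu), by group⟩

theorem T_le_B {f : (ι → ℤ) →+ ℤ} : S.TK K ≤ S.BK K f := fun t ht => ⟨t, ht, 1, one_mem _, by simp⟩
theorem U_le_B {f : (ι → ℤ) →+ ℤ} : S.Up K f ≤ S.BK K f := fun t ht => ⟨1, one_mem _, t, ht, by simp⟩
theorem Tp_le {p : ℕ} : S.Tp K p ≤ S.TK K := fun _ ⟨h1, χ, h2, _⟩ => ⟨h1, χ, h2⟩

theorem Mon.pow_id {n : Γ ι Φ K} {χ : (ι → ℤ) → K} (h : S.Mon n LinearMap.id χ) (k : ℕ) :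
    S.Mon (n ^ k) LinearMap.id (fun v => χ v ^ k) := by
  induction k with
  | zero => exact (pow_zero n).symm ▸ Mon.one.congr (fun _ => rfl) (fun _ => by simp)
  | succ k ih => rw [pow_succ]; exact (ih.mul h).congr (fun _ => rfl) (fun v => by simp [pow_succ'])

theorem Mon.pow {n : Γ ι Φ K} {w : (ι → ℤ) →ₗ[ℤ] (ι → ℤ)} {χ : (ι → ℤ) → K} (h : S.Mon n w χ) (k : ℕ) :
    ∃ χ', S.Mon (n ^ k) ((w : Module.End ℤ (ι → ℤ)) ^ k) χ' := by
  induction k with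
  | zero => exact ⟨_, (pow_zero n).symm ▸ Mon.one⟩
  | succ k ih => obtain ⟨χ', ih⟩ := ih; rw [pow_succ, pow_succ]; exact ⟨_, ih.mul h⟩

theorem isPGroup_Tp (p : ℕ) : IsPGroup p (S.Tp K p) := fun ⟨_, _, _, h, h'⟩ =>
  ⟨1, Subtype.ext (by
    simp only [pow_one, SubgroupClass.coe_pow, OneMemClass.coe_one]
    exact (h.pow_id p).eq Mon.one (fun _ => rfl) (fun a _ => h' a))⟩

theorem mem_Lge_bot {l : (ι → ℤ) →+ ℤ} {k : ℤ} (hk : k ≤ 0) (h : ∀ a, S.R a → k ≤ l a) (y : L ι Φ K) :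
    y ∈ S.Lge K l k := by
  have : (S.Lge K l k).mkQ = 0 := lin_ext (S := S.toRS) (fun a ha => by simpa using e_Lge ha (h a ha))
    (fun v => by simpa using hh_Lge hk v)
  simpa using LinearMap.congr_fun this y

theorem Lge_top {l : (ι → ℤ) →+ ℤ} {k : ℤ} (hk : 0 < k) (h : ∀ a, S.R a → l a < k) : S.Lge K l k ≤ ⊥ :=
  Lge_le (fun a ha h1 => absurd (h a ha) (not_lt.mpr h1)) (fun h1 => absurd hk (not_lt.mpr h1))

theorem isPGroup_Up [CharP K 3] (f : (ι → ℤ) →+ ℤ) : IsPGroup 3 (S.Up K f) := by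
  rintro ⟨u, hu⟩
  obtain ⟨N, hN⟩ := (finite_R (S := S.toRS)).image (fun v => |f v|) |>.bddAbove
  have hN' : ∀ a, S.R a → |f a| ≤ N := fun a ha => hN ⟨a, ha, rfl⟩
  have key : ∀ (k : ℕ) y, (((u : Module.End K (L ι Φ K)) - 1) ^ k) y ∈ S.Lge K f (-|N| + k) := by
    intro k y
    induction k with
    | zero => exact mem_Lge_bot (by simp) (fun a ha => by
        have := abs_le.mp ((hN' a ha).trans (le_abs_self N)); simp; omega) _
    | succ k ih =>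
      rw [pow_succ', Module.End.mul_apply, LinearMap.sub_apply, Module.End.one_apply]
      have := U_Lge (l := f) (j := 1) zero_le_one (fun r h _ => h) hu ih
      rwa [show -|N| + (k : ℤ) + 1 = -|N| + ((k + 1 : ℕ) : ℤ) by push_cast; ring] at this
  let k := (2 * |N|).toNat + 1
  have hk : -|N| + ((3 ^ k : ℕ) : ℤ) > |N| := by
    have h1 : k < 3 ^ k := Nat.lt_pow_self (by norm_num)
    have h2 : ((k : ℕ) : ℤ) < ((3 ^ k : ℕ) : ℤ) := by exact_mod_cast h1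
    have := abs_nonneg N
    omega
  refine ⟨k, Subtype.ext (Units.ext ?_)⟩
  have h0 : ((u : Module.End K (L ι Φ K)) - 1) ^ (3 ^ k) = 0 := LinearMap.ext fun y =>
    Lge_top (by have := abs_nonneg N; omega) (fun a ha => by
      have := abs_le.mp ((hN' a ha).trans (le_abs_self N)); omega) (key _ y)
  have h2 : (3 : Module.End K (L ι Φ K)) = 0 := by
    have h3 : ((3 : ℕ) : K) = 0 := CharP.cast_eq_zero K 3
    rw [show (3 : Module.End K (L ι Φ K)) = algebraMap K _ ((3 : ℕ) : K) by rw [map_natCast]; rfl, h3, map_zero]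
  have : ∀ (m : ℕ) (g : Module.End K (L ι Φ K)), (g - 1) ^ (3 ^ m) = g ^ (3 ^ m) - 1 := by
    intro m
    induction m with
    | zero => simp
    | succ m ih =>
      intro g
      rw [pow_succ, pow_mul, pow_mul, ih]
      generalize g ^ 3 ^ m = a
      have : (a - 1) ^ 3 = a ^ 3 - 1 - 3 * (a ^ 2 - a) := by
        have := congrArg (Polynomial.aeval a) (show ((Polynomial.X : Polynomial K) - 1) ^ 3 =
          Polynomial.X ^ 3 - 1 - 3 * (Polynomial.X ^ 2 - Polynomial.X) by ring)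
        simpa only [map_pow, map_sub, map_mul, Polynomial.aeval_X, map_one, map_ofNat] using this
      rw [this, h2, zero_mul, sub_zero]
  rw [this, sub_eq_zero] at h0
  simpa using h0

theorem N_inf_B {f : (ι → ℤ) →+ ℤ} (hb : ∀ i, S.R (Pi.single i 1)) {n : Γ ι Φ K} (hn : n ∈ S.NK K)
    (hB : n ∈ S.BK K f) : n ∈ S.TK K := by
  obtain ⟨t, ht, u, hu, e⟩ := hB
  obtain ⟨w, ψ, hw⟩ := isNK.mon n hn
  obtain ⟨_, χ, h⟩ := id ht
  have key := bruhat_unique (f := f) hw h (inv_mem hu) (one_mem _) (by rw [e]; group)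
  have : w = LinearMap.id := lin_eq_of_roots hb fun a ha => (key a ha).1
  exact ⟨hn, ψ, this ▸ hw⟩

theorem h_mem_Tp {p : ℕ} {ζ : K} (hζ : ζ ^ p = 1) (hp : p ≠ 0) {a : ι → ℤ} (ha : S.R a) :
    S.nn a ζ * S.nn a (-1) ∈ S.Tp K p ∧
      S.Mon (S.nn a ζ * S.nn a (-1)) LinearMap.id (fun v => ζ ^ (S.b a v)) := by
  have h0 : ζ ≠ 0 := by rintro rfl; rw [zero_pow hp] at hζ; exact zero_ne_one hζ
  have hm : S.Mon (S.nn a ζ * S.nn a (-1)) LinearMap.id (fun v => ζ ^ (S.b a v)) :=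
    ((mon_nn ha h0).mul (mon_nn ha (neg_ne_zero.mpr one_ne_zero))).congr (fun v => σ_σ ha v) (fun v => by
      have e1 : S.b a (S.σ a v) = -S.b a v := by rw [← b_σ' ha, σ_self ha]; simp
      have e2 : sg K (-S.b a v) * sg K (S.b a v * S.β a v) * sg K (-S.b a v * S.β a (S.σ a v)) = 1 := by
        rw [← sg_add, ← sg_add, ← sg_zero]
        refine sg_congr ?_
        obtain ⟨c, hc⟩ := Int.even_mul_succ_self (S.b a v - 1)
        refine ⟨c, ?_⟩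
        simp only [σ_apply, map_sub, map_smul, smul_eq_mul, β_self ha]
        linear_combination hc
      rw [e1, neg_neg, ← sg]
      linear_combination ζ ^ S.b a v * e2)
  refine ⟨⟨mul_mem (isNK.nn a ha _ h0) (isNK.nn a ha _ (neg_ne_zero.mpr one_ne_zero)), _, hm, fun v => ?_⟩, hm⟩
  rw [← zpow_natCast, ← zpow_mul, mul_comm, zpow_mul, zpow_natCast, hζ, one_zpow]

theorem cent_Tp [CharP K 3] {f : (ι → ℤ) →+ ℤ} (hf : S.Gen f) {p : ℕ} {ζ : K} (hζ : ζ ^ p = 1) (hp : p ≠ 0)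
    (hζ1 : ζ ^ 2 ≠ 1) {u : Γ ι Φ K} (hu : u ∈ S.Up K f) (h : ∀ t ∈ S.Tp K p, t * u * t⁻¹ = u) : u = 1 := by
  have : u ∈ S.U K ∅ := readout (two_ne K) hf (by simp) hu fun v a ha _ => by
    obtain ⟨h1, h2⟩ := h_mem_Tp hζ hp ha
    have e := h _ h1
    rw [mul_inv_eq_iff_eq_mul] at e
    have h3 := h2.co (s := a) ((u : Module.End K (L ι Φ K)) (hh K v))
    rw [← Module.End.mul_apply, ← Units.val_mul, e, Units.val_mul, Module.End.mul_apply, h2.hh, ha.nrm] at h3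
    simp only [LinearMap.id_apply] at h3
    by_contra h4
    have h5 : ζ ^ (2 : ℤ) = 1 := mul_right_cancel₀ h4 (h3.symm.trans (one_mul _).symm)
    exact hζ1 (by exact_mod_cast h5)
  exact U_le (M := ⊥) (by simp) this

variable [Finite K] [CharP K 3]

theorem fixB {f : (ι → ℤ) →+ ℤ} (hf : S.Gen f) {p : ℕ} [hp : Fact p.Prime] {ζ : K} (hζ : ζ ^ p = 1)
    (hζ1 : ζ ^ 2 ≠ 1) {g : Γ ι Φ K} (hg : g ∈ S.U K Set.univ) (h : ∀ t ∈ S.Tp K p, g⁻¹ * t * g ∈ S.BK K f) :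
    ∃ n ∈ S.NK K, g⁻¹ * n ∈ S.BK K f := by
  obtain ⟨u, hu, n, hn, u2, hu2, e⟩ := bruhat hf isNK hg (one_mem _)
  rw [mul_one] at e; subst e
  have hp2 : p ≠ 3 := by
    rintro rfl
    have h3 : ((3 : ℕ) : K) = 0 := CharP.cast_eq_zero K 3
    have h6 : (ζ - 1) ^ 3 = 0 := by push_cast at h3; linear_combination hζ + (ζ - ζ ^ 2) * h3
    exact hζ1 (by rw [sub_eq_zero.mp (pow_eq_zero_iff three_ne_zero |>.mp h6), one_pow])
  let Un : Subgroup (Γ ι Φ K) := S.Up K f ⊓ (S.BK K f).comap (MulAut.conj n⁻¹).toMonoidHom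
  let Ω : Set (Γ ι Φ K) := {v | u⁻¹ * v ∈ Un}
  have hc : Nat.card Ω = Nat.card Un := Nat.card_congr
    { toFun := fun v => ⟨u⁻¹ * v, v.2⟩
      invFun := fun v => ⟨u * v, by show u⁻¹ * (u * v) ∈ Un; simp⟩
      left_inv := fun v => by simp
      right_inv := fun v => by simp }
  obtain ⟨k, hk⟩ := IsPGroup.iff_card.mp ((isPGroup_Up (S := S) (K := K) f).to_le (inf_le_left : Un ≤ _))
  have hT : ∀ t ∈ S.TK K, n⁻¹ * t * n ∈ S.TK K := by
    rintro t ⟨h1, χ, h2⟩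
    obtain ⟨w, ψ, hw⟩ := isNK.mon n hn
    exact ⟨mul_mem (mul_mem (inv_mem hn) h1) hn, _, ((hw.inv.mul h2).mul hw).congr (fun v => hw.wi_w v)
      (fun _ => rfl)⟩
  obtain ⟨v, hv, hv'⟩ := conj_fixed (isPGroup_Tp (S := S) (K := K) p) Ω (fun t ht v hv => by
    have h1 : v ∈ S.Up K f := by simpa using mul_mem hu hv.1
    refine ⟨(S.Up K f).mul_mem (inv_mem hu) (T_conj (Tp_le ht) h1), ?_⟩
    have h2 : n⁻¹ * (u⁻¹ * v) * n⁻¹⁻¹ ∈ S.BK K f := hv.2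
    have h3 := mul_mem (mul_mem (mul_mem (mul_mem (U_le_B hu2) (h t ht)) (inv_mem (U_le_B hu2))) h2)
      (T_le_B (hT _ (inv_mem (Tp_le ht))))
    show n⁻¹ * (u⁻¹ * (t * v * t⁻¹)) * n⁻¹⁻¹ ∈ S.BK K f
    convert h3 using 1; group) (by
      rw [hc, hk]; exact fun h => hp2 ((Nat.prime_dvd_prime_iff_eq hp.out Nat.prime_three).mp
        (hp.out.dvd_of_dvd_pow h)))
  have h1 : v ∈ S.Up K f := by simpa using mul_mem hu hv.1
  have h2 := cent_Tp hf hζ hp.out.ne_zero hζ1 h1 hv'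
  subst h2
  refine ⟨n, hn, ?_⟩
  have h3 : n⁻¹ * (u⁻¹ * 1) * n⁻¹⁻¹ ∈ S.BK K f := hv.2
  have := mul_mem (inv_mem (U_le_B hu2)) h3
  convert this using 1; group

theorem conj_into_B {f : (ι → ℤ) →+ ℤ} (hf : S.Gen f) (hb : ∀ i, S.R (Pi.single i 1)) {p : ℕ}
    [hp : Fact p.Prime] {ζ : K} (hζ : ζ ^ p = 1) (hζ1 : ζ ^ 2 ≠ 1) {C : Subgroup (Γ ι Φ K)}
    (hCG : C ≤ S.U K Set.univ) (hTC : S.TK K ≤ C)
    (hH : ∀ g ∈ C, ∀ n ∈ S.NK K, g⁻¹ * n ∈ S.BK K f → n ∈ C)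
    (hW : ∀ n ∈ C, ∀ w χ, S.Mon n w χ → (w : Module.End ℤ (ι → ℤ)) ^ p = 1 → w = LinearMap.id)
    {y : Γ ι Φ K} (hy : y ∈ C) (hyp : y ^ p = 1) : ∃ c ∈ C, c⁻¹ * y * c ∈ S.BK K f := by
  let B' := (S.BK K f).subgroupOf C
  let N' := (S.NK K).subgroupOf C
  have hP : IsPGroup p ((S.Tp K p).subgroupOf C) := (isPGroup_Tp p).comap_subtype
  have h1 := hP.card_modEq_card_fixedPoints (C ⧸ B')
  have hT : ∀ n ∈ S.NK K, ∀ t ∈ S.TK K, n⁻¹ * t * n ∈ S.TK K := by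
    rintro n hn t ⟨h1, χ, h2⟩
    obtain ⟨w, ψ, hw⟩ := isNK.mon n hn
    exact ⟨mul_mem (mul_mem (inv_mem hn) h1) hn, _, ((hw.inv.mul h2).mul hw).congr (fun v => hw.wi_w v)
      (fun _ => rfl)⟩
  have h2 : MulAction.fixedPoints ((S.Tp K p).subgroupOf C) (C ⧸ B') =
      MulAction.orbit N' ((1 : C) : C ⧸ B') := by
    ext q
    obtain ⟨c, rfl⟩ := QuotientGroup.mk_surjective q
    constructor
    · intro h
      obtain ⟨n, hn, h3⟩ := fixB hf hζ hζ1 (hCG c.2) fun t ht => by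
        have h4 : (((⟨t, hTC (Tp_le ht)⟩ * c : C)) : C ⧸ B') = c := h ⟨⟨t, hTC (Tp_le ht)⟩, ht⟩
        rw [eq_comm, QuotientGroup.eq] at h4
        have h5 : (c : Γ ι Φ K)⁻¹ * (t * c) ∈ S.BK K f := h4
        rwa [mul_assoc]
      refine ⟨⟨⟨n, hH c c.2 n hn h3⟩, hn⟩, ?_⟩
      show (((⟨n, hH c c.2 n hn h3⟩ * 1 : C)) : C ⧸ B') = c
      rw [mul_one, eq_comm, QuotientGroup.eq]; exact h3
    · rintro ⟨⟨n, hn⟩, h⟩ ⟨t, ht⟩
      have h3 : ((n * 1 : C) : C ⧸ B') = c := h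
      rw [← h3, mul_one]
      show ((t * n : C) : C ⧸ B') = n
      rw [eq_comm, QuotientGroup.eq]
      have := T_le_B (f := f) (hT n hn t (Tp_le ht))
      show (n : Γ ι Φ K)⁻¹ * (t * n) ∈ S.BK K f
      rwa [← mul_assoc]
  have h3 : ¬ p ∣ Nat.card (MulAction.orbit N' ((1 : C) : C ⧸ B')) := by
    rw [Nat.card_congr (MulAction.orbitEquivQuotientStabilizer N' ((1 : C) : C ⧸ B'))]
    have hst : ∀ n : N', n ∈ MulAction.stabilizer N' ((1 : C) : C ⧸ B') ↔ ((n : C) : Γ ι Φ K) ∈ S.TK K := by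
      intro n
      have : n ∈ MulAction.stabilizer N' ((1 : C) : C ⧸ B') ↔ ((1 : C) : C ⧸ B') = ((n * 1 : C) : C ⧸ B') :=
        eq_comm
      rw [this, QuotientGroup.eq, inv_one, one_mul, mul_one]
      exact ⟨fun h => N_inf_B hb n.2 h, fun h => T_le_B h⟩
    haveI : (MulAction.stabilizer N' ((1 : C) : C ⧸ B')).Normal := ⟨fun t ht n => by
      rw [hst] at ht ⊢
      have := hT _ (inv_mem n.2) _ ht
      simpa using this⟩
    intro hd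
    obtain ⟨q, hq⟩ := exists_prime_orderOf_dvd_card' p hd
    obtain ⟨n, rfl⟩ := QuotientGroup.mk_surjective q
    obtain ⟨w, χ, hw⟩ := isNK.mon _ n.2
    have h4 : ((n ^ p : N') : N' ⧸ MulAction.stabilizer N' ((1 : C) : C ⧸ B')) = 1 := by
      rw [QuotientGroup.mk_pow, ← hq, pow_orderOf_eq_one]
    rw [QuotientGroup.eq_one_iff, hst] at h4
    obtain ⟨_, χ', h5⟩ := h4
    obtain ⟨χ'', h6⟩ := hw.pow p
    have h7 := lin_eq_of_roots hb fun a ha =>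
      (bruhat_unique (f := f) h6 h5 (one_mem _) (one_mem _) (by simp) a ha).1
    have h8 := hW _ (n : C).2 w χ hw h7
    have h9 : (n : N' ⧸ MulAction.stabilizer N' ((1 : C) : C ⧸ B')) = 1 := by
      rw [QuotientGroup.eq_one_iff, hst]; exact ⟨n.2, χ, h8 ▸ hw⟩
    rw [h9, orderOf_one] at hq
    exact hp.out.one_lt.ne hq
  rw [h2] at h1
  obtain ⟨c, hc⟩ := conj_into (p := p) B' (fun h => h3 ((Nat.modEq_zero_iff_dvd.mp
    (h1.symm.trans (Nat.modEq_zero_iff_dvd.mpr h))))) (y := ⟨y, hy⟩) (Subtype.ext hyp)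
  exact ⟨c, c.2, hc⟩

end SR

end Cfsg.Agent.LD.E8
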