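import Cfsg.Agent.LD.E4

set_option autoImplicit false
set_option linter.unusedSectionVars false

/-! Involutions lie in Borel subgroups; characteristic polynomials; field maps. -/

namespace Cfsg.Agent.LD.E8

open Cfsg.Agent.H4.Sl Polynomial
open Cfsg.Agent.H4.Sl.RS (L hh Γ lin_ext finite_R co_e_self co_e_ne co_hh b_σ b_σ' σ_apply σ_self σ_σ σ_bij R_ρ
  sum_R lin_eq_of_roots Fr θ Fr_e Fr_hh θ_smul θ_e θ_hh FrΓ coe_FrΓ FrΓ_inj e_ρ hh_single co_ρ)

theorem tri_charpoly {n R : Type*} [Fintype n] [DecidableEq n] [CommRing R] (M : Matrix n n R) (wt : n → ℤ)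
    (h : ∀ i j, i ≠ j → wt i ≤ wt j → M i j = 0) : M.charpoly = ∏ i, (X - C (M i i)) := by
  have h1 : M.BlockTriangular (fun i => -wt i) := fun i j hij =>
    h i j (by rintro rfl; exact lt_irrefl _ hij) (by simp only [neg_lt_neg_iff] at hij; exact hij.le)
  have h2 : (Matrix.diagonal fun i => M i i).BlockTriangular (fun i => -wt i) :=
    Matrix.blockTriangular_diagonal _
  rw [← Matrix.charpoly_diagonal, h1.charpoly, h2.charpoly]
  refine Finset.prod_congr rfl fun a _ => ?_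
  congr 1
  ext ⟨i, hi⟩ ⟨j, hj⟩
  simp only [Matrix.toSquareBlock_def, Matrix.of_apply, Matrix.diagonal_apply]
  split_ifs with hij
  · rw [hij]
  · exact h i j hij (by omega)

namespace SR

variable {ι Φ : Type} [Fintype ι] [DecidableEq ι] [Fintype Φ] [DecidableEq Φ] {S : SR ι Φ}
variable {K : Type*} [Field K]

variable (S) in
def Inv (f : (ι → ℤ) →+ ℤ) (w : (ι → ℤ) →ₗ[ℤ] (ι → ℤ)) : Set (ι → ℤ) := {v | S.R v ∧ 0 < f v ∧ f (w v) < 0}

theorem Inv_fin (f : (ι → ℤ) →+ ℤ) (w : (ι → ℤ) →ₗ[ℤ] (ι → ℤ)) : (S.Inv f w).Finite :=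
  (finite_R (S := S.toRS)).subset fun _ h => h.1

theorem exists_simple {f : (ι → ℤ) →+ ℤ} {w : (ι → ℤ) →ₗ[ℤ] (ι → ℤ)} {v : ι → ℤ} (hv : v ∈ S.Inv f w) :
    ∃ α, S.Simple f α ∧ f (w α) < 0 := by
  have key : ∀ k : ℕ, ∀ v ∈ S.Inv f w, f v ≤ k → ∃ α, S.Simple f α ∧ f (w α) < 0 := by
    intro k
    induction k with
    | zero => rintro v ⟨_, h1, _⟩ h2; simp at h2; omega
    | succ k ih =>
      rintro v ⟨hr, h1, h3⟩ h2
      by_cases hα : S.Simple f v
      · exact ⟨v, hα, h3⟩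
      simp only [RS.Simple, hr, h1, true_and, not_forall, ne_eq, not_not] at hα
      obtain ⟨a, c, ha, hc, h4, h5, rfl⟩ := hα
      simp only [map_add] at h2 h3
      push_cast at h2
      by_cases h6 : f (w a) < 0
      · exact ih a ⟨ha, h4, h6⟩ (by omega)
      · exact ih c ⟨hc, h5, by omega⟩ (by omega)
  exact key (f v).toNat v hv (by omega)

theorem Inv_lt {f : (ι → ℤ) →+ ℤ} (hf : S.Gen f) {w : (ι → ℤ) →ₗ[ℤ] (ι → ℤ)} {α : ι → ℤ} (hα : S.Simple f α)
    (h : f (w α) < 0) : (S.Inv f (w ∘ₗ S.σ α)).ncard < (S.Inv f w).ncard := by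
  rw [← Set.ncard_image_of_injective _ (σ_bij hα.1).1]
  refine Set.ncard_lt_ncard ⟨?_, fun h1 => ?_⟩ (Inv_fin f w)
  · rintro _ ⟨v, ⟨h1, h2, h3⟩, rfl⟩
    refine ⟨hα.1.refl h1, hα.refl hf h1 h2 ?_, h3⟩
    rintro rfl
    rw [LinearMap.comp_apply, σ_self h1, map_neg, map_neg] at h3; omega
  · obtain ⟨v, ⟨_, h2, _⟩, h4⟩ := h1 (show α ∈ S.Inv f w from ⟨hα.1, hα.2.1, h⟩)
    have := congrArg (S.σ α) h4
    rw [σ_σ hα.1, σ_self hα.1] at this
    have h5 := hα.2.1
    rw [this, map_neg] at h2; omega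

theorem Inv_le {f : (ι → ℤ) →+ ℤ} (hf : S.Gen f) {w : (ι → ℤ) →ₗ[ℤ] (ι → ℤ)} {α : ι → ℤ} (hα : S.Simple f α)
    (hw : ∀ v, S.R v → S.R (w v)) (h : ∀ v, S.R v → 0 < f v → w v ≠ α) :
    (S.Inv f (S.σ α ∘ₗ w)).ncard ≤ (S.Inv f w).ncard := by
  refine Set.ncard_le_ncard ?_ (Inv_fin f w)
  rintro v ⟨h1, h2, h3⟩
  refine ⟨h1, h2, ?_⟩
  rcases lt_or_gt_of_ne (hf.ne (hw v h1)) with h4 | h4
  · exact h4
  · have := hα.refl hf (hw v h1) h4 (h v h1 h2)
    rw [LinearMap.comp_apply] at h3; omega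

theorem inv_into_B (h2K : (2 : K) ≠ 0) (hsq : ∀ c : K, ∃ d, d * d = c) {f : (ι → ℤ) →+ ℤ} (hf : S.Gen f)
    (hW : ∀ w : (ι → ℤ) →ₗ[ℤ] (ι → ℤ), (∀ v v', S.b (w v) (w v') = S.b v v') → (∀ v, S.R v → S.R (w v)) →
      Function.Injective w → (∀ v, S.R v → 0 < f v → 0 < f (w v)) → w = LinearMap.id)
    {t : Γ ι Φ K} (ht : t ∈ S.U K Set.univ) (h2 : t * t = 1) : ∃ c : Γ ι Φ K, c⁻¹ * t * c ∈ S.BK K f := by
  have key : ∀ k : ℕ, ∀ (t n u u' : Γ ι Φ K) w χ, n ∈ S.NK K → S.Mon n w χ → u ∈ S.Up K f → u' ∈ S.Up K f →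
      t = u * n * u' → t * t = 1 → (S.Inv f w).ncard < k → ∃ c : Γ ι Φ K, c⁻¹ * t * c ∈ S.BK K f := by
    intro k
    induction k with
    | zero => intro _ _ _ _ _ _ _ _ _ _ _ _ h; exact absurd h (Nat.not_lt_zero _)
    | succ k ih =>
    intro t n u u' w χ hn hw hu hu' e h2 hk
    suffices h : ∃ c : Γ ι Φ K, c⁻¹ * (n * (u' * u)) * c ∈ S.BK K f by
      obtain ⟨c, hc⟩ := h
      exact ⟨u * c, by rw [e]; convert hc using 1; group⟩
    have hv : u' * u ∈ S.Up K f := mul_mem hu' hu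
    have h3 : n * (u' * u) * (n * (u' * u)) = 1 := by
      have : n * (u' * u) * (n * (u' * u)) = u⁻¹ * (t * t) * u := by rw [e]; group
      rw [this, h2]; group
    generalize u' * u = v at hv h3
    by_cases hI : (S.Inv f w).Nonempty
    swap
    · have : w = LinearMap.id := hW w hw.iso hw.root hw.bij.1 fun a ha h4 => by
        rcases lt_or_gt_of_ne (hf.ne (hw.root a ha)) with h5 | h5
        · exact absurd ⟨a, ha, h4, h5⟩ hI
        · exact h5
      subst this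
      exact ⟨1, n, ⟨hn, χ, hw⟩, v, hv, by group⟩
    obtain ⟨α, hα, hwα⟩ := exists_simple hI.some_mem
    have e1 : n * v = v⁻¹ * n⁻¹ := by rw [← mul_inv_rev]; exact eq_inv_of_mul_eq_one_left h3
    have hww : ∀ a, S.R a → w (w a) = a := fun a ha => by
      have := (bruhat_unique hw hw.inv hv (inv_mem hv) e1 a ha).1
      rw [this, hw.w_wi]
    set T : Set (ι → ℤ) := {v | 0 < f v} \ {α} with hT
    have hTT : S.Idl T T := idl_of f (fun r h _ => h.1.le) (fun s h _ => h.1) fun r h4 s h5 hr hs _ =>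
      ⟨by have h6 : 0 < f r := h4.1; have h7 : 0 < f s := h5.1; simp only [Set.mem_setOf_eq, map_add]; omega,
        hα.2.2 r s hr hs h4.1 h5.1⟩
    have hTU : S.U K T ≤ S.Up K f := U_mono fun r h _ => h.1
    have hvT : v ∈ S.U K T := by
      obtain ⟨s, v1, h4, h5⟩ := peel hα.1 (simple_idl hα) hv
      have h6 : S.co K (w α) (((n * v : Γ ι Φ K) : Module.End K (L ι Φ K)) (hh K α)) = 0 := by
        rw [e1, Units.val_mul, Module.End.mul_apply, hw.inv.hh]
        exact co_Lge hwα (U_Lge' (fun r h _ => le_of_lt h) (inv_mem hv) (hh_Lge le_rfl _))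
      rw [Units.val_mul, Module.End.mul_apply, hw.co, h5, Units.val_mul, Module.End.mul_apply, coe_X hα.1] at h6
      have h7 := co_V (s := α) (fun h => h.2 rfl)
        ((simple_idl hα).X_V (Set.mem_singleton α) hα.1 s (hTT.U_hh h4 α))
      rw [map_sub, map_sub, (mul_eq_zero.mp h6).resolve_left (hw.χne α), xh, map_sub, co_hh, map_smul,
        co_e_self hα.1, hα.1.nrm] at h7
      have h8 : s = 0 := by
        push_cast at h7
        simpa [h2K] using h7
      rw [h5, h8, X_zero hα.1, one_mul]; exact h4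
    have hσT : ∀ r ∈ T, S.R r → S.σ α r ∈ T := fun r h4 h5 => ⟨hα.refl hf h5 h4.1 h4.2, fun h6 => by
      have := congrArg (S.σ α) (show S.σ α r = α from h6)
      rw [σ_σ hα.1, σ_self hα.1] at this
      have h7 : 0 < f r := h4.1
      have h8 := hα.2.1
      rw [this, map_neg] at h7; omega⟩
    have hlt := Inv_lt hf hα hwα
    by_cases hc : w α = -α
    · obtain ⟨d, hd⟩ := hsq (-χ (-α))
      have hd0 : d ≠ 0 := by rintro rfl; exact hw.χne (-α) (by simpa using hd.symm)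
      have hI2 : S.Idl {-α} T := by
        rintro _ rfl s h4 _ h5
        refine ⟨by rw [neg_neg]; exact h4.2, fun hb => ?_⟩
        have := hσT s h4 h5
        simp only [map_neg, LinearMap.neg_apply, neg_eq_iff_eq_neg, neg_neg] at hb
        rw [σ_apply, hb] at this
        convert this using 1; module
      have h4 := hI2.conj (X_mem (Set.mem_singleton _) hα.1.ng d⁻¹) hvT
      have h5 := hw.conj hα.1.ng (-d⁻¹)
      rw [map_neg, hc, neg_neg, show χ (-α) * -d⁻¹ = d by field_simp; linear_combination -hd] at h5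
      obtain ⟨c, h6⟩ := ih (S.X K (-α) d⁻¹ * (n * v) * (S.X K (-α) d⁻¹)⁻¹) (S.nn α d * n) (S.X K α (-d)) _
        _ _ (mul_mem (isNK.nn α hα.1 d hd0) hn) ((mon_nn hα.1 hd0).mul hw) (X_mem hα.2.1 hα.1 _) (hTU h4)
        (by
          have h7 : n = S.X K α d * n * S.X K (-α) d⁻¹ := by
            rw [← h5, mul_assoc, X_add hα.1.ng, neg_add_cancel, X_zero hα.1.ng, mul_one]
          rw [nn, ← X_inv hα.1]
          nth_rewrite 1 [h7]; group)
        (by
          have : S.X K (-α) d⁻¹ * (n * v) * (S.X K (-α) d⁻¹)⁻¹ * (S.X K (-α) d⁻¹ * (n * v) * (S.X K (-α) d⁻¹)⁻¹) =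
            S.X K (-α) d⁻¹ * (n * v * (n * v)) * (S.X K (-α) d⁻¹)⁻¹ := by group
          rw [this, h3]; group)
        (by
          have : S.σ α ∘ₗ w = w ∘ₗ S.σ α := LinearMap.ext fun z => by
            have h7 := hw.iso α z
            rw [hc, map_neg, LinearMap.neg_apply, neg_eq_iff_eq_neg] at h7
            simp only [LinearMap.comp_apply, σ_apply, map_sub, map_smul, hc, h7]; module
          rw [this]; omega)
      exact ⟨(S.X K (-α) d⁻¹)⁻¹ * c, by convert h6 using 1; group⟩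
    · have hm := mon_nn (K := K) hα.1 one_ne_zero
      have hmN := isNK.nn (K := K) α hα.1 1 one_ne_zero
      have hm' := hm.inv.congr (w' := S.σ α) (fun z => by
        rw [← hm.wi_w (S.σ α z), σ_σ hα.1]) (fun _ => rfl)
      obtain ⟨c, h6⟩ := ih (S.nn α 1 * (n * v) * (S.nn α 1)⁻¹) (S.nn α 1 * (n * (S.nn α 1)⁻¹)) 1 _
        _ _ (mul_mem hmN (mul_mem hn (inv_mem hmN))) (hm.mul (hw.mul hm')) (one_mem _)
        (hTU (hm.conjU hσT hvT)) (by group)
        (by
          have : S.nn α 1 * (n * v) * (S.nn α (1 : K))⁻¹ * (S.nn α 1 * (n * v) * (S.nn α 1)⁻¹) =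
            S.nn α 1 * (n * v * (n * v)) * (S.nn α 1)⁻¹ := by group
          rw [this, h3]; group)
        (by
          have := Inv_le hf hα (w := w ∘ₗ S.σ α) (fun z hz => hw.root _ (hα.1.refl hz)) fun z hz h7 h8 => by
            have h9 := congrArg w h8
            rw [LinearMap.comp_apply, hww _ (hα.1.refl hz)] at h9
            have h10 := hα.refl hf (hw.root α hα.1).ng (by rw [map_neg]; omega)
              (fun h => hc (neg_eq_iff_eq_neg.mp h))
            rw [map_neg, ← h9, σ_σ hα.1, map_neg] at h10; omega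
          omega)
      exact ⟨(S.nn α 1)⁻¹ * c, by convert h6 using 1; group⟩
  obtain ⟨u, hu, n, hn, u', hu', e⟩ := bruhat hf isNK ht (one_mem _)
  obtain ⟨w, χ, hw⟩ := isNK.mon n hn
  exact key _ t n u u' w χ hn hw hu hu' (by rw [← e, mul_one]) h2 (Nat.lt_succ_self _)

variable (S) in
def wt (f : (ι → ℤ) →+ ℤ) : ι ⊕ Φ → ℤ
  | Sum.inl _ => 0
  | Sum.inr a => f (S.ρ a)

theorem coord_Lge {f : (ι → ℤ) →+ ℤ} {k : ℤ} {y : L ι Φ K} (hy : y ∈ S.Lge K f k) {i : ι ⊕ Φ}
    (hi : S.wt f i < k) : y i = 0 := by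
  have : S.Lge K f k ≤ LinearMap.ker (LinearMap.proj i : L ι Φ K →ₗ[K] K) := by
    refine Lge_le (fun a _ h => ?_) (fun h v => ?_)
    · rcases i with i | i
      · rfl
      · show (if S.ρ i = a then (1 : K) else 0) = 0
        rw [if_neg]; rintro rfl; simp only [wt] at hi; omega
    · rcases i with i | i
      · simp only [wt] at hi; omega
      · rfl
  exact this hy

theorem charpoly_B {f : (ι → ℤ) →+ ℤ} {t u : Γ ι Φ K} {χ : (ι → ℤ) → K} (h : S.Mon t LinearMap.id χ)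
    (hu : u ∈ S.Up K f) : ((t * u : Γ ι Φ K) : Module.End K (L ι Φ K)).charpoly =
      (Polynomial.X - 1) ^ Fintype.card ι * ∏ a, (Polynomial.X - C (χ (S.ρ a))) := by
  let d : ι ⊕ Φ → K := Sum.elim (fun _ => 1) fun a => χ (S.ρ a)
  have h1 : ∀ j, (t : Module.End K (L ι Φ K)) (Pi.single j 1) = d j • Pi.single j 1 := by
    rintro (j | j)
    · rw [← hh_single, h.hh]; simp [d]
    · rw [← e_ρ (S := S.toRS), h.he _ (R_ρ j)]; simp [d]
  have h2 : ∀ j, (Pi.single j 1 : L ι Φ K) ∈ S.Lge K f (S.wt f j) := by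
    rintro (j | j)
    · rw [← hh_single]; exact hh_Lge le_rfl _
    · rw [← e_ρ (S := S.toRS)]; exact e_Lge (R_ρ j) le_rfl
  have h3 : ∀ k, S.Lge K f k ≤ (S.Lge K f k).comap (t : Module.End K (L ι Φ K)) := fun k =>
    Lge_le (fun a ha h4 => by
      rw [Submodule.mem_comap, h.he a ha]; exact Submodule.smul_mem _ _ (e_Lge ha h4))
      (fun h4 v => by rw [Submodule.mem_comap, h.hh]; exact hh_Lge h4 _)
  have h4 : ∀ i j, S.wt f i ≤ S.wt f j →
      LinearMap.toMatrix' ((t * u : Γ ι Φ K) : Module.End K (L ι Φ K)) i j = if i = j then d j else 0 := by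
    intro i j hij
    have := coord_Lge (h3 _ (U_Lge (j := 1) zero_le_one (fun r h _ => h) hu (h2 j))) (i := i) (by omega)
    rw [map_sub, h1, Pi.sub_apply, sub_eq_zero] at this
    rw [LinearMap.toMatrix'_apply, Units.val_mul, Module.End.mul_apply]
    rw [this]; simp [Pi.single_apply]
  rw [← LinearMap.charpoly_toMatrix _ (Pi.basisFun K _), LinearMap.toMatrix_eq_toMatrix',
    tri_charpoly _ (S.wt f) (fun i j hij h5 => by rw [h4 i j h5, if_neg hij])]
  simp only [h4 _ _ le_rfl, if_true, Fintype.prod_sum_type, d]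
  simp

theorem charpoly_conj (c g : Γ ι Φ K) : ((c⁻¹ * g * c : Γ ι Φ K) : Module.End K (L ι Φ K)).charpoly =
    (g : Module.End K (L ι Φ K)).charpoly := by
  rw [← LinearMap.charpoly_toMatrix _ (Pi.basisFun K _), ← LinearMap.charpoly_toMatrix _ (Pi.basisFun K _),
    Units.val_mul, LinearMap.toMatrix_mul, Matrix.charpoly_mul_comm, ← LinearMap.toMatrix_mul, ← Units.val_mul]
  congr 3; group

variable {K' : Type*} [Field K']

theorem charpoly_Fr (φ : K →+* K') (g : Module.End K (L ι Φ K)) : (Fr φ g).charpoly = g.charpoly.map φ := by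
  rw [← LinearMap.charpoly_toMatrix g (Pi.basisFun K _), LinearMap.toMatrix_eq_toMatrix', ← Matrix.charpoly_map,
    ← Matrix.charpoly_toLin']
  rfl

theorem Fr_x (φ : K →+* K') {r : ι → ℤ} (hr : S.R r) (t : K) : Fr φ (S.x K r t) = S.x K' r (φ t) := by
  refine lin_ext (S := S.toRS) (fun a ha => ?_) (fun v => ?_)
  · rw [Fr_e]
    rcases hr.cases ha with rfl | hb | hb
    · simp only [xe2 _ hr, map_add, θ_smul, θ_e, θ_hh, map_pow, map_neg]
    · simp only [xe1 _ _ ha hb, map_add, θ_smul, θ_e, map_mul, ε, map_sg]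
    · simp only [xe0 _ _ ha hb, θ_e]
  · simp only [Fr_hh, xh, map_sub, θ_smul, θ_e, θ_hh, map_mul, map_intCast]

theorem FrΓ_X (φ : K →+* K') {r : ι → ℤ} (hr : S.R r) (t : K) : FrΓ φ (S.X K r t) = S.X K' r (φ t) := by
  ext1; rw [coe_FrΓ, coe_X hr, coe_X hr, Fr_x φ hr]

theorem FrΓ_U (φ : K →+* K') {T : Set (ι → ℤ)} {u : Γ ι Φ K} (hu : u ∈ S.U K T) : FrΓ φ u ∈ S.U K' T := by
  have : S.U K T ≤ (S.U K' T).comap (FrΓ φ) := U_le fun r h hr t => by
    rw [Subgroup.mem_comap, FrΓ_X φ hr]; exact X_mem h hr _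
  exact this hu

end SR

end Cfsg.Agent.LD.E8
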