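import Cfsg.Agent.LD.E5
import Cfsg.Agent.H4.Sl10

set_option autoImplicit false
set_option linter.unusedSectionVars false

/-! Toral elements, reduction to the fundamental alcove, and the link with tabulated data. -/

namespace Cfsg.Agent.LD.E8

open Cfsg.Agent.H4.Sl Polynomial
open Cfsg.Agent.H4.Sl.RS (L hh Γ lin_ext finite_R co_e_self co_e_ne co_hh b_σ b_σ' σ_apply σ_self σ_σ σ_bij R_ρ
  sum_R lin_eq_of_roots Fr θ Fr_e Fr_hh θ_smul θ_e θ_hh FrΓ coe_FrΓ FrΓ_inj e_ρ hh_single co_ρ)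

namespace SR

variable {ι Φ : Type} [Fintype ι] [DecidableEq ι] [Fintype Φ] [DecidableEq Φ] {S : SR ι Φ}
variable {K K' : Type*} [Field K] [Field K']

theorem pow_TU {f : (ι → ℤ) →+ ℤ} {t u : Γ ι Φ K} (ht : t ∈ S.TK K) (hu : u ∈ S.Up K f) (k : ℕ) :
    ∃ u' ∈ S.Up K f, (t * u) ^ k = t ^ k * u' := by
  induction k with
  | zero => exact ⟨1, one_mem _, by simp⟩
  | succ k ih =>
    obtain ⟨u', h1, h2⟩ := ih
    exact ⟨t⁻¹ * u' * t⁻¹⁻¹ * u, mul_mem (T_conj (inv_mem ht) h1) hu, by rw [pow_succ, h2, pow_succ]; group⟩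

theorem toral (hb : ∀ i, S.R (Pi.single i 1)) {f : (ι → ℤ) →+ ℤ} {g c : Γ ι Φ K} (hc : c⁻¹ * g * c ∈ S.BK K f)
    {m : ℕ} [NeZero m] (hg : g ^ m = 1) (φ : K →+* K') {ν : K'} (hν : IsPrimitiveRoot ν m) :
    ∃ s : ι → ℤ, (g : Module.End K (L ι Φ K)).charpoly.map φ =
      (Polynomial.X - 1) ^ Fintype.card ι * ∏ a, (Polynomial.X - C (ν ^ ∑ i, S.ρ a i * s i)) := by
  obtain ⟨t, ht, u, hu, e⟩ := hc
  obtain ⟨_, χ, h⟩ := id ht
  obtain ⟨u', h1, h2⟩ := pow_TU ht hu m
  have h3 : (c⁻¹ * g * c) ^ m = 1 := by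
    have := conj_pow (a := c⁻¹) (b := g) (i := m)
    rw [inv_inv] at this; rw [this, hg]; group
  rw [← e, h3] at h2
  have h4 : ∀ i, ∃ k : ℕ, ν ^ k = φ (χ (Pi.single i 1)) := fun i => by
    have := (bruhat_unique (f := f) (h.pow_id m) Mon.one h1 (one_mem _) (by rw [← h2]; simp) _ (hb i)).2
    obtain ⟨k, _, hk⟩ := hν.eq_pow_of_pow_eq_one (ξ := φ (χ (Pi.single i 1))) (by rw [← map_pow, this, map_one])
    exact ⟨k, hk⟩
  choose s hs using h4
  have hν0 : ν ≠ 0 := hν.ne_zero (NeZero.ne m)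
  have h5 : ∀ v, φ (χ v) = ν ^ ∑ i, v i * s i := fun v => by
    have hz : ∀ (z : ι → ℤ) (k : ℤ), χ (k • z) = χ z ^ k := fun z k => by
      induction k using Int.induction_on with
      | zero => simp [h.χ0]
      | succ k ih => rw [add_smul, one_smul, h.χa_id, ih, zpow_add_one₀ (h.χne z)]
      | pred k ih =>
        rw [sub_smul, one_smul, sub_eq_add_neg, h.χa_id, ih, zpow_sub_one₀ (h.χne z),
          eq_inv_of_mul_eq_one_left (h.χn z)]
    induction v using Pi.single_induction with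
    | zero => simp [h.χ0]
    | add v v' h6 h7 =>
      rw [h.χa_id, map_mul, h6, h7, ← zpow_add₀ hν0, ← Finset.sum_add_distrib]; simp [add_mul]
    | single i k =>
      have : (Pi.single i k : ι → ℤ) = k • Pi.single i 1 := by rw [← Pi.single_smul, smul_eq_mul, mul_one]
      nth_rewrite 1 [this]
      rw [hz, map_zpow₀, ← hs, ← zpow_natCast, ← zpow_mul]
      simp [Pi.single_apply, mul_comm]
  refine ⟨fun i => s i, ?_⟩
  rw [← charpoly_conj c g, e, charpoly_B h hu]
  simp only [Polynomial.map_mul, Polynomial.map_pow, Polynomial.map_sub, map_X, Polynomial.map_one,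
    Polynomial.map_prod, map_C, h5]

variable (S) in
def Ms (m : ℕ) (μ : ι → ℤ) : Multiset (ZMod m) := Finset.univ.val.map fun a => ((S.b μ (S.ρ a) : ℤ) : ZMod m)

theorem Ms_σ (m : ℕ) (μ : ι → ℤ) {r : ι → ℤ} (hr : S.R r) : S.Ms m (S.σ r μ) = S.Ms m μ := by
  choose π hπ using fun a => hr.refl (R_ρ a)
  have : Function.Injective π := fun a c h => S.inj ((σ_bij hr).1 (by rw [← hπ, ← hπ, h]))
  unfold Ms
  conv_rhs => rw [← Multiset.map_univ_val_equiv
    (Equiv.ofBijective π (Finite.injective_iff_bijective.mp this)), Multiset.map_map]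
  refine Multiset.map_congr rfl fun a _ => ?_
  simp [hπ, b_σ' hr]

theorem alcove (hb : ∀ i, S.R (Pi.single i 1)) {ρ0 θ : ι → ℤ} (hρ : ∀ i, S.b (Pi.single i 1) ρ0 = 1)
    (hθ : S.R θ) (hρθ : S.b θ ρ0 = 29) {m : ℕ} (hm : 0 < m) (μ : ι → ℤ) :
    ∃ μ', S.Ms m μ' = S.Ms m μ ∧ (∀ i, 0 ≤ S.b (Pi.single i 1) μ') ∧ S.b θ μ' ≤ m := by
  let G : (ι → ℤ) → ℕ := fun z => (S.b ((30 : ℤ) • z - ρ0) ((30 : ℤ) • z - ρ0)).toNat
  obtain ⟨μ', h1, h2⟩ := (measure G).wf.has_min {z | S.Ms m z = S.Ms m μ} ⟨μ, rfl⟩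
  have h3 : ∀ r (c : ℤ), S.R r → S.Ms m (μ' - c • r) = S.Ms m μ →
      0 ≤ 30 * c * c - c * (30 * S.b r μ' - S.b r ρ0) := fun r c hr h => by
    have h4 : ¬ G (μ' - c • r) < G μ' := h2 _ h
    have h5 := RS.nonneg (S := S.toRS) ((30 : ℤ) • μ' - ρ0)
    have h6 := RS.nonneg (S := S.toRS) ((30 : ℤ) • (μ' - c • r) - ρ0)
    have h7 : S.b ((30 : ℤ) • (μ' - c • r) - ρ0) ((30 : ℤ) • (μ' - c • r) - ρ0) =
        S.b ((30 : ℤ) • μ' - ρ0) ((30 : ℤ) • μ' - ρ0) +
          60 * (30 * c * c - c * (30 * S.b r μ' - S.b r ρ0)) := by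
      simp only [map_sub, map_smul, LinearMap.sub_apply, LinearMap.smul_apply, smul_eq_mul, hr.nrm,
        S.symm μ' r, S.symm ρ0 r]
      ring
    simp only [G] at h4
    omega
  refine ⟨μ', h1, fun i => ?_, ?_⟩
  · have := h3 _ (S.b (Pi.single i 1) μ') (hb i) (by rw [← σ_apply, Ms_σ m μ' (hb i)]; exact h1)
    rw [hρ] at this; nlinarith
  · have := h3 θ m hθ (by
      rw [← h1]
      refine Multiset.map_congr rfl fun a _ => ?_
      rw [map_sub, map_smul, LinearMap.sub_apply, LinearMap.smul_apply, smul_eq_mul]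
      simp)
    rw [hρθ] at this
    have h4 : (0 : ℤ) < m := by exact_mod_cast hm
    by_contra h5
    have h6 : (m : ℤ) + 1 ≤ S.b θ μ' := by omega
    nlinarith

theorem W_id (hb : ∀ i, S.R (Pi.single i 1)) {f : (ι → ℤ) →+ ℤ} (hf : S.Gen f) {c : ι → ℤ}
    (hc : ∀ i, c i = ∑ a, if 0 < f (S.ρ a) then S.ρ a i else 0)
    (h1 : ∀ v, S.R v → S.b c v = 2 → ∃ j, v = Pi.single j 1) (h2 : ∀ i, S.b c (Pi.single i 1) = 2)
    (h3 : Function.Injective c) (w : (ι → ℤ) →ₗ[ℤ] (ι → ℤ)) (hw : ∀ v v', S.b (w v) (w v') = S.b v v')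
    (hr : ∀ v, S.R v → S.R (w v)) (hi : Function.Injective w) (hp : ∀ v, S.R v → 0 < f v → 0 < f (w v)) :
    w = LinearMap.id := by
  have h4 : w c = c := funext fun i => by
    have e : c = ∑ a, if 0 < f (S.ρ a) then S.ρ a else 0 := funext fun i => by
      rw [hc, Finset.sum_apply]; exact Finset.sum_congr rfl fun a _ => by split_ifs <;> rfl
    rw [hc, ← sum_R (S := S.toRS) (fun v => if 0 < f v then v i else 0) hr hi]
    rw [e, map_sum, Finset.sum_apply]
    refine Finset.sum_congr rfl fun a _ => ?_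
    by_cases h5 : 0 < f (S.ρ a)
    · rw [if_pos h5, if_pos (hp _ (R_ρ a) h5)]
    · have h6 := hf.ne (R_ρ a)
      have h7 := hp _ (R_ρ a).ng (by rw [map_neg]; omega)
      rw [map_neg, map_neg] at h7
      rw [if_neg h5, if_neg (by omega), map_zero]; rfl
  choose π hπ using fun i => h1 (w (Pi.single i 1)) (hr _ (hb i)) (by rw [← h4, hw, h2])
  have h5 : Function.Injective π := fun i j h => by
    have := congrFun (hi ((hπ i).trans (h ▸ (hπ j).symm))) i
    by_contra h6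
    simp [Pi.single_apply, h6] at this
  have h6 : ∀ i, π i = i := fun i => h3 (by
    have e : c = ∑ j, c j • (Pi.single j 1 : ι → ℤ) := by
      conv_lhs => rw [← Finset.univ_sum_single c]
      exact Finset.sum_congr rfl fun j _ => by rw [← Pi.single_smul, smul_eq_mul, mul_one]
    have := congrFun h4 (π i)
    rw [← this]
    nth_rewrite 1 [e]
    simp only [map_sum, map_smul, hπ, Finset.sum_apply]
    simp [Pi.single_apply, h5.eq_iff])
  apply (Pi.basisFun ℤ ι).ext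
  intro i
  simp [hπ, h6]

end SR

open Cfsg.Lie

variable {D : ChevalleyDatum}

def bm (D : ChevalleyDatum) : Matrix (Fin D.rank) (Fin D.rank) ℤ :=
  fun i j => if i = j then 1 else if i < j then cm D i j else 0

noncomputable def tsr (h : Tab D) (h2 : ∀ i, cm D i i = 2) : SR (Fin D.rank) (Fin D.nroots) where
  toRS := h.rs
  β := Matrix.toLinearMap₂' ℤ (bm D)
  βs v w := by
    show _ = bD D v w
    simp only [bD, Matrix.toLinearMap₂'_apply, smul_eq_mul]
    rw [Finset.sum_comm (f := fun i j => w i * (v j * bm D i j)), ← Finset.sum_add_distrib]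
    refine Finset.sum_congr rfl fun i _ => ?_
    rw [← Finset.sum_add_distrib]
    refine Finset.sum_congr rfl fun j _ => ?_
    rcases lt_trichotomy i j with h1 | rfl | h1
    · simp [bm, h1, h1.ne, h1.ne', not_lt.mpr h1.le]
    · simp [bm, h2]; ring
    · simp [bm, h1, h1.ne, h1.ne', not_lt.mpr h1.le, h.sym i j]; ring

/-- sign data -/
structure Sgn (h : Tab D) (h2 : ∀ i, cm D i i = 2) (δ : ℕ → ℤ) : Prop where
  neg : ∀ r : Fin D.nroots, ¬ 2 ∣ δ r + δ (D.negIdx.getD r 0)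
  ch : ∀ (r s u : Fin D.nroots) (m : ℤ), (1, m) ∈ D.chainCoeff r s u →
    (m = 1 ∧ 2 ∣ δ r + δ s + δ u + (tsr h h2).β (rhoD D r) (rhoD D s)) ∨
    (m = -1 ∧ ¬ 2 ∣ δ r + δ s + δ u + (tsr h h2).β (rhoD D r) (rhoD D s))

variable (K : Type*) [Field K]

def ΔL (δ : ℕ → ℤ) : Module.End K (L (Fin D.rank) (Fin D.nroots) K) where
  toFun y := fun k => match k with
    | Sum.inl i => y (Sum.inl i)
    | Sum.inr a => sg K (δ a) * y (Sum.inr a)
  map_add' y z := by funext k; cases k <;> simp [mul_add]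
  map_smul' c y := by funext k; cases k <;> simp [mul_left_comm]

theorem ΔL_sq (δ : ℕ → ℤ) : ΔL (D := D) K δ * ΔL K δ = 1 := by
  refine LinearMap.ext fun y => funext fun k => ?_
  cases k <;> simp [ΔL, ← mul_assoc, sg_sq]

def ΔΓ (δ : ℕ → ℤ) : Γ (Fin D.rank) (Fin D.nroots) K := ⟨ΔL K δ, ΔL K δ, ΔL_sq K δ, ΔL_sq K δ⟩

variable {K}

theorem ΔL_hh (δ : ℕ → ℤ) (v : Fin D.rank → ℤ) : ΔL (D := D) K δ (hh K v) = hh K v := by
  funext k; cases k <;> simp [ΔL, hh]

theorem ΔL_e (h : Tab D) (δ : ℕ → ℤ) (a : Fin D.nroots) :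
    ΔL (D := D) K δ (h.rs.e K (h.rs.ρ a)) = sg K (δ a) • h.rs.e K (h.rs.ρ a) := by
  funext k
  rcases k with k | k
  · simp [ΔL, RS.e]
  · by_cases hk : k = a
    · simp [ΔL, RS.e, hk]
    · simp [ΔL, RS.e, hk, h.rs.inj.eq_iff]

theorem link {h : Tab D} {h2 : ∀ i, cm D i i = 2} {δ : ℕ → ℤ} (hs : Sgn h h2 δ) (r : Fin D.nroots) (t : K) :
    ΔL K δ * Matrix.toLin' (D.xMat K r t) = (tsr h h2).x K (rhoD D r) (sg K (δ r) * t) * ΔL K δ := by
  have hr : (tsr h h2).R (rhoD D r) := ⟨r, rfl⟩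
  have hsq := sg_sq (K := K) (δ r)
  have hΔr : ΔL (D := D) K δ (h.rs.e K (rhoD D r)) = sg K (δ r) • h.rs.e K (rhoD D r) := ΔL_e h δ r
  apply (Pi.basisFun K D.Idx).ext
  intro c
  rw [Pi.basisFun_apply, Module.End.mul_apply, Module.End.mul_apply, Matrix.toLin'_apply,
    Matrix.mulVec_single_one]
  rcases c with i | s
  · have e : (D.xMat K r t).col (Sum.inl i) = hh K (Pi.single i 1) - (t * (ca D i r : K)) • h.rs.e K (rhoD D r) := by
      funext k
      rcases k with j | u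
      · simp [ChevalleyDatum.xMat, RS.hh, RS.e, Pi.single_apply]
      · have : h.rs.ρ u = rhoD D r ↔ u = r := h.rs.inj.eq_iff
        simp [ChevalleyDatum.xMat, RS.hh, RS.e, this, ca, mul_comm]
        split_ifs <;> simp
    have : (tsr h h2).b (Pi.single i 1) (rhoD D r) = ca D i r := h.b_single i r
    rw [e, ← RS.hh_single, ΔL_hh, SR.xh, this, map_sub, map_smul, ΔL_hh, hΔr, smul_smul]
    congr 2; ring
  · rw [← RS.e_ρ (S := h.rs), ΔL_e, map_smul]
    have hs' : (tsr h h2).R (h.rs.ρ s) := ⟨s, rfl⟩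
    have hi : ∀ u v, h.rs.ρ u = rhoD D v ↔ u = v := fun u v => h.rs.inj.eq_iff
    have hi' : ∀ u v, h.rs.ρ u = h.rs.ρ v ↔ u = v := fun u v => h.rs.inj.eq_iff
    by_cases h1 : s = r
    · subst h1
      have e : (D.xMat K s t).col (Sum.inr s) = h.rs.e K (h.rs.ρ s) := by
        funext k
        rcases k with j | u <;> simp [ChevalleyDatum.xMat, RS.e, hi']
      rw [e, ΔL_e]
      exact congrArg _ (SR.xe0 _ _ hs' (by have := hr.nrm; exact le_of_le_of_eq (by norm_num) this.symm)).symm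
    by_cases h2' : s.val = D.negIdx.getD r.val 0
    · have h3 : h.rs.ρ s = -rhoD D r := funext fun i => by
        show cr D s i = _
        rw [h2']; exact (h.neg r).2 i
      have h4 := SR.xe2 (sg K (δ r) * t) hr
      rw [← h3] at h4
      have e : (D.xMat K r t).col (Sum.inr s) = h.rs.e K (h.rs.ρ s) + t • hh K (rhoD D r) -
          t ^ 2 • h.rs.e K (rhoD D r) := by
        funext k
        rcases k with j | u
        · simp only [ChevalleyDatum.xMat, Matrix.col_apply, Matrix.of_apply, if_neg h1, if_pos h2']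
          simp [RS.e, RS.hh, rhoD, cr, mul_comm]
        · simp only [ChevalleyDatum.xMat, Matrix.col_apply, Matrix.of_apply, if_neg h1, if_pos h2']
          by_cases h5 : u = s
          · subst h5; simp [RS.e, RS.hh, hi, h1]
          · simp [RS.e, RS.hh, hi, hi', h5]
            split_ifs <;> simp
      have h5 : sg K (δ s) = -sg K (δ r) := by
        rw [← mul_neg_one, ← sg_one, ← sg_add]
        have := hs.neg r
        rw [← h2'] at this
        exact sg_congr (by omega)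
      rw [e, map_sub, map_add, map_smul, map_smul, ΔL_e, ΔL_hh, hΔr]
      refine Eq.trans ?_ (congrArg _ h4).symm
      rw [h5]
      show _ = -sg K (δ r) • (h.rs.e K (h.rs.ρ s) + -(sg K (δ r) * t) • hh K (rhoD D r) +
        (sg K (δ r) * t) ^ 2 • h.rs.e K (rhoD D r))
      match_scalars <;> grind
    have h3 : h.rs.ρ s ≠ -rhoD D r := fun h3 => h2' (by
      have : s = ⟨_, (h.neg r).1⟩ := h.rs.inj (h3.trans (funext (h.neg r).2).symm)
      exact congrArg Fin.val this)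
    have hb : (tsr h h2).b (rhoD D r) (h.rs.ρ s) = ipD D r s := h.b_ip r s
    rcases h.cases r s with ⟨h4, h5⟩ | ⟨h4, u0, m, hm, h5, h6⟩
    · have e : (D.xMat K r t).col (Sum.inr s) = h.rs.e K (h.rs.ρ s) := by
        funext k
        rcases k with j | u
        · simp only [ChevalleyDatum.xMat, Matrix.col_apply, Matrix.of_apply, if_neg h1, if_neg h2']
          simp [RS.e]
        · simp only [ChevalleyDatum.xMat, Matrix.col_apply, Matrix.of_apply, if_neg h1, if_neg h2', h5]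
          simp [RS.e, hi']
      rw [e, ΔL_e]
      exact congrArg _ (SR.xe0 _ _ hs' (by
        rcases hr.cases hs' with h6 | h6 | h6
        · exact absurd h6 h3
        · exact absurd (hb ▸ h6) h4
        · exact h6)).symm
    · have h7 : rhoD D r + h.rs.ρ s = h.rs.ρ u0 := h5.symm
      have h8 := SR.xe1 (S := tsr h h2) _ (sg K (δ r) * t) hs' (hb.trans h4)
      rw [h7] at h8
      have e : (D.xMat K r t).col (Sum.inr s) = h.rs.e K (h.rs.ρ s) + ((m : K) * t) • h.rs.e K (h.rs.ρ u0) := by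
        funext k
        rcases k with j | u
        · simp only [ChevalleyDatum.xMat, Matrix.col_apply, Matrix.of_apply, if_neg h1, if_neg h2']
          simp [RS.e]
        · simp only [ChevalleyDatum.xMat, Matrix.col_apply, Matrix.of_apply, if_neg h1, if_neg h2', h6]
          by_cases h9 : u = u0
          · subst h9; simp [RS.e, hi']
          · have : ¬ (u0 : ℕ) = u := fun h => h9 (Fin.ext h.symm)
            simp [RS.e, hi', h9, this]
      have h9 : (m : K) * sg K (δ u0) = sg K (δ s) * sg K (δ r) * (tsr h h2).ε K (rhoD D r) (h.rs.ρ s) := by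
        rw [SR.ε, ← sg_add, ← sg_add]
        rcases hs.ch r s u0 m (by rw [h6]; simp) with ⟨rfl, h10⟩ | ⟨rfl, h10⟩
        · rw [Int.cast_one, one_mul]
          exact sg_congr (by show 2 ∣ δ u0 - (δ s + δ r + (tsr h h2).β (rhoD D r) (rhoD D s)); omega)
        · rw [Int.cast_neg, Int.cast_one, ← sg_one, ← sg_add]
          exact sg_congr (by show 2 ∣ 1 + δ u0 - (δ s + δ r + (tsr h h2).β (rhoD D r) (rhoD D s)); omega)
      rw [e, map_add, map_smul, ΔL_e, ΔL_e]
      refine Eq.trans ?_ (congrArg _ h8).symm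
      show _ = sg K (δ s) • (h.rs.e K (h.rs.ρ s) +
        (sg K (δ r) * t * (tsr h h2).ε K (rhoD D r) (h.rs.ρ s)) • h.rs.e K (h.rs.ρ u0))
      match_scalars
      · ring
      · linear_combination t * h9

theorem mem_U {h : Tab D} {h2 : ∀ i, cm D i i = 2} {δ : ℕ → ℤ} (hs : Sgn h h2 δ) {g : GL D.Idx K}
    (hg : g ∈ D.group K) : (ΔΓ K δ)⁻¹⁻¹ * toΓ D K g * (ΔΓ K δ)⁻¹ ∈ (tsr h h2).U K Set.univ := by
  have : D.group K ≤ ((tsr h h2).U K Set.univ).comap ((MulAut.conj (ΔΓ K δ)).toMonoidHom.comp (toΓ D K)) := by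
    rw [ChevalleyDatum.group, Subgroup.closure_le]
    rintro g ⟨r, t, e⟩
    show ΔΓ K δ * toΓ D K g * (ΔΓ K δ)⁻¹ ∈ (tsr h h2).U K Set.univ
    have hr : (tsr h h2).R (rhoD D r) := ⟨r, rfl⟩
    have : ΔΓ K δ * toΓ D K g = (tsr h h2).X K (rhoD D r) (sg K (δ r) * t) * ΔΓ K δ := by
      ext1
      rw [Units.val_mul, Units.val_mul, coe_toΓ, e, SR.coe_X hr]
      exact link hs r t
    rw [this, mul_inv_cancel_right]
    exact SR.X_mem (Set.mem_univ _) hr _
  rw [inv_inv]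
  exact this hg

end Cfsg.Agent.LD.E8
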