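import Cfsg.Agent.LD.E7

set_option autoImplicit false
set_option maxRecDepth 100000

/-! Semisimple elements of order 2 and 73 of the group of type E8 over the field with three elements. -/

namespace Cfsg.Agent.LD.E8

open Cfsg.Agent.H4.Sl Cfsg.Lie Polynomial
open Cfsg.Agent.H4.Sl.RS (FrΓ coe_FrΓ Γ L)

theorem bD_eq (v w : Fin 8 → ℤ) : bD chevE8 v w = b8 v w := by
  have : bD chevE8 v w = ∑ i : Fin 8, v i * ∑ j : Fin 8, ca chevE8 i (chevE8.simpleIdx.getD j 0) * w j :=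
    bD_apply chevE8 v w
  rw [this, b8_apply]
  simp only [e8_cm]
  simp [Fin.sum_univ_succ, cart8]; ring

theorem tab8 : Tab chevE8 := fast_tab e8_f1 e8_f2 fun v hv => by
  have := E8.pos v hv
  exact lt_of_lt_of_eq this (bD_eq v v).symm

theorem cm8 (i : Fin chevE8.rank) : cm chevE8 i i = 2 := by
  have : ∀ i : Fin 8, cart8 i i = 2 := by decide
  exact (e8_cm i i).trans (this i)

noncomputable def S8 : SR (Fin 8) (Fin 240) := tsr tab8 cm8

theorem S8_b (v w : Fin 8 → ℤ) : S8.b v w = b8 v w := bD_eq v w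

theorem S8_ρ (r : Fin 240) (i : Fin 8) : S8.ρ r i = crP PE8 r i := fast1_cr e8_f1 r.2 i.2

theorem S8_hb (i : Fin 8) : S8.R (Pi.single i 1) := fast1_hb e8_f1 tab8 i

theorem bm_eq (D : ChevalleyDatum) (i j : Fin D.rank) :
    bm D i j = if (i : ℕ) = j then 1 else if (i : ℕ) < j then cm D i j else 0 := by
  simp only [bm, Fin.ext_iff, Fin.lt_def]

theorem S8_β (r s : Fin 240) : 2 ∣ S8.β (S8.ρ r) (S8.ρ s) - ipN (rowP PE8 r) (rowP BE8 s) := by
  have h1 : S8.β (S8.ρ r) (S8.ρ s) = ∑ i : Fin 8, crP PE8 r i * crP BE8 s i := by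
    have : S8.β (S8.ρ r) (S8.ρ s) = ∑ i : Fin 8, ∑ j : Fin 8, S8.ρ r i • S8.ρ s j • bm chevE8 i j :=
      Matrix.toLinearMap₂'_apply _ _ _
    rw [this]
    refine Finset.sum_congr rfl fun i _ => ?_
    have h2 := all_range (all_range e8_f5 s.2) i.2
    rw [beq_iff_eq, sumP_eq] at h2
    rw [h2, Finset.mul_sum]
    refine Finset.sum_congr rfl fun j _ => ?_
    have : bm chevE8 i j = bmN i j := by
      have h3 : cm chevE8 i j = crP QE8 (chevE8.simpleIdx.getD j 0) i :=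
        fast1_ca e8_f1 (fast1_simple e8_f1 j).1 i.2
      rw [bmN, ← h3]; exact bm_eq chevE8 i j
    rw [this, S8_ρ, S8_ρ, smul_eq_mul, smul_eq_mul]; ring
  refine ⟨256 - 4 * (smN (rowP PE8 r) + smN (rowP BE8 s)), ?_⟩
  rw [h1]
  simp only [Fin.sum_univ_eight, crP, ipN, smN, Nat.add_eq, Nat.mul_eq]
  push_cast
  simp only [show ((0 : Fin 8) : ℕ) = 0 from rfl, show ((1 : Fin 8) : ℕ) = 1 from rfl,
    show ((2 : Fin 8) : ℕ) = 2 from rfl, show ((3 : Fin 8) : ℕ) = 3 from rfl, show ((4 : Fin 8) : ℕ) = 4 from rfl,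
    show ((5 : Fin 8) : ℕ) = 5 from rfl, show ((6 : Fin 8) : ℕ) = 6 from rfl, show ((7 : Fin 8) : ℕ) = 7 from rfl]
  ring

theorem sgn8 : Sgn tab8 cm8 (fun r => (dl r : ℤ)) := by
  refine ⟨fun r => ?_, fun r s u m hm => ?_⟩
  · have := all_range e8_f4 r.2
    rw [beq_iff_eq] at this; omega
  · have h1 := all_zipIdx chevE8.chain #[] (fun x r => chkS r x.toList) e8_f3 r r.2
    simp only [ChevalleyDatum.chainCoeff, List.mem_flatMap, List.mem_filter, List.mem_map,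
      decide_eq_true_eq] at hm
    obtain ⟨e, ⟨he, hes⟩, q, ⟨hq, hqu⟩, hq2⟩ := hm
    have h2 := List.all_eq_true.mp (List.all_eq_true.mp h1 e he) q.1 (List.fst_mem_of_mem_zipIdx hq)
    have h3 : 2 ∣ (tsr tab8 cm8).β (rhoD chevE8 r) (rhoD chevE8 s) - ipN (rowP PE8 r) (rowP BE8 s) := S8_β r s
    rw [hes, hqu, show q.1.2 = m from congrArg Prod.snd hq2] at h2
    simp only [Nat.add_eq, Nat.beq_eq, show ∀ a b : ℕ, Nat.mod a b = a % b from fun _ _ => rfl] at h2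
    split_ifs at h2 with h4
    · exact Or.inl ⟨by simpa using h2, by omega⟩
    · exact Or.inr ⟨by simpa using h2, by omega⟩

def ht8 : (Fin 8 → ℤ) →+ ℤ where
  toFun v := ∑ i, v i
  map_zero' := by simp
  map_add' v w := by simp [Finset.sum_add_distrib]

theorem ht8_ρ (r : Fin 240) : ht8 (S8.ρ r) = htP r := by
  rw [htP, sumP_eq]
  show ∑ i, S8.ρ r i = _
  exact Finset.sum_congr rfl fun i _ => S8_ρ r i

theorem b_c8 (v : Fin 8 → ℤ) : S8.b c8 v = 2 * ht8 v := by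
  rw [S8_b, b8_apply]
  simp [c8, ht8, Fin.sum_univ_eight]; ring

theorem exists_f8 : ∃ f, S8.Gen f ∧ ∀ w : (Fin 8 → ℤ) →ₗ[ℤ] (Fin 8 → ℤ), (∀ v v', S8.b (w v) (w v') = S8.b v v') →
    (∀ v, S8.R v → S8.R (w v)) → Function.Injective w → (∀ v, S8.R v → 0 < f v → 0 < f (w v)) →
    w = LinearMap.id := by
  obtain ⟨f, hf, -, h1, h2⟩ := S8.exists_gen ht8
  have h3 : ∀ r : Fin 240, (if (r : ℕ) < 120 then htP r < 0 else 0 < htP r) ∧ (htP r = 1 → ∃ j < 8, ∀ i < 8,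
      crP PE8 r i = if i = j then 1 else 0) := fun r => by
    have := all_range e8_f6 r.2
    simp only [Bool.and_eq_true, Bool.or_eq_true, bne_iff_ne, List.any_eq_true, List.all_eq_true,
      List.mem_range, beq_iff_eq] at this
    refine ⟨?_, fun h => this.2.resolve_left (not_not.mpr h)⟩
    have := this.1
    split_ifs at this ⊢ <;> simpa using this
  refine ⟨f, hf, SR.W_id S8_hb hf (c := c8) (fun i => ?_) ?_ (fun i => ?_) (by decide)⟩
  · have := e8_f7 i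
    rw [beq_iff_eq, sumP_eq] at this
    rw [this]
    refine Finset.sum_congr rfl fun a _ => ?_
    have h4 := (h3 a).1
    have h5 := h1 _ ⟨a, rfl⟩
    have h6 := h2 _ ⟨a, rfl⟩
    rw [ht8_ρ] at h5 h6
    split_ifs at h4 ⊢ with h7 h8 h8
    · have := h6 h8; omega
    · rfl
    · exact (S8_ρ a i).symm
    · exact absurd (h5 h4) h8
  · rintro _ ⟨r, rfl⟩ h
    rw [b_c8, ht8_ρ] at h
    obtain ⟨j, hj, h4⟩ := (h3 r).2 (by omega)
    exact ⟨⟨j, hj⟩, funext fun i => by rw [S8_ρ, h4 i i.2]; simp [Pi.single_apply, Fin.ext_iff]⟩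
  · rw [b_c8]; simp [ht8, Pi.single_apply]

/-- value of the root with index `r` at the point `s` -/
def val (s : Fin 8 → ℕ) (r : ℕ) : ℤ := ∑ i : Fin 8, crP PE8 r i * s i

theorem to_alcove {m : ℕ} [NeZero m] {K : Type*} [Field K] {ν : K} (hν : ν ^ m = 1) (s : Fin 8 → ℤ) :
    ∃ s' : Fin 8 → ℕ, 2 * s' 0 + 3 * s' 1 + 4 * s' 2 + 6 * s' 3 + 5 * s' 4 + 4 * s' 5 + 3 * s' 6 + 2 * s' 7 ≤ m ∧
      ∏ a, (Polynomial.X - C (ν ^ ∑ i, S8.ρ a i * s i)) = ∏ r : Fin 240, (Polynomial.X - C (ν ^ val s' r)) := by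
  let μ : Fin 8 → ℤ := ![4 * s 0 + 5 * s 1 + 7 * s 2 + 10 * s 3 + 8 * s 4 + 6 * s 5 + 4 * s 6 + 2 * s 7,
    5 * s 0 + 8 * s 1 + 10 * s 2 + 15 * s 3 + 12 * s 4 + 9 * s 5 + 6 * s 6 + 3 * s 7,
    7 * s 0 + 10 * s 1 + 14 * s 2 + 20 * s 3 + 16 * s 4 + 12 * s 5 + 8 * s 6 + 4 * s 7,
    10 * s 0 + 15 * s 1 + 20 * s 2 + 30 * s 3 + 24 * s 4 + 18 * s 5 + 12 * s 6 + 6 * s 7,
    8 * s 0 + 12 * s 1 + 16 * s 2 + 24 * s 3 + 20 * s 4 + 15 * s 5 + 10 * s 6 + 5 * s 7,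
    6 * s 0 + 9 * s 1 + 12 * s 2 + 18 * s 3 + 15 * s 4 + 12 * s 5 + 8 * s 6 + 4 * s 7,
    4 * s 0 + 6 * s 1 + 8 * s 2 + 12 * s 3 + 10 * s 4 + 8 * s 5 + 6 * s 6 + 3 * s 7,
    2 * s 0 + 3 * s 1 + 4 * s 2 + 6 * s 3 + 5 * s 4 + 4 * s 5 + 3 * s 6 + 2 * s 7]
  have hμ : ∀ v, S8.b μ v = ∑ i, v i * s i := fun v => by
    rw [S8_b, b8_apply]; simp [μ, Fin.sum_univ_eight]; ring
  have hθ : S8.ρ 239 = ![2, 3, 4, 6, 5, 4, 3, 2] := funext fun i => by
    rw [S8_ρ]; exact beq_iff_eq.mp (e8_f8 i)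
  obtain ⟨μ', h1, h2, h3⟩ := SR.alcove S8_hb (ρ0 := ![46, 68, 91, 135, 110, 84, 57, 29]) (θ := S8.ρ 239)
    (fun i => by rw [S8_b, b8_apply]; fin_cases i <;> simp) ⟨239, rfl⟩
    (by rw [hθ, S8_b, b8_apply]; simp) (NeZero.pos m) μ
  have h4 : ∀ v, S8.b μ' v = ∑ i, v i * ((S8.b (Pi.single i 1) μ').toNat : ℤ) := fun v => by
    rw [S8.symm]
    conv_lhs => rw [← Finset.univ_sum_single v, map_sum, LinearMap.sum_apply]
    refine Finset.sum_congr rfl fun i _ => ?_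
    rw [Int.toNat_of_nonneg (h2 i), ← smul_eq_mul, ← LinearMap.smul_apply, ← map_smul, ← Pi.single_smul,
      smul_eq_mul, mul_one]
  refine ⟨fun i => (S8.b (Pi.single i 1) μ').toNat, ?_, ?_⟩
  · rw [S8.symm, h4, hθ, Fin.sum_univ_eight] at h3
    simp only [Matrix.cons_val] at h3
    beta_reduce
    omega
  · have hν0 : ν ≠ 0 := by rintro rfl; rw [zero_pow (NeZero.ne m)] at hν; exact zero_ne_one hν
    have h5 : ∀ k : ℤ, ν ^ ((k : ZMod m).val) = ν ^ k := fun k => by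
      rw [← zpow_natCast, ZMod.val_intCast]
      conv_rhs => rw [← Int.emod_add_mul_ediv k m, zpow_add₀ hν0, zpow_mul, zpow_natCast, hν, one_zpow, mul_one]
    have := congrArg (fun M : Multiset (ZMod m) => (M.map fun x => Polynomial.X - C (ν ^ x.val)).prod) h1
    simp only [SR.Ms, Multiset.map_map, Function.comp_def, h5, hμ, h4] at this
    simp only [val, ← S8_ρ]
    exact this.symm

theorem e8_toral (g : chevE8.group (ZMod 3)) {m : ℕ} (hm : m = 2 ∨ m = 73) (hg : g ^ m = 1)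
    {K : Type*} [Field K] [IsAlgClosed K] [Algebra (ZMod 3) K] {ν : K} (hν : IsPrimitiveRoot ν m) :
    ∃ s : Fin 8 → ℕ, 2 * s 0 + 3 * s 1 + 4 * s 2 + 6 * s 3 + 5 * s 4 + 4 * s 5 + 3 * s 6 + 2 * s 7 ≤ m ∧
      (g.1 : Matrix chevE8.Idx chevE8.Idx (ZMod 3)).charpoly.map (algebraMap (ZMod 3) K) =
        (Polynomial.X - 1) ^ 8 * ∏ r : Fin 240, (Polynomial.X - C (ν ^ val s r)) := by
  haveI : NeZero m := ⟨by omega⟩
  obtain ⟨f, hf, hW⟩ := exists_f8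
  let g0 : Γ (Fin 8) (Fin 240) (ZMod 3) :=
    (ΔΓ (D := chevE8) (ZMod 3) fun r => (dl r : ℤ))⁻¹⁻¹ * toΓ chevE8 (ZMod 3) g *
      (ΔΓ (D := chevE8) (ZMod 3) fun r => (dl r : ℤ))⁻¹
  have h0 : g0 ∈ S8.U (ZMod 3) Set.univ := mem_U sgn8 g.2
  have h1 : g0 ^ m = 1 := by
    have : (g : GL chevE8.Idx (ZMod 3)) ^ m = 1 := congrArg Subtype.val hg
    have h3 : ∀ Δ : Γ (Fin chevE8.rank) (Fin chevE8.nroots) (ZMod 3),
        (Δ⁻¹⁻¹ * toΓ chevE8 (ZMod 3) g * Δ⁻¹) ^ m = 1 := fun Δ => by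
      rw [inv_inv, conj_pow, ← map_pow, this, map_one]; group
    exact h3 _
  have h2 : (g0 : Module.End (ZMod 3) (L (Fin 8) (Fin 240) (ZMod 3))).charpoly =
      (g.1 : Matrix chevE8.Idx chevE8.Idx (ZMod 3)).charpoly :=
    (SR.charpoly_conj _ _).trans (Matrix.charpoly_toLin' _)
  suffices h : ∃ s : Fin 8 → ℤ, (g0 : Module.End (ZMod 3) (L (Fin 8) (Fin 240) (ZMod 3))).charpoly.map
      (algebraMap (ZMod 3) K) = (Polynomial.X - 1) ^ Fintype.card (Fin 8) *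
        ∏ a, (Polynomial.X - C (ν ^ ∑ i, S8.ρ a i * s i)) by
    obtain ⟨s, hs⟩ := h
    obtain ⟨s', h3, h4⟩ := to_alcove hν.pow_eq_one s
    exact ⟨s', h3, by rw [← h2, hs, h4, Fintype.card_fin]⟩
  rcases hm with rfl | rfl
  · haveI : CharP K 3 := charP_of_injective_algebraMap (algebraMap (ZMod 3) K).injective 3
    obtain ⟨c, hc⟩ := SR.inv_into_B (two_ne K) (fun c => by
      obtain ⟨d, hd⟩ := IsAlgClosed.exists_eq_mul_self c; exact ⟨d, hd.symm⟩) hf hW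
      (SR.FrΓ_U (algebraMap (ZMod 3) K) h0) (by rw [← map_mul, ← pow_two, h1, map_one])
    obtain ⟨s, hs⟩ := SR.toral S8_hb hc (m := 2) (by rw [← map_pow, h1, map_one]) (RingHom.id K) hν
    exact ⟨s, by rw [← hs, Polynomial.map_id, coe_FrΓ, SR.charpoly_Fr]⟩
  · haveI : Fact (Nat.Prime 73) := ⟨by norm_num⟩
    obtain ⟨ζ, hζ, hζ1⟩ : ∃ ζ : GaloisField 3 12, ζ ^ 73 = 1 ∧ ζ ≠ 1 := by
      obtain ⟨g, hg⟩ := exists_prime_orderOf_dvd_card' (G := (GaloisField 3 12)ˣ) 73 (by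
        rw [Nat.card_units, GaloisField.card 3 12 (by norm_num)]; norm_num)
      refine ⟨g, by rw [← Units.val_pow_eq_pow_val, ← hg, pow_orderOf_eq_one]; rfl, fun h1 => ?_⟩
      rw [Units.val_eq_one.mp h1, orderOf_one] at hg
      norm_num at hg
    obtain ⟨c, -, hc⟩ := SR.conj_into_B hf S8_hb hζ (fun h => hζ1 (by
        have : ζ ^ 73 = (ζ ^ 2) ^ 36 * ζ := by ring
        rw [← hζ, this, h, one_pow, one_mul])) le_rfl (fun t ht => SR.NK_le ht.1)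
      (fun _ _ n hn _ => SR.NK_le hn) (fun n _ w χ _ hw => by
        by_contra h3
        have := rank_prime w hw h3
        rw [Fintype.card_fin] at this; omega)
      (SR.FrΓ_U (algebraMap (ZMod 3) (GaloisField 3 12)) h0) (by rw [← map_pow, h1, map_one])
    let φ : GaloisField 3 12 →ₐ[ZMod 3] K := IsAlgClosed.lift
    obtain ⟨s, hs⟩ := SR.toral S8_hb hc (m := 73) (by rw [← map_pow, h1, map_one]) φ.toRingHom hν
    refine ⟨s, ?_⟩
    rw [← hs, coe_FrΓ, SR.charpoly_Fr, Polynomial.map_map]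
    congr 1
    exact Subsingleton.elim _ _

end Cfsg.Agent.LD.E8
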