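import Cfsg.Agent.LD.K1

set_option autoImplicit false
set_option maxRecDepth 100000

/-! Finite checks (kernel evaluation). -/

namespace Cfsg.Agent.LD.M

theorem c4_tttt : chk4 true true true true = true := by decide +kernel

theorem c4_ttft : chk4 true true false true = true := by decide +kernel

theorem c4_tftt : chk4 true false true true = true := by decide +kernel

theorem c4_tfft : chk4 true false false true = true := by decide +kernel

end Cfsg.Agent.LD.M
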