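import Cfsg.Agent.LD.K1

set_option autoImplicit false
set_option maxRecDepth 100000

/-! Finite checks (kernel evaluation). -/

namespace Cfsg.Agent.LD.M

theorem c4_tttf : chk4 true true true false = true := by decide +kernel

theorem c4_ttff : chk4 true true false false = true := by decide +kernel

theorem c4_tftf : chk4 true false true false = true := by decide +kernel

theorem c4_tfff : chk4 true false false false = true := by decide +kernel

theorem c4_fttt : chk4 false true true true = true := by decide +kernel

theorem c4_fttf : chk4 false true true false = true := by decide +kernel

theorem c4_ftft : chk4 false true false true = true := by decide +kernel

theorem c4_ftff : chk4 false true false false = true := by decide +kernel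

theorem c4_fftt : chk4 false false true true = true := by decide +kernel

theorem c4_fftf : chk4 false false true false = true := by decide +kernel

theorem c4_ffft : chk4 false false false true = true := by decide +kernel

theorem c4_ffff : chk4 false false false false = true := by decide +kernel

end Cfsg.Agent.LD.M
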