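import Cfsg.Agent.LD.K1

set_option autoImplicit false
set_option maxRecDepth 100000

/-! Finite checks (kernel evaluation). -/

namespace Cfsg.Agent.LD.M

theorem k_ns1 : TT.all (fun t => ns LL (t + ⟨0, 0, 0, 0, 0, 0, 0, 112⟩)) = true := by decide +kernel

theorem k_ns2 : TT.all (fun t => ns LL (t + ⟨0, 0, 0, 0, 0, 0, 0, 128⟩)) = true := by decide +kernel

theorem k_O : (List.range 729).all chkO = true := by decide +kernel

theorem k_D : (List.range 243).all chkD = true := by decide +kernel

theorem k_σ5 : (List.range 729).all (chkσ 5 364) = true := by decide +kernel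

theorem k_σ4 : (List.range 243).all (chkσ 4 121) = true := by decide +kernel

end Cfsg.Agent.LD.M
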