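import Cfsg.Agent.LD.K2a
import Cfsg.Agent.LD.K2b
import Cfsg.Agent.LD.K2c

set_option autoImplicit false
set_option maxRecDepth 100000

/-! Soundness of the finite checks. -/

namespace Cfsg.Agent.LD.M

open Cfsg.Agent.H4.Sl Cfsg.Agent.LD.E8

theorem lp_spec {n : ℕ} {p : ℕ → Bool} (h : lp n p = true) {k : ℕ} (hk : k < n) : p k = true := by
  induction n with
  | zero => omega
  | succ n ih =>
    have e : lp (n + 1) p = @Bool.rec (fun _ => Bool) false (lp n p) (p n) := rfl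
    rw [e] at h
    cases hp : p n with
    | false => rw [hp] at h; exact absurd h (by simp)
    | true =>
      rw [hp] at h
      rcases Nat.lt_succ_iff_lt_or_eq.mp hk with h1 | rfl
      · exact ih h h1
      · exact hp

theorem ax_spec {a r x : ℕ} {p : ℕ → Bool} (h : ax (decide (x ≠ 0)) a r p = true) (ha : 0 < a) (hx : a * x ≤ r) :
    p x = true := by
  cases x with
  | zero => exact h
  | succ x =>
    have e : ax (decide (x + 1 ≠ 0)) a r p = lp (r / a) fun k => p (k + 1) := by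
      rw [decide_eq_true (Nat.succ_ne_zero x)]; rfl
    rw [e] at h
    exact lp_spec h (k := x) ((Nat.le_div_iff_mul_le ha).mpr (by rw [mul_comm]; exact hx))

theorem imp_spec {b c : Bool} (h : imp b c = true) (hb : b = true) : c = true := by subst hb; exact h

def Nh (s0 s1 s2 s3 s4 s5 s6 s7 : ℕ) : ℕ :=
  2 * s0 ^ 2 + 4 * s1 ^ 2 + 7 * s2 ^ 2 + 15 * s3 ^ 2 + 10 * s4 ^ 2 + 6 * s5 ^ 2 + 3 * s6 ^ 2 + s7 ^ 2 +
  5 * s0 * s1 + 7 * s0 * s2 + 10 * s0 * s3 + 8 * s0 * s4 + 6 * s0 * s5 + 4 * s0 * s6 + 2 * s0 * s7 +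
  10 * s1 * s2 + 15 * s1 * s3 + 12 * s1 * s4 + 9 * s1 * s5 + 6 * s1 * s6 + 3 * s1 * s7 +
  20 * s2 * s3 + 16 * s2 * s4 + 12 * s2 * s5 + 8 * s2 * s6 + 4 * s2 * s7 +
  24 * s3 * s4 + 18 * s3 * s5 + 12 * s3 * s6 + 6 * s3 * s7 + 15 * s4 * s5 + 10 * s4 * s6 + 5 * s4 * s7 +
  8 * s5 * s6 + 4 * s5 * s7 + 3 * s6 * s7

theorem enum_spec {s0 s1 s2 s3 s4 s5 s6 s7 : ℕ}
    (h : enum (decide (s0 ≠ 0)) (decide (s1 ≠ 0)) (decide (s2 ≠ 0)) (decide (s3 ≠ 0)) (decide (s4 ≠ 0))
      (decide (s5 ≠ 0)) (decide (s6 ≠ 0)) (decide (s7 ≠ 0)) = true)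
    (hs : 2 * s0 + 3 * s1 + 4 * s2 + 6 * s3 + 5 * s4 + 4 * s5 + 3 * s6 + 2 * s7 ≤ 73)
    (hN : Nh s0 s1 s2 s3 s4 s5 s6 s7 % 73 = 0) : leaf s0 s1 s2 s3 s4 s5 s6 s7 = true := by
  unfold enum at h
  simp only [frc_eq, Nat.add_eq, Nat.mul_eq, Nat.sub_eq] at h
  have h := ax_spec h (by norm_num) (by omega)
  have h := ax_spec h (by norm_num) (by omega)
  have h := ax_spec h (by norm_num) (by omega)
  have h := ax_spec h (by norm_num) (by omega)
  have h := ax_spec h (by norm_num) (by omega)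
  have h := ax_spec h (by norm_num) (by omega)
  have h := ax_spec h (by norm_num) (by omega)
  have h := ax_spec h (by norm_num) (by omega)
  refine imp_spec h (Nat.beq_eq ▸ ?_)
  rw [← hN]
  show _ % 73 = _
  congr 1
  unfold Nh; ring

theorem chk4_all (b0 b1 b2 b7 : Bool) : chk4 b0 b1 b2 b7 = true := by
  cases b0 <;> cases b1 <;> cases b2 <;> cases b7
  · exact c4_ffff
  · exact c4_ffft
  · exact c4_fftf
  · exact c4_fftt
  · exact c4_ftff
  · exact c4_ftft
  · exact c4_fttf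
  · exact c4_fttt
  · exact c4_tfff
  · exact c4_tfft
  · exact c4_tftf
  · exact c4_tftt
  · exact c4_ttff
  · exact c4_ttft
  · exact c4_tttf
  · exact c4_tttt

theorem bb_spec {p : Bool → Bool} (h : bb p = true) (b : Bool) : p b = true := by
  rw [bb, Bool.and_eq_true] at h; cases b; exacts [h.2, h.1]

theorem chkM_all (b0 b1 b2 b3 b4 b5 b6 b7 : Bool) : chkM b0 b1 b2 b3 b4 b5 b6 b7 = true :=
  bb_spec (bb_spec (bb_spec (bb_spec (chk4_all b0 b1 b2 b7) b3) b4) b5) b6

theorem pos_le : ∀ r ∈ pos, r.a ≤ 2 ∧ r.b ≤ 3 ∧ r.c ≤ 4 ∧ r.d ≤ 6 ∧ r.e ≤ 5 ∧ r.f ≤ 4 ∧ r.g ≤ 3 ∧ r.h ≤ 2 := by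
  decide +kernel

theorem dot_eq (s r : R8) : R8.dot s r = r.a * s.a + r.b * s.b + r.c * s.c + r.d * s.d + r.e * s.e + r.f * s.f +
    r.g * s.g + r.h * s.h := by
  simp only [R8.dot, Nat.add_eq, Nat.mul_eq]; ring

theorem zp_spec {s r : R8} (hr : r ∈ pos)
    (hs : 2 * s.a + 3 * s.b + 4 * s.c + 6 * s.d + 5 * s.e + 4 * s.f + 3 * s.g + 2 * s.h ≤ 73) :
    R8.dot s r ≤ 73 ∧ (R8.dot s r % 73 = 0 → zp (decide (s.a ≠ 0)) (decide (s.b ≠ 0)) (decide (s.c ≠ 0))
      (decide (s.d ≠ 0)) (decide (s.e ≠ 0)) (decide (s.f ≠ 0)) (decide (s.g ≠ 0)) (decide (s.h ≠ 0)) r = true) := by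
  obtain ⟨h0, h1, h2, h3, h4, h5, h6, h7⟩ := pos_le r hr
  have g0 := Nat.mul_le_mul_right s.a h0
  have g1 := Nat.mul_le_mul_right s.b h1
  have g2 := Nat.mul_le_mul_right s.c h2
  have g3 := Nat.mul_le_mul_right s.d h3
  have g4 := Nat.mul_le_mul_right s.e h4
  have g5 := Nat.mul_le_mul_right s.f h5
  have g6 := Nat.mul_le_mul_right s.g h6
  have g7 := Nat.mul_le_mul_right s.h h7
  rw [dot_eq]
  refine ⟨by omega, fun h => ?_⟩
  have k : ∀ {x y c : ℕ}, x * y = c * y → (!decide (y ≠ 0) || x == c) = true := fun {x y c} e => by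
    by_cases hy : y = 0
    · simp [hy]
    · simp [Nat.eq_of_mul_eq_mul_right (Nat.pos_of_ne_zero hy) e]
  rw [zp, Bool.or_eq_true]
  simp only [Bool.and_eq_true]
  by_cases h8 : r.a * s.a + r.b * s.b + r.c * s.c + r.d * s.d + r.e * s.e + r.f * s.f + r.g * s.g + r.h * s.h = 0
  · exact Or.inl ⟨⟨⟨⟨⟨⟨⟨k (by omega), k (by omega)⟩, k (by omega)⟩, k (by omega)⟩, k (by omega)⟩, k (by omega)⟩,
      k (by omega)⟩, k (by omega)⟩
  · exact Or.inr ⟨⟨⟨⟨⟨⟨⟨k (by omega), k (by omega)⟩, k (by omega)⟩, k (by omega)⟩, k (by omega)⟩, k (by omega)⟩,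
      k (by omega)⟩, k (by omega)⟩

def pk : List ℕ → ℕ
  | [] => 0
  | x :: l => x + 256 * pk l

theorem pk_digit (l : List ℕ) (h : ∀ x ∈ l, x < 256) (k : ℕ) : pk l / 256 ^ k % 256 = l.getD k 0 := by
  induction l generalizing k with
  | nil => simp [pk]
  | cons x l ih =>
    have h1 := h x (List.mem_cons_self ..)
    cases k with
    | zero => simp [pk]; omega
    | succ k =>
      rw [pk, pow_succ', ← Nat.div_div_eq_div_mul, show (x + 256 * pk l) / 256 = pk l by omega,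
        ih fun y hy => h y (List.mem_cons_of_mem _ hy)]
      rfl

theorem pk_dot (s : R8) (l : List R8) : pk (l.map (R8.dot s)) = pk (l.map (·.a)) * s.a + pk (l.map (·.b)) * s.b +
    pk (l.map (·.c)) * s.c + pk (l.map (·.d)) * s.d + pk (l.map (·.e)) * s.e + pk (l.map (·.f)) * s.f +
    pk (l.map (·.g)) * s.g + pk (l.map (·.h)) * s.h := by
  induction l with
  | nil => simp [pk]
  | cons r l ih => simp only [List.map_cons, pk, ih, dot_eq]; ring

theorem pk_C : pk (pos.map (·.a)) = C0 ∧ pk (pos.map (·.b)) = C1 ∧ pk (pos.map (·.c)) = C2 ∧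
    pk (pos.map (·.d)) = C3 ∧ pk (pos.map (·.e)) = C4 ∧ pk (pos.map (·.f)) = C5 ∧ pk (pos.map (·.g)) = C6 ∧
    pk (pos.map (·.h)) = C7 := by decide +kernel

theorem pos_len : pos.length = 120 := by decide +kernel

def rowZ (r : ℕ) : List ℤ := (List.range 8).map (crP PE8 r)
def posZ (r : R8) : List ℤ := [r.a, r.b, r.c, r.d, r.e, r.f, r.g, r.h]

theorem rows_eq : (List.range 240).map rowZ =
    (pos.map fun r => (posZ r).map (-·)).reverse ++ pos.map posZ := by decide +kernel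

def toR (s : Fin 8 → ℕ) : R8 := ⟨s 0, s 1, s 2, s 3, s 4, s 5, s 6, s 7⟩

theorem sum_roots {M : Type*} [AddCommMonoid M] (s : Fin 8 → ℕ) (G : ℤ → M) : ∑ r : Fin 240, G (val s r) =
    (pos.map fun r => G (-(R8.dot (toR s) r : ℕ)) + G (R8.dot (toR s) r : ℕ)).sum := by
  let G' : List ℤ → M := fun l => G (∑ i : Fin 8, l.getD i 0 * s i)
  have h1 : ∑ r : Fin 240, G (val s r) = (((List.range 240).map rowZ).map G').sum := by
    rw [Fin.sum_univ_eq_sum_range (fun r => G (val s r)), List.map_map]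
    refine congrArg List.sum (List.map_congr_left fun r _ => congrArg G ?_)
    exact Finset.sum_congr rfl fun i _ => by simp [rowZ, i.2]
  rw [h1, rows_eq, List.map_append, List.sum_append, List.map_reverse, List.sum_reverse, List.map_map,
    List.map_map, List.sum_map_add]
  congr 2 <;> refine List.map_congr_left fun r _ => congrArg G ?_ <;>
    simp [posZ, dot_eq, toR, Fin.sum_univ_eight]
  ring

def g8 : Matrix (Fin 8) (Fin 8) ℤ := !![4,5,7,10,8,6,4,2; 5,8,10,15,12,9,6,3; 7,10,14,20,16,12,8,4;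
  10,15,20,30,24,18,12,6; 8,12,16,24,20,15,10,5; 6,9,12,18,15,12,8,4; 4,6,8,12,10,8,6,3; 2,3,4,6,5,4,3,2]

theorem gram : ∀ i j : Fin 8, (sumP (fun r => crP PE8 r i * crP PE8 r j) 240 == 60 * g8 i j) = true := by
  decide +kernel

theorem sum_sq (s : Fin 8 → ℕ) : ∑ r : Fin 240, val s r ^ 2 =
    120 * (Nh (s 0) (s 1) (s 2) (s 3) (s 4) (s 5) (s 6) (s 7) : ℕ) := by
  have : ∑ r : Fin 240, val s r ^ 2 = ∑ i : Fin 8, ∑ j : Fin 8, 60 * g8 i j * (s i * s j) := by
    simp only [val, pow_two, Finset.sum_mul_sum]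
    rw [Finset.sum_comm]
    refine Finset.sum_congr rfl fun i _ => ?_
    rw [Finset.sum_comm]
    refine Finset.sum_congr rfl fun j _ => ?_
    rw [← beq_iff_eq.mp (gram i j), sumP_eq, Finset.sum_mul]
    exact Finset.sum_congr rfl fun r _ => by ring
  rw [this]
  simp [Fin.sum_univ_eight, g8, Nh]; ring

theorem hv_neg : ∀ x : ZMod 73, hv (-x).val = hv x.val := by decide +kernel
theorem U73_neg : ∀ x : ZMod 73, U73 (-x).val = U73 x.val := by decide +kernel
theorem wv_eq : ∀ v ≤ 73, wv v + hv (3 * v % 73) = hv (v % 73) + 2 ^ 28 := by decide +kernel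
theorem U73_a : ∀ y < 73, (U73 y).a = if y = 0 then 1 else 0 := by decide +kernel

theorem sum_a (l : List R8) : l.sum.a = (l.map (·.a)).sum := by
  induction l with
  | nil => rfl
  | cons r l ih => rw [List.sum_cons, List.map_cons, List.sum_cons, ← ih]; rfl

def EM (n : ℕ) (k : ℤ) (s : Fin 8 → ℕ) : Multiset (ZMod n) :=
  Multiset.replicate 8 0 + Finset.univ.val.map fun r : Fin 240 => ((k * val s r : ℤ) : ZMod n)

theorem sum_EM {M : Type*} [AddCommMonoid M] (n : ℕ) (k : ℤ) (s : Fin 8 → ℕ) (g : ZMod n → M) :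
    ((EM n k s).map g).sum = 8 • g 0 + ∑ r : Fin 240, g ((k * val s r : ℤ) : ZMod n) := by
  simp only [EM, Multiset.map_add, Multiset.sum_add, Multiset.map_replicate, Multiset.sum_replicate,
    Multiset.map_map]
  rfl

def Sol : List R8 → R8 → Prop
  | [], t => t = 0
  | v :: l, t => ∃ (n : ℕ) (t' : R8), Sol l t' ∧ t = n • v + t'

theorem ns_spec (l : List R8) : ∀ t, ns l t = true → ¬ Sol l t := by
  induction l with
  | nil => intro t h h1; simp [ns, show t = 0 from h1] at h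
  | cons v l ih =>
    have key : ∀ k t, nsi v (ns l) k t = true → ¬ Sol (v :: l) t := fun k => by
      induction k with
      | zero => intro t h; simp [nsi] at h
      | succ k ih2 =>
        rintro t h ⟨n, t', h1, rfl⟩
        simp only [nsi, Bool.and_eq_true, Bool.or_eq_true, frc8_eq] at h
        cases n with
        | zero => exact ih _ h.1 (by simpa using h1)
        | succ n =>
          rw [succ_nsmul', add_assoc] at h
          generalize hu : n • v + t' = u at h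
          rcases h.2 with h2 | h2
          · have : le8 v (v + u) = true := by
              simp only [le8, R8.add_def, Bool.and_eq_true, Nat.ble_eq]; omega
            rw [this] at h2; exact absurd h2 (by decide)
          · refine ih2 _ h2 ⟨n, t', h1, ?_⟩
            rw [hu]; ext <;> simp [sub8, R8.add_def]
    exact key 250

theorem Sol_zero (l : List R8) : Sol l 0 := by
  induction l with
  | nil => rfl
  | cons v l ih => exact ⟨0, 0, ih, by simp⟩

theorem Sol_add (l : List R8) : ∀ x y, Sol l x → Sol l y → Sol l (x + y) := by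
  induction l with
  | nil => intro x y h1 h2; rw [show x = 0 from h1, show y = 0 from h2, add_zero]; rfl
  | cons v l ih =>
    rintro _ _ ⟨n, t, h1, rfl⟩ ⟨n', t', h2, rfl⟩
    exact ⟨n + n', t + t', ih _ _ h1 h2, by rw [add_nsmul]; abel⟩

theorem Sol_mem {l : List R8} {v : R8} (h : v ∈ l) : Sol l v := by
  induction l with
  | nil => simp at h
  | cons w l ih =>
    rcases List.mem_cons.mp h with rfl | h
    · exact ⟨1, 0, Sol_zero l, by simp⟩
    · exact ⟨0, v, ih h, by simp⟩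

theorem Sol_ind {p : R8 → Prop} (p0 : p 0) (pa : ∀ x y, p x → p y → p (x + y)) {l : List R8} (h : ∀ v ∈ l, p v) :
    ∀ t, Sol l t → p t := by
  induction l with
  | nil => intro t h1; rw [show t = 0 from h1]; exact p0
  | cons v l ih =>
    rintro _ ⟨n, t, h1, rfl⟩
    refine pa _ _ ?_ (ih (fun x hx => h x (List.mem_cons_of_mem _ hx)) t h1)
    induction n with
    | zero => simpa using p0
    | succ n ih2 => rw [succ_nsmul]; exact pa _ _ ih2 (h v (List.mem_cons_self ..))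

theorem Sol_small {t : R8} (h : Sol LL t) (hd : t.dim = 248) (h2 : t.h = 112 ∨ t.h = 128) : 20 ≤ t.a := by
  have := Sol_ind (p := fun t => (t.dim - t.a) % 12 = 0 ∧ 2 * t.h ≤ t.a + t.dim ∧ t.dim ≤ 2 * t.h + t.a ∧
    (2 * t.h = t.a + t.dim → t.a % 6 = 0)) (by decide) (fun x y h1 h2 => by
      simp only [R8.dim, R8.add_def] at h1 h2 ⊢; omega) (l := LL) (by decide +kernel) t h
  omega

end Cfsg.Agent.LD.M
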