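import Cfsg.Agent.LD.K3

set_option autoImplicit false
set_option maxRecDepth 100000
set_option maxHeartbeats 200000

/-! Elements of order 73 in type E8 with Frobenius-stable eigenvalues. -/

namespace Cfsg.Agent.LD.M

open Cfsg.Agent.H4.Sl Cfsg.Agent.LD.E8

theorem rec_sum (w : ℕ → ℕ) (n : ℕ) :
    (@Nat.rec (fun _ => ℕ) 0 (fun k ih => Nat.add (w k) ih) n) = ∑ k ∈ Finset.range n, w k := by
  induction n with
  | zero => rfl
  | succ n ih => rw [Finset.sum_range_succ, ← ih]; exact Nat.add_comm _ _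

theorem sum_getD (w : ℕ → ℕ) (l : List ℕ) : ∑ k ∈ Finset.range l.length, w (l.getD k 0) = (l.map w).sum := by
  induction l with
  | nil => rfl
  | cons x l ih => rw [List.length_cons, Finset.sum_range_succ', List.map_cons, List.sum_cons, ← ih, add_comm]; rfl

theorem dig (V n : ℕ) : Nat.land (Nat.shiftRight V (Nat.mul 8 n)) 255 = V / 256 ^ n % 256 := by
  show (V >>> (8 * n)) &&& (2 ^ 8 - 1) = _
  rw [Nat.and_two_pow_sub_one_eq_mod, Nat.shiftRight_eq_div_pow, pow_mul]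
  norm_num

theorem hsum_def (V : ℕ) : hsum V = ∑ k ∈ Finset.range 120, wv (V / 256 ^ k % 256) := by
  unfold hsum
  refine (rec_sum (fun k => wv (Nat.land (Nat.shiftRight V (Nat.mul 8 k)) 255)) 120).trans ?_
  exact Finset.sum_congr rfl fun k _ => congrArg wv (dig V k)

theorem hsum_eq (l : List ℕ) (h : ∀ x ∈ l, x < 256) (hl : l.length = 120) : hsum (pk l) = (l.map wv).sum := by
  refine (hsum_def _).trans (Eq.trans ?_ (sum_getD wv l))
  rw [hl]
  exact Finset.sum_congr rfl fun k _ => congrArg wv (pk_digit l h k)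

theorem h8 : 8 • U73 (0 : ZMod 73).val = ⟨8, 0, 0, 0, 0, 0, 0, 0⟩ := by decide +kernel

theorem EM_TS (s : Fin 8 → ℕ) : ((EM 73 1 s).map fun x => U73 x.val).sum = TS (toR s) := by
  rw [sum_EM, sum_roots s fun k => U73 ((1 * k : ℤ) : ZMod 73).val, h8]
  unfold TS
  refine congrArg (fun l : List R8 => (⟨8, 0, 0, 0, 0, 0, 0, 0⟩ : R8) + l.sum) (List.map_congr_left fun r _ => ?_)
  simp only [one_mul, Int.cast_neg, U73_neg, Int.cast_natCast, ZMod.val_natCast]; rfl

theorem hinv {n : ℕ} {E : Multiset (ZMod n)} (h : E.map (3 * ·) = E) {M : Type} [AddCommMonoid M]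
    (g : ZMod n → M) : (E.map fun x => g (3 * x)).sum = (E.map g).sum := by
  conv_rhs => rw [← h, Multiset.map_map]
  rfl

theorem EM_N (s : Fin 8 → ℕ) (h : (EM 73 1 s).map (3 * ·) = EM 73 1 s) :
    Nh (s 0) (s 1) (s 2) (s 3) (s 4) (s 5) (s 6) (s 7) % 73 = 0 := by
  have h1 := hinv h fun x => x ^ 2
  simp only [sum_EM, one_mul, mul_pow, ← Finset.mul_sum] at h1
  have h2 := congrArg (Int.cast : ℤ → ZMod 73) (sum_sq s)
  generalize Nh (s 0) (s 1) (s 2) (s 3) (s 4) (s 5) (s 6) (s 7) = N at h2 ⊢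
  push_cast at h2
  rw [h2] at h1
  have h3 : (N : ZMod 73) = 0 := by
    have h4 : (960 : ZMod 73) * 20 = 1 := by decide
    linear_combination 20 * h1 - (N : ZMod 73) * h4
  exact Nat.mod_eq_zero_of_dvd ((ZMod.natCast_eq_zero_iff _ _).mp h3)

theorem cnt (t : R8) (l : List R8) : (l.map fun r => U73 (Nat.mod (R8.dot t r) 73) +
    U73 (Nat.mod (R8.dot t r) 73)).sum.a = 2 * l.countP fun r => R8.dot t r % 73 = 0 := by
  induction l with
  | nil => rfl
  | cons r l ih =>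
    rw [List.map_cons, List.sum_cons, List.countP_cons, mul_add, ← ih, add_comm]
    have := U73_a (R8.dot t r % 73) (Nat.mod_lt _ (by norm_num))
    show _ + ((U73 (R8.dot t r % 73)).a + (U73 (R8.dot t r % 73)).a) = _
    rw [this]
    by_cases h2 : R8.dot t r % 73 = 0 <;> simp [h2]

theorem add_a (x y : R8) : (x + y).a = x.a + y.a := rfl

theorem TS_a (t : R8) : (TS t).a = 8 + 2 * pos.countP fun r => R8.dot t r % 73 = 0 := by
  unfold TS
  rw [add_a, cnt]

theorem cntZ (t : R8) (hs : 2 * t.a + 3 * t.b + 4 * t.c + 6 * t.d + 5 * t.e + 4 * t.f + 3 * t.g + 2 * t.h ≤ 73)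
    (h : ¬ (TS t).a < 20) : 6 ≤ pos.countP (zp (decide (t.a ≠ 0)) (decide (t.b ≠ 0)) (decide (t.c ≠ 0))
      (decide (t.d ≠ 0)) (decide (t.e ≠ 0)) (decide (t.f ≠ 0)) (decide (t.g ≠ 0)) (decide (t.h ≠ 0))) := by
  have h3 := List.countP_mono_left (l := pos) fun r hr (h4 : decide (R8.dot t r % 73 = 0) = true) =>
    (zp_spec (s := t) hr hs).2 (of_decide_eq_true h4)
  rw [TS_a] at h
  exact le_trans (by omega) h3

theorem VV_eq (t : R8) : VV t.a t.b t.c t.d t.e t.f t.g t.h = pk (pos.map (R8.dot t)) := by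
  obtain ⟨c0, c1, c2, c3, c4, c5, c6, c7⟩ := pk_C
  rw [pk_dot, c0, c1, c2, c3, c4, c5, c6, c7]
  unfold VV
  generalize C0 = x0, C1 = x1, C2 = x2, C3 = x3, C4 = x4, C5 = x5, C6 = x6, C7 = x7
  simp only [Nat.add_eq, Nat.mul_eq]; ring

theorem wsum (t : R8) (l : List R8) (hl : ∀ r ∈ l, R8.dot t r ≤ 73) : ((l.map (R8.dot t)).map wv).sum +
    (l.map fun r => hv (3 * R8.dot t r % 73)).sum =
    (l.map fun r => hv (R8.dot t r % 73)).sum + 268435456 * l.length := by
  induction l with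
  | nil => simp
  | cons r l ih =>
    have h7 := ih fun x hx => hl x (List.mem_cons_of_mem _ hx)
    have h8 := wv_eq _ (hl r (List.mem_cons_self ..))
    simp only [List.map_cons, List.sum_cons, List.length_cons]
    generalize wv (R8.dot t r) = a, hv (3 * R8.dot t r % 73) = b, hv (R8.dot t r % 73) = c at h8 ⊢
    omega

theorem EM_H (s : Fin 8 → ℕ) (h : (EM 73 1 s).map (3 * ·) = EM 73 1 s) :
    (pos.map fun r => hv (3 * R8.dot (toR s) r % 73)).sum = (pos.map fun r => hv (R8.dot (toR s) r % 73)).sum := by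
  have h5 := hinv h fun x => hv x.val
  rw [sum_EM, sum_EM, sum_roots s fun k => hv (3 * ((1 * k : ℤ) : ZMod 73)).val,
    sum_roots s fun k => hv ((1 * k : ℤ) : ZMod 73).val] at h5
  have e3 : ∀ n : ℕ, (3 : ZMod 73) * n = ((3 * n : ℕ) : ZMod 73) := fun n => by push_cast; rfl
  generalize pos = l at h5 ⊢
  simp only [one_mul, Int.cast_neg, mul_neg, hv_neg, Int.cast_natCast, e3, ZMod.val_natCast, mul_zero,
    List.sum_map_add] at h5
  omega

theorem leaf_spec (t : R8) (h1 : leaf t.a t.b t.c t.d t.e t.f t.g t.h = true)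
    (h4 : hsum (VV t.a t.b t.c t.d t.e t.f t.g t.h) = 32212254720) : (TS t).a < 20 ∨ TS t ∈ TT := by
  unfold leaf at h1
  rw [frc_eq, frc8_eq, h4] at h1
  have h5 := imp_spec h1 (Nat.beq_refl _)
  simpa only [Bool.or_eq_true, decide_eq_true_eq, List.contains_iff_mem] using h5

theorem main73 (s : Fin 8 → ℕ)
    (hs : 2 * s 0 + 3 * s 1 + 4 * s 2 + 6 * s 3 + 5 * s 4 + 4 * s 5 + 3 * s 6 + 2 * s 7 ≤ 73)
    (h : (EM 73 1 s).map (3 * ·) = EM 73 1 s) :
    ((EM 73 1 s).map fun x => U73 x.val).sum.a < 20 ∨ ((EM 73 1 s).map fun x => U73 x.val).sum ∈ TT := by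
  rw [EM_TS]
  by_cases hc : (TS (toR s)).a < 20
  · exact Or.inl hc
  have h1 := enum_spec (imp_spec (chkM_all _ _ _ _ _ _ _ _) (Nat.ble_eq ▸ cntZ (toR s) hs hc)) hs (EM_N s h)
  refine leaf_spec (toR s) h1 ?_
  have h3 : ∀ r ∈ pos, R8.dot (toR s) r ≤ 73 := fun r hr => (zp_spec (s := toR s) hr hs).1
  rw [VV_eq, hsum_eq _ (fun x hx => by obtain ⟨r, hr, rfl⟩ := List.mem_map.mp hx; have := h3 r hr; omega)
    (by rw [List.length_map, pos_len])]
  have h7 := wsum (toR s) pos h3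
  rw [pos_len, EM_H s h] at h7
  omega

end Cfsg.Agent.LD.M
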