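import Mathlib

set_option autoImplicit false
set_option linter.unusedSectionVars false

/-! Modules for `SL₂(q)` in the defining characteristic three: highest weight vectors. -/

namespace Cfsg.Agent.LD.M

open Polynomial Matrix

theorem charpoly_sub_quot {k V : Type*} [Field k] [Infinite k] [AddCommGroup V] [Module k V]
    [FiniteDimensional k V] (f : Module.End k V) (W : Submodule k V) (h : W ≤ W.comap f) :
    f.charpoly = (f.restrict h).charpoly * (W.mapQ W f h).charpoly := by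
  refine Polynomial.funext fun t => ?_
  have h' : W ≤ W.comap (algebraMap k (Module.End k V) t - f) := fun x hx => by
    simpa using W.sub_mem (W.smul_mem t hx) (h hx)
  rw [eval_mul, LinearMap.eval_charpoly, LinearMap.eval_charpoly, LinearMap.eval_charpoly,
    LinearMap.det_eq_det_mul_det W _ h']
  congr 2
  ext x; simp

theorem exists_common_ker {k M ι : Type*} [Field k] [AddCommGroup M] [Module k M] [Nontrivial M] (s : Finset ι)
    (N : ι → Module.End k M) (hc : ∀ i j, N i * N j = N j * N i) (hn : ∀ i, N i ^ 3 = 0) :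
    ∃ v ≠ 0, ∀ i ∈ s, N i v = 0 := by
  classical
  induction s using Finset.induction_on with
  | empty => obtain ⟨v, hv⟩ := exists_ne (0 : M); exact ⟨v, hv, by simp⟩
  | insert j s _ ih =>
    obtain ⟨v, hv, h⟩ := ih
    have h1 : ∀ w, (∀ i ∈ s, N i w = 0) → ∀ i ∈ s, N i (N j w) = 0 := fun w hw i hi => by
      rw [← Module.End.mul_apply, hc, Module.End.mul_apply, hw i hi, map_zero]
    have h2 : ∀ w ≠ 0, (∀ i ∈ s, N i w = 0) → N j w = 0 → ∃ v ≠ 0, ∀ i ∈ insert j s, N i v = 0 :=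
      fun w h3 h4 h5 => ⟨w, h3, fun i hi => by
        rcases Finset.mem_insert.mp hi with rfl | hi
        · exact h5
        · exact h4 i hi⟩
    by_cases h3 : N j v = 0
    · exact h2 v hv h h3
    by_cases h4 : N j (N j v) = 0
    · exact h2 _ h3 (h1 v h) h4
    · exact h2 _ h4 (h1 _ (h1 v h)) (by simpa [pow_succ] using LinearMap.congr_fun (hn j) v)

theorem exists_fixed {F k M : Type*} [Field F] [Fintype F] [CharP F 3] [Field k] [CharP k 3] [AddCommGroup M]
    [Module k M] [Nontrivial M] (u : F → Module.End k M) (h0 : u 0 = 1) (ha : ∀ c d, u (c + d) = u c * u d) :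
    ∃ v ≠ 0, ∀ c, u c v = v := by
  obtain ⟨v, hv, h⟩ := exists_common_ker Finset.univ (fun c => u c - 1) (fun c d => by
    simp only [mul_sub, sub_mul, mul_one, one_mul, ← ha, add_comm c d]; abel) fun c => by
    have h3 : (3 : Module.End k M) = 0 := by
      have h3 : ((3 : ℕ) : k) = 0 := CharP.cast_eq_zero k 3
      rw [show (3 : Module.End k M) = algebraMap k _ ((3 : ℕ) : k) by rw [map_natCast]; rfl, h3, map_zero]
    have h4 : u c ^ 3 = 1 := by
      have : c + c + c = 0 := by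
        have h5 : ((3 : ℕ) : F) = 0 := CharP.cast_eq_zero F 3
        push_cast at h5; linear_combination c * h5
      rw [pow_three', ← ha, ← ha, this, h0]
    have := congrArg (Polynomial.aeval (u c)) (show ((X : k[X]) - 1) ^ 3 = X ^ 3 - 1 - 3 * (X ^ 2 - X) by ring)
    simp only [map_pow, map_sub, map_mul, aeval_X, map_one, map_ofNat] at this
    rw [this, h3, h4]; simp
  exact ⟨v, hv, fun c => by simpa [sub_eq_zero] using h c (Finset.mem_univ _)⟩

abbrev G (F : Type*) [Field F] := Matrix.SpecialLinearGroup (Fin 2) F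

section
variable {F : Type*} [Field F]

def lo (c : F) : G F := ⟨!![1, 0; c, 1], by simp [det_fin_two]⟩
def up (c : F) : G F := ⟨!![1, c; 0, 1], by simp [det_fin_two]⟩
def dg (t : Fˣ) : G F := ⟨!![(t : F), 0; 0, (t : F)⁻¹], by simp [det_fin_two]⟩
def wn : G F := ⟨!![0, 1; -1, 0], by simp [det_fin_two]⟩

def en (g : G F) : Matrix (Fin 2) (Fin 2) F := g.1

theorem en_mul (g h : G F) : en (g * h) = en g * en h := rfl
theorem en_one : en (1 : G F) = 1 := rfl
theorem en_lo (c : F) : en (lo c) = !![1, 0; c, 1] := rfl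
theorem en_up (c : F) : en (up c) = !![1, c; 0, 1] := rfl
theorem en_dg (t : Fˣ) : en (dg t) = !![(t : F), 0; 0, (t : F)⁻¹] := rfl
theorem en_wn : en (wn : G F) = !![0, 1; -1, 0] := rfl

theorem G_ext {g h : G F} (h1 : en g 0 0 = en h 0 0) (h2 : en g 0 1 = en h 0 1) (h3 : en g 1 0 = en h 1 0)
    (h4 : en g 1 1 = en h 1 1) : g = h := by
  ext i j; fin_cases i <;> fin_cases j <;> assumption

theorem G_mul (g h : G F) (i j : Fin 2) : en (g * h) i j = en g i 0 * en h 0 j + en g i 1 * en h 1 j := by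
  rw [en_mul, Matrix.mul_apply, Fin.sum_univ_two]

theorem G_det (g : G F) : en g 0 0 * en g 1 1 - en g 0 1 * en g 1 0 = 1 := by rw [← det_fin_two]; exact g.2

theorem lo_zero : lo (0 : F) = 1 := by apply G_ext <;> simp [en_lo, en_one]
theorem up_zero : up (0 : F) = 1 := by apply G_ext <;> simp [en_up, en_one]
theorem lo_add (c d : F) : lo (c + d) = lo c * lo d := by apply G_ext <;> simp [en_lo, G_mul]
theorem up_add (c d : F) : up (c + d) = up c * up d := by apply G_ext <;> simp [en_up, G_mul, add_comm]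
theorem dg_one : dg (1 : Fˣ) = 1 := by apply G_ext <;> simp [en_dg, en_one]
theorem dg_mul (s t : Fˣ) : dg (s * t) = dg s * dg t := by apply G_ext <;> simp [en_dg, G_mul, mul_comm]
theorem dg_lo (t : Fˣ) (c : F) : dg t * lo c = lo (c * (t : F)⁻¹ * (t : F)⁻¹) * dg t := by
  apply G_ext <;> simp [en_dg, en_lo, G_mul, mul_comm]
theorem wn_up (c : F) : wn * up c = lo (-c) * wn := by apply G_ext <;> simp [en_wn, en_up, en_lo, G_mul]

theorem cell1 (g : G F) (h : en g 0 0 ≠ 0) :
    g = lo (en g 1 0 / en g 0 0) * dg (Units.mk0 _ h) * up (en g 0 1 / en g 0 0) := by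
  have := G_det g
  apply G_ext <;> simp [en_dg, en_up, en_lo, G_mul] <;> field_simp
  linear_combination this

theorem cell2 (g : G F) (h : en g 0 0 = 0) : ∃ h' : en g 0 1 ≠ 0,
    g = lo (en g 1 1 / en g 0 1) * dg (Units.mk0 _ h') * wn := by
  have := G_det g
  rw [h, zero_mul, zero_sub] at this
  have h' : en g 0 1 ≠ 0 := fun h1 => by rw [h1] at this; simp at this
  refine ⟨h', ?_⟩
  apply G_ext <;> simp [en_dg, en_wn, en_lo, G_mul, h] <;> field_simp
  linear_combination -this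

end

variable {F k V : Type*} [Field F] [Fintype F] [DecidableEq F] [CharP F 3] [Field k] [CharP k 3] [IsAlgClosed k]
  [AddCommGroup V] [Module k V] [FiniteDimensional k V] (φ : F →+* k) (ρ : Representation k (G F) V)

theorem exists_fun [Nontrivial V] : ∃ ψ : Module.Dual k V, ψ ≠ 0 ∧ ∃ a < Fintype.card F - 1,
    (∀ c v, ψ (ρ (lo c) v) = ψ v) ∧ ∀ (t : Fˣ) v, ψ (ρ (dg t) v) = φ t ^ a * ψ v := by
  obtain ⟨ψ0, h0, h1⟩ := exists_fixed (fun c : F => (ρ (lo c)).dualMap) (by rw [lo_zero, map_one]; rfl)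
    (fun c d => by rw [add_comm, lo_add, map_mul]; rfl)
  let D : Submodule k (Module.Dual k V) := ⨅ c, LinearMap.ker ((ρ (lo c)).dualMap - 1)
  have hD : ∀ ψ, ψ ∈ D ↔ ∀ c v, ψ (ρ (lo c) v) = ψ v := fun ψ => by
    simp only [D, Submodule.mem_iInf, LinearMap.mem_ker, LinearMap.sub_apply, sub_eq_zero, Module.End.one_apply,
      LinearMap.ext_iff, LinearMap.dualMap_apply]
  haveI : Nontrivial D := ⟨⟨ψ0, (hD _).mpr fun c v => LinearMap.congr_fun (h1 c) v⟩, 0,
    fun h => h0 (congrArg Subtype.val h)⟩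
  obtain ⟨τ, hτ⟩ := IsCyclic.exists_generator (α := Fˣ)
  have h2 : ∀ ψ ∈ D, (ρ (dg τ)).dualMap ψ ∈ D := fun ψ hψ => (hD _).mpr fun c v => by
    rw [LinearMap.dualMap_apply, LinearMap.dualMap_apply, ← Module.End.mul_apply, ← map_mul, dg_lo, map_mul,
      Module.End.mul_apply, (hD _).mp hψ]
  obtain ⟨μ, hμ⟩ := Module.End.exists_eigenvalue (K := k) (V := D) ((ρ (dg τ)).dualMap.restrict h2)
  obtain ⟨ψ, hψ⟩ := hμ.exists_hasEigenvector
  have h3 : ∀ v, ψ.1 (ρ (dg τ) v) = μ * ψ.1 v := fun v =>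
    LinearMap.congr_fun (congrArg Subtype.val hψ.apply_eq_smul) v
  have h4 : ∀ (n : ℕ) v, ψ.1 (ρ (dg (τ ^ n)) v) = μ ^ n * ψ.1 v := fun n => by
    induction n with
    | zero => intro v; simp [dg_one]
    | succ n ih => intro v; rw [pow_succ', dg_mul, map_mul, Module.End.mul_apply, h3, ih, pow_succ', mul_assoc]
  have hψ0 : ψ.1 ≠ 0 := fun h => hψ.2 (Subtype.ext h)
  have ho : orderOf τ = Fintype.card F - 1 := by
    rw [orderOf_eq_card_of_forall_mem_zpowers hτ, Nat.card_units, Nat.card_eq_fintype_card]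
  haveI : NeZero (orderOf τ) := ⟨(orderOf_pos τ).ne'⟩
  have h5 : μ ^ orderOf τ = 1 := by
    obtain ⟨v, hv⟩ := DFunLike.ne_iff.mp hψ0
    have := h4 (orderOf τ) v
    rw [pow_orderOf_eq_one, dg_one, map_one, Module.End.one_apply] at this
    exact mul_right_cancel₀ hv (this.symm.trans (one_mul _).symm)
  have h6 : IsPrimitiveRoot (φ τ) (orderOf τ) :=
    (IsPrimitiveRoot.coe_units_iff.mpr (IsPrimitiveRoot.orderOf τ)).map_of_injective φ.injective
  obtain ⟨a, ha, h7⟩ := h6.eq_pow_of_pow_eq_one h5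
  refine ⟨ψ.1, hψ0, a, ho ▸ ha, (hD _).mp ψ.2, fun t v => ?_⟩
  obtain ⟨n, rfl⟩ := mem_powers_iff_mem_zpowers.mpr (hτ t)
  simp only [h4, ← h7, Units.val_pow_eq_pow_val, map_pow, ← pow_mul, mul_comm a n]

/-- the evaluation map attached to a functional -/
def ev (ψ : Module.Dual k V) : V →ₗ[k] (G F → k) where
  toFun v g := ψ (ρ g v)
  map_add' v w := by funext g; simp
  map_smul' c v := by funext g; simp

theorem exists_hw [Nontrivial V] (hs : ∀ W : Submodule k V, (∀ g, W ≤ W.comap (ρ g)) → W = ⊥ ∨ W = ⊤) :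
    ∃ ψ : Module.Dual k V, Function.Injective (ev ρ ψ) ∧ ∃ a < Fintype.card F, ∃ v,
      ∀ g : G F, ψ (ρ g v) = φ (en g 0 0) ^ a := by
  obtain ⟨ψ, h0, a, ha, h1, h2⟩ := exists_fun φ ρ
  have hi : Function.Injective (ev ρ ψ) := by
    rw [← LinearMap.ker_eq_bot]
    refine (hs _ fun g v hv => ?_).resolve_right fun h => h0 (LinearMap.ext fun v => ?_)
    · funext g'
      show ψ (ρ g' (ρ g v)) = 0
      rw [← Module.End.mul_apply, ← map_mul]; exact congrFun hv (g' * g)
    · have := congrFun (show v ∈ LinearMap.ker (ev ρ ψ) from h ▸ Submodule.mem_top) 1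
      simpa [ev] using this
  refine ⟨ψ, hi, ?_⟩
  have hq : (Fintype.card F : k) = 0 := by rw [← map_natCast φ, FiniteField.cast_card_eq_zero, map_zero]
  have h3 : ∀ v, (∀ c, ρ (up c) v = v) → ∀ g : G F,
      ψ (ρ g v) = if en g 0 0 = 0 then φ (en g 0 1) ^ a * ψ (ρ wn v) else φ (en g 0 0) ^ a * ψ v := fun v hv g => by
    split_ifs with h
    · obtain ⟨h', e⟩ := cell2 g h
      conv_lhs => rw [e, map_mul, map_mul, Module.End.mul_apply, Module.End.mul_apply, h1, h2]
      rfl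
    · conv_lhs => rw [cell1 g h, map_mul, map_mul, Module.End.mul_apply, Module.End.mul_apply, h1, h2, hv]
      rfl
  have h4 : ∀ v, (∀ c, ρ (up c) v = v) → ψ (ρ wn v) = 0 → ψ v ≠ 0 →
      ∃ a < Fintype.card F, ∃ v, ∀ g : G F, ψ (ρ g v) = φ (en g 0 0) ^ a := fun v hv h5 h6 => by
    refine ⟨if a = 0 then Fintype.card F - 1 else a, by split_ifs <;> omega, (ψ v)⁻¹ • v, fun g => ?_⟩
    rw [map_smul, map_smul, h3 v hv, h5, smul_eq_mul]
    split_ifs with h7 h8 h8
    · rw [h7, map_zero, zero_pow (by omega)]; simp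
    · rw [h7, map_zero, zero_pow h8]; simp
    · rw [h8, ← map_pow φ _ (_ - 1), FiniteField.pow_card_sub_one_eq_one _ h7]; simp [h6]
    · field_simp
  obtain ⟨v, hv0, hv⟩ := exists_fixed (fun c : F => ρ (up c)) (by rw [up_zero, map_one])
    (fun c d => by rw [up_add, map_mul])
  by_cases hβ : ψ (ρ wn v) = 0
  · refine h4 v hv hβ fun hα => hv0 (hi ?_)
    funext g
    show ψ (ρ g v) = _
    rw [h3 v hv, hβ, hα]; simp
  have h5 : ∀ c, ρ (up c) (∑ d, ρ (up d) (ρ wn v)) = ∑ d, ρ (up d) (ρ wn v) := fun c => by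
    rw [map_sum]
    refine Fintype.sum_equiv (Equiv.addLeft c) _ _ fun d => ?_
    rw [← Module.End.mul_apply, ← map_mul, ← up_add]; rfl
  have h6 : ψ (ρ wn (∑ d, ρ (up d) (ρ wn v))) = 0 := by
    rw [map_sum, map_sum]
    have : ∀ d, ψ (ρ wn (ρ (up d) (ρ wn v))) = ψ (ρ wn (ρ wn v)) := fun d => by
      rw [← Module.End.mul_apply (ρ wn), ← map_mul, wn_up, map_mul, Module.End.mul_apply, h1]
    simp [this, hq]
  have h7 : ψ (∑ d, ρ (up d) (ρ wn v)) = ∑ d : F, if d = 0 then ψ (ρ wn v) else φ (-d) ^ a * ψ v := by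
    rw [map_sum]
    refine Finset.sum_congr rfl fun d _ => ?_
    rw [← Module.End.mul_apply, ← map_mul, h3 v hv]
    simp [G_mul, en_up, en_wn]
  by_cases ha0 : a = 0
  · by_cases h8 : ψ (ρ wn v) = ψ v
    · refine ⟨0, by omega, (ψ v)⁻¹ • v, fun g => ?_⟩
      rw [map_smul, map_smul, h3 v hv, h8, ha0]
      simp [← h8, hβ]
    · refine h4 _ h5 h6 ?_
      have : ∀ d : F, (if d = 0 then ψ (ρ wn v) else φ (-d) ^ a * ψ v) =
          ψ v + if d = 0 then ψ (ρ wn v) - ψ v else 0 := fun d => by split_ifs <;> simp [ha0]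
      rw [h7]
      simp only [this]
      simp [Finset.sum_add_distrib, hq, sub_eq_zero, h8]
  · refine h4 _ h5 h6 ?_
    have : ∀ d : F, (if d = 0 then ψ (ρ wn v) else φ (-d) ^ a * ψ v) =
        φ ((-d) ^ a) * ψ v + if d = 0 then ψ (ρ wn v) else 0 := fun d => by split_ifs with h <;> simp [ha0, h]
    have h8 : ∑ d : F, (-d) ^ a = 0 :=
      (Fintype.sum_equiv (Equiv.neg F) _ (fun d => d ^ a) fun _ => rfl).trans
        (FiniteField.sum_pow_lt_card_sub_one F a ha)
    rw [h7]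
    simp only [this, Finset.sum_add_distrib, ← Finset.sum_mul, ← map_sum, h8]
    simpa using hβ

end Cfsg.Agent.LD.M
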