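import Cfsg.Agent.LD.M1

set_option autoImplicit false
set_option linter.unusedSectionVars false

/-! Modules for `SL₂(q)` in characteristic three: eigenvalues of semisimple elements. -/

namespace Cfsg.Agent.LD.M

open Polynomial Matrix

def I (a : ℕ) : Finset ℕ := (Finset.range (a + 1)).filter fun c => ¬ 3 ∣ a.choose c

section
variable {k : Type*} [Field k]

abbrev Fk (k : Type*) := (Fin 2 → k) → k

def act (g : Matrix (Fin 2) (Fin 2) k) : Fk k →ₗ[k] Fk k := LinearMap.funLeft k k fun x => x ᵥ* g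

theorem act_act (g h : Matrix (Fin 2) (Fin 2) k) (f : Fk k) : act g (act h f) = act (g * h) f := by
  funext x; simp [act, LinearMap.funLeft]

theorem act_one (f : Fk k) : act 1 f = f := by funext x; simp [act, LinearMap.funLeft]

def pw (a : ℕ) (l : Fin 2 → k) : Fk k := fun x => (x ⬝ᵥ l) ^ a

def mono (a c : ℕ) : Fk k := fun x => x 0 ^ (a - c) * x 1 ^ c

theorem act_pw (g : Matrix (Fin 2) (Fin 2) k) (a : ℕ) (l : Fin 2 → k) : act g (pw a l) = pw a (g *ᵥ l) := by
  funext x; simp only [act, LinearMap.funLeft_apply, pw, dotProduct_mulVec]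

theorem act_mono (l l' : k) (a c : ℕ) : act (diagonal ![l, l']) (mono a c) = (l ^ (a - c) * l' ^ c) • mono a c := by
  funext x; simp [act, LinearMap.funLeft, mono, vecMul_diagonal]; ring

theorem pw_eq (a : ℕ) (l : Fin 2 → k) :
    pw a l = ∑ j ∈ Finset.range (a + 1), ((a.choose j : k) * l 0 ^ (a - j) * l 1 ^ j) • mono a j := by
  funext x
  simp only [pw, dotProduct, Fin.sum_univ_two, Finset.sum_apply, Pi.smul_apply, mono, smul_eq_mul]
  rw [add_comm, add_pow]
  exact Finset.sum_congr rfl fun j _ => by ring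

def W (k : Type*) [Field k] (a : ℕ) : Submodule k (Fk k) := Submodule.span k (Set.range (pw a))

theorem act_W (g : Matrix (Fin 2) (Fin 2) k) (a : ℕ) {f : Fk k} (hf : f ∈ W k a) : act g f ∈ W k a := by
  have : W k a ≤ (W k a).comap (act g) := Submodule.span_le.mpr (by
    rintro _ ⟨l, rfl⟩
    show act g (pw a l) ∈ W k a
    rw [act_pw]; exact Submodule.subset_span ⟨_, rfl⟩)
  exact this hf

theorem W_le [CharP k 3] (a : ℕ) : W k a ≤ Submodule.span k (Set.range fun c : I a => mono a c) :=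
  Submodule.span_le.mpr (by
    rintro _ ⟨l, rfl⟩
    rw [pw_eq]
    refine Submodule.sum_mem _ fun j hj => ?_
    by_cases h : 3 ∣ a.choose j
    · rw [(CharP.cast_eq_zero_iff k 3 _).mpr h]; simp
    · exact Submodule.smul_mem _ _ (Submodule.subset_span ⟨⟨j, Finset.mem_filter.mpr ⟨hj, h⟩⟩, rfl⟩))

end

variable {F k V : Type*} [Field F] [Fintype F] [DecidableEq F] [CharP F 3] [Field k] [CharP k 3] [IsAlgClosed k]
  [AddCommGroup V] [Module k V] [FiniteDimensional k V] (φ : F →+* k) (ρ : Representation k (G F) V)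

theorem poly_zero {a : ℕ} (ha : a < Fintype.card F) (s : Finset ℕ) (hs : ∀ j ∈ s, j ≤ a) (γ : ℕ → k)
    (h : ∀ y : F, ∑ j ∈ s, γ j * φ y ^ j = 0) : ∀ j ∈ s, γ j = 0 := by
  have h1 : (∑ j ∈ s, monomial j (γ j) : k[X]) = 0 :=
    eq_zero_of_natDegree_lt_card_of_eval_eq_zero _ φ.injective (fun y => by simp [eval_finset_sum, h])
      (lt_of_le_of_lt (natDegree_sum_le_of_forall_le _ _ fun j hj => (natDegree_monomial_le _).trans (hs j hj)) ha)
  intro j hj
  have := congrArg (fun p => coeff p j) h1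
  simpa [finset_sum_coeff, coeff_monomial, hj] using this

theorem mono_mem {a : ℕ} (ha : a < Fintype.card F) {c : ℕ} (hc : c ∈ I a) :
    mono a c ∈ Submodule.span k (Set.range fun y : F => pw a ![1, φ y]) := by
  rw [← Subspace.forall_mem_dualAnnihilator_apply_eq_zero_iff]
  intro ψ hψ
  obtain ⟨h1, h2⟩ := Finset.mem_filter.mp hc
  have := poly_zero φ ha (Finset.range (a + 1)) (fun j hj => by simpa [Nat.lt_succ_iff] using hj)
    (fun j => (a.choose j : k) * ψ (mono a j)) (fun y => by
      have h3 := (Submodule.mem_dualAnnihilator ψ).mp hψ _ (Submodule.subset_span ⟨y, rfl⟩)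
      rw [← h3]; beta_reduce; rw [pw_eq, map_sum]
      exact Finset.sum_congr rfl fun j _ => by simp; ring) c h1
  exact (mul_eq_zero.mp this).resolve_left fun h => h2 ((CharP.cast_eq_zero_iff k 3 _).mp h)

/-- restriction to first rows -/
def rs : Fk k →ₗ[k] (G F → k) := LinearMap.funLeft k k fun g j => φ (en g 0 j)

theorem rs_act (h : G F) (f : Fk k) (g : G F) : rs φ (act ((en h).map φ) f) g = rs φ f (g * h) := by
  simp only [rs, act, LinearMap.funLeft_apply]
  congr 1
  funext j
  simp [G_mul, vecMul, dotProduct, Fin.sum_univ_two]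

theorem indep_rs {a : ℕ} (ha : a < Fintype.card F) : LinearIndependent k fun c : I a => rs φ (mono a c) := by
  rw [Fintype.linearIndependent_iff]
  intro γ h c
  have := poly_zero φ ha (I a) (fun j hj => by simpa [Nat.lt_succ_iff] using (Finset.mem_filter.mp hj).1)
    (fun j => if hj : j ∈ I a then γ ⟨j, hj⟩ else 0) (fun y => by
      have h3 := congrFun h (up y)
      rw [← Finset.sum_coe_sort]
      simpa [rs, mono, en_up, Finset.sum_apply] using h3) c c.2
  simpa using this

theorem rs_inj {a : ℕ} (ha : a < Fintype.card F) {f : Fk k} (hf : f ∈ W k a) (h : rs φ f = 0) : f = 0 := by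
  obtain ⟨γ, rfl⟩ := (Submodule.mem_span_range_iff_exists_fun k).mp (W_le a hf)
  have := Fintype.linearIndependent_iff.mp (indep_rs φ ha) γ (by simpa [map_sum] using h)
  simp [this]

theorem simple_case [Nontrivial V] (hs : ∀ W : Submodule k V, (∀ g, W ≤ W.comap (ρ g)) → W = ⊥ ∨ W = ⊤) :
    ∃ a < Fintype.card F, ∀ (g : G F) (h h' : Matrix (Fin 2) (Fin 2) k) (l l' : k), h * h' = 1 →
      (en g).map φ * h = h * diagonal ![l, l'] →
      (ρ g).charpoly = ∏ c ∈ I a, (X - C (l ^ (a - c) * l' ^ c)) := by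
  obtain ⟨ψ, hi, a, ha, v, hv⟩ := exists_hw φ ρ hs
  refine ⟨a, ha, fun g h h' l l' hh hg => ?_⟩
  have hev : ∀ g w g', ev ρ ψ (ρ g w) g' = ev ρ ψ w (g' * g) := fun g w g' => by simp [ev]
  have hv' : ev ρ ψ v = rs φ (pw a ![1, 0]) := funext fun g => by simp [ev, hv, rs, pw, dotProduct]
  have hW : ∀ l, pw a l ∈ W k a := fun l => Submodule.subset_span ⟨l, rfl⟩
  have h1 : ∀ w, ∃ f ∈ W k a, ev ρ ψ w = rs φ f := by
    have := (hs (((W k a).map (rs φ)).comap (ev ρ ψ)) fun g w ⟨f, hf, e⟩ =>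
      ⟨act ((en g).map φ) f, act_W _ _ hf, funext fun g' => by rw [rs_act, hev, e]⟩).resolve_left fun h0 => by
        have h2 : v ∈ ((W k a).map (rs φ)).comap (ev ρ ψ) := ⟨_, hW _, hv'.symm⟩
        rw [h0, Submodule.mem_bot] at h2
        have := hv 1
        simp [h2, en_one] at this
    intro w
    obtain ⟨f, hf, e⟩ : w ∈ ((W k a).map (rs φ)).comap (ev ρ ψ) := this ▸ Submodule.mem_top
    exact ⟨f, hf, e.symm⟩
  have h2 : ∀ c ∈ I a, mono a c ∈ W k a := fun c hc =>
    Submodule.span_mono (by rintro _ ⟨y, rfl⟩; exact ⟨_, rfl⟩) (mono_mem φ ha hc)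
  have h3 : ∀ f ∈ W k a, ∃ w, ev ρ ψ w = rs φ f := by
    have : W k a ≤ (LinearMap.range (ev ρ ψ)).comap (rs φ) := (W_le a).trans (Submodule.span_le.mpr (by
      rintro _ ⟨c, rfl⟩
      refine (Submodule.span_le (p := (LinearMap.range (ev ρ ψ)).comap (rs φ))).mpr ?_ (mono_mem φ ha c.2)
      rintro _ ⟨y, rfl⟩
      refine ⟨ρ (lo y) v, funext fun g' => ?_⟩
      rw [hev, hv', ← rs_act, act_pw]
      have : (en (lo y)).map φ *ᵥ ![1, 0] = ![1, φ y] := by
        funext j; fin_cases j <;> simp [en_lo, mulVec, dotProduct]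
      rw [this]))
    exact fun f hf => this hf
  choose b hb using fun c : I a => h3 _ (act_W h a (h2 c c.2))
  have hh' : h' * h = 1 := mul_eq_one_comm.mp hh
  have h4 : LinearIndependent k b := by
    rw [Fintype.linearIndependent_iff]
    intro γ e
    have h5 : rs φ (act h (∑ c : I a, γ c • mono a c)) = 0 := by
      simpa [map_sum, hb] using congrArg (ev ρ ψ) e
    have h6 := congrArg (fun f => rs φ (act h' f)) (rs_inj φ ha (act_W h a (Submodule.sum_mem _ fun (c : I a) _ =>
      Submodule.smul_mem _ _ (h2 c c.2))) h5)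
    simp only [act_act, hh', act_one, map_zero] at h6
    exact Fintype.linearIndependent_iff.mp (indep_rs φ ha) γ (by simpa [map_sum] using h6)
  have h5 : ⊤ ≤ Submodule.span k (Set.range b) := fun w _ => by
    obtain ⟨f, hf, e⟩ := h1 w
    obtain ⟨γ, hγ⟩ := (Submodule.mem_span_range_iff_exists_fun k).mp (W_le a (act_W h' a hf))
    refine (Submodule.mem_span_range_iff_exists_fun k).mpr ⟨γ, hi ?_⟩
    have := congrArg (fun f => rs φ (act h f)) hγ
    simp only [act_act, hh, act_one] at this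
    rw [e, ← this]; simp [map_sum, hb]
  have h6 : ∀ c : I a, ρ g (b c) = (l ^ (a - c) * l' ^ (c : ℕ)) • b c := fun c => hi (funext fun g' => by
    rw [hev, hb, ← rs_act, act_act, hg, ← act_act, act_mono, map_smul, map_smul, map_smul, hb])
  rw [← LinearMap.charpoly_toMatrix _ (Module.Basis.mk h4 h5), ← Finset.prod_coe_sort, ← charpoly_diagonal]
  congr 1
  ext i j
  rw [LinearMap.toMatrix_apply, Module.Basis.mk_apply, h6, ← Module.Basis.mk_apply h4 h5, map_smul,
    Module.Basis.repr_self, diagonal_apply]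
  by_cases hij : i = j
  · simp [hij]
  · simp [hij, Finsupp.single_apply, Ne.symm hij]

universe u

theorem general_case {F k : Type*} [Field F] [Fintype F] [DecidableEq F] [CharP F 3] [Field k] [CharP k 3]
    [IsAlgClosed k] (φ : F →+* k) (n : ℕ) : ∀ (V : Type u) [AddCommGroup V] [Module k V] [FiniteDimensional k V]
    (ρ : Representation k (G F) V), Module.finrank k V < n → ∃ A : Multiset ℕ, (∀ a ∈ A, a < Fintype.card F) ∧
      ∀ (g : G F) (h h' : Matrix (Fin 2) (Fin 2) k) (l l' : k), h * h' = 1 →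
      (en g).map φ * h = h * diagonal ![l, l'] →
      (ρ g).charpoly = (A.map fun a => ∏ c ∈ I a, (X - C (l ^ (a - c) * l' ^ c))).prod := by
  induction n with
  | zero => intro V _ _ _ _ h; exact absurd h (Nat.not_lt_zero _)
  | succ n ih =>
  intro V _ _ _ ρ hn
  by_cases hs : ∀ W : Submodule k V, (∀ g, W ≤ W.comap (ρ g)) → W = ⊥ ∨ W = ⊤
  · rcases subsingleton_or_nontrivial V with h0 | h0
    · refine ⟨0, by simp, fun g _ _ _ _ _ _ => ?_⟩
      have h1 := (ρ g).charpoly_natDegree
      rw [Module.finrank_zero_of_subsingleton] at h1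
      simpa using (ρ g).charpoly_monic.natDegree_eq_zero.mp h1
    · obtain ⟨a, ha, h⟩ := simple_case φ ρ hs
      exact ⟨{a}, by simpa using ha, fun g h1 h2 l l' h3 h4 => by simpa using h g h1 h2 l l' h3 h4⟩
  push Not at hs
  obtain ⟨W, hW, h1, h2⟩ := hs
  have h3 := W.finrank_quotient_add_finrank
  have h4 : 0 < Module.finrank k W := Nat.pos_of_ne_zero fun h => h1 (Submodule.finrank_eq_zero.mp h)
  have h5 : Module.finrank k W < Module.finrank k V := Submodule.finrank_lt h2
  obtain ⟨A, hA, hA'⟩ := ih W (ρ.subrepresentation W hW) (by omega)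
  obtain ⟨B, hB, hB'⟩ := ih (V ⧸ W) (ρ.quotient W hW) (by omega)
  refine ⟨A + B, fun a ha => (Multiset.mem_add.mp ha).elim (hA a) (hB a), fun g h h' l l' h6 h7 => ?_⟩
  rw [Multiset.map_add, Multiset.prod_add, ← hA' g h h' l l' h6 h7, ← hB' g h h' l l' h6 h7]
  exact charpoly_sub_quot (ρ g) W (hW g)

end Cfsg.Agent.LD.M
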