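import Cfsg.Agent.LD.M2

set_option autoImplicit false
set_option linter.unusedSectionVars false

/-! Weights of `SL₂(3^f)`-modules: Galois closure of the composition factors. -/

namespace Cfsg.Agent.LD.M

open Polynomial

theorem mem_I {a c : ℕ} : c ∈ I a ↔ ¬ 3 ∣ a.choose c := by
  simp only [I, Finset.mem_filter, Finset.mem_range, and_iff_right_iff_imp]
  intro h
  by_contra h1
  exact h (by rw [Nat.choose_eq_zero_of_lt (by omega)]; exact dvd_zero _)

theorem le_of_mem_I {a c : ℕ} (h : c ∈ I a) : c ≤ a := by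
  have := (Finset.mem_filter.mp h).1; simpa [Nat.lt_succ_iff] using this

theorem zero_mem_I (a : ℕ) : 0 ∈ I a := by simp [mem_I]

theorem mem_I_rec (a c : ℕ) : c ∈ I a ↔ c / 3 ∈ I (a / 3) ∧ c % 3 ≤ a % 3 := by
  haveI : Fact (Nat.Prime 3) := ⟨Nat.prime_three⟩
  have h := Choose.choose_modEq_choose_mod_mul_choose_div_nat (n := a) (k := c) (p := 3)
  rw [mem_I, mem_I, h.dvd_iff (dvd_refl 3), Nat.prime_three.dvd_mul, not_or, and_comm]
  refine and_congr_right fun _ => ?_
  have h1 : a % 3 < 3 := Nat.mod_lt _ (by norm_num)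
  have h2 : c % 3 < 3 := Nat.mod_lt _ (by norm_num)
  generalize a % 3 = x at *
  generalize c % 3 = y at *
  interval_cases x <;> interval_cases y <;> simp [Nat.choose]

theorem sum_I {M : Type*} [AddCommMonoid M] (a : ℕ) (g : ℕ → M) :
    ∑ c ∈ I a, g c = ∑ c ∈ I (a / 3), ∑ e ∈ Finset.range (a % 3 + 1), g (3 * c + e) := by
  rw [← Finset.sum_product']
  have h1 : a % 3 < 3 := Nat.mod_lt _ (by norm_num)
  refine Finset.sum_nbij' (fun c => (c / 3, c % 3)) (fun p => 3 * p.1 + p.2) (fun c hc => ?_) (fun p hp => ?_)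
    (fun c _ => Nat.div_add_mod c 3) (fun p hp => ?_) (fun c _ => by simp only [Nat.div_add_mod])
  · have := (mem_I_rec a c).mp hc
    simp only [Finset.mem_product, Finset.mem_range]; exact ⟨this.1, by omega⟩
  · simp only [Finset.mem_product, Finset.mem_range] at hp
    rw [mem_I_rec, show (3 * p.1 + p.2) / 3 = p.1 by omega]; exact ⟨hp.1, by omega⟩
  · simp only [Finset.mem_product, Finset.mem_range] at hp
    exact Prod.ext (by simp only; omega) (by simp only; omega)

def Il : ℕ → ℕ → List ℕ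
  | 0, _ => [0]
  | f + 1, a => (Il f (a / 3)).flatMap fun c => (List.range (a % 3 + 1)).map fun e => 3 * c + e

theorem I_zero : I 0 = {0} := by decide

theorem sum_Il {M : Type*} [AddCommMonoid M] (f : ℕ) : ∀ (a : ℕ) (g : ℕ → M), a < 3 ^ f →
    ∑ c ∈ I a, g c = ((Il f a).map g).sum := by
  induction f with
  | zero => intro a g h; obtain rfl : a = 0 := by omega
            simp [I_zero, Il]
  | succ f ih =>
    intro a g h
    rw [sum_I, ih _ _ (by omega), Il]
    generalize Il f (a / 3) = l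
    induction l with
    | nil => simp
    | cons c l ih2 =>
      rw [List.map_cons, List.sum_cons, ih2, List.flatMap_cons, List.map_append, List.sum_append, List.map_map]
      rfl

noncomputable def ch (a : ℕ) (z : ℂ) : ℂ := ∑ c ∈ I a, z ^ ((a : ℤ) - 2 * c)

theorem I_small {d : ℕ} (h : d < 3) : I d = Finset.range (d + 1) := by interval_cases d <;> decide

theorem ch_rec (a : ℕ) {z : ℂ} (hz : z ≠ 0) : ch a z = ch (a % 3) z * ch (a / 3) (z ^ 3) := by
  rw [ch, sum_I, ch, ch, I_small (Nat.mod_lt _ (by norm_num)), Finset.sum_mul_sum, Finset.sum_comm]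
  refine Finset.sum_congr rfl fun e _ => Finset.sum_congr rfl fun c _ => ?_
  rw [← zpow_natCast z 3, ← zpow_mul, ← zpow_add₀ hz]
  congr 1
  push_cast; omega

theorem ch_inv {d : ℕ} (h : d < 3) (z : ℂ) : ch d z⁻¹ = ch d z := by
  rw [ch, ch, I_small h]
  interval_cases d <;> simp [Finset.sum_range_succ] <;> ring

theorem ch_top (f : ℕ) : ∀ (a d : ℕ) (z : ℂ), z ≠ 0 → a < 3 ^ f → d < 3 →
    ch (a + d * 3 ^ f) z = ch a z * ch d (z ^ 3 ^ f) := by
  induction f with
  | zero => intro a d z _ h _; obtain rfl : a = 0 := by omega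
            simp [ch, I_zero]
  | succ f ih =>
    intro a d z hz h hd
    rw [ch_rec _ hz, ch_rec a hz, show (a + d * 3 ^ (f + 1)) % 3 = a % 3 by rw [pow_succ, ← mul_assoc]; omega,
      show (a + d * 3 ^ (f + 1)) / 3 = a / 3 + d * 3 ^ f by rw [pow_succ, ← mul_assoc]; omega,
      ih _ _ _ (pow_ne_zero _ hz) (by omega) hd, ← pow_mul, ← pow_succ', mul_assoc]

def σ (f a : ℕ) : ℕ := 3 * (a % 3 ^ f) + a / 3 ^ f

theorem ch_σ {f a : ℕ} (ha : a < 3 ^ (f + 1)) {z : ℂ} (hz : z ≠ 0) (h : z ^ 3 ^ (f + 1) = z ∨ z ^ 3 ^ (f + 1) = z⁻¹) :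
    ch (σ f a) z = ch a (z ^ 3) := by
  have h0 : 0 < 3 ^ f := by positivity
  have h1 : a / 3 ^ f < 3 := Nat.div_lt_of_lt_mul (by rwa [← pow_succ])
  have h2 := ch_top f (a % 3 ^ f) (a / 3 ^ f) (z ^ 3) (pow_ne_zero _ hz) (Nat.mod_lt _ h0) h1
  rw [Nat.mod_add_div', ← pow_mul, ← pow_succ'] at h2
  have h3 : σ f a % 3 = a / 3 ^ f ∧ σ f a / 3 = a % 3 ^ f := by
    unfold σ
    generalize a / 3 ^ f = x at *
    generalize a % 3 ^ f = y at *
    omega
  rw [h2, ch_rec _ hz, h3.1, h3.2, mul_comm]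
  rcases h with h | h <;> rw [h]
  rw [ch_inv h1]

def WZ (A : Multiset ℕ) : Multiset ℤ := A.bind fun a => (I a).val.map fun c : ℕ => (a : ℤ) - 2 * c

def Wn (n : ℕ) (A : Multiset ℕ) : Multiset (ZMod n) := (WZ A).map Int.cast

theorem sum_WZ {M : Type*} [AddCommMonoid M] (A : Multiset ℕ) (g : ℤ → M) :
    ((WZ A).map g).sum = (A.map fun a => ∑ c ∈ I a, g ((a : ℤ) - 2 * c)).sum := by
  simp only [WZ, Multiset.map_bind, Multiset.sum_bind, Multiset.map_map]; rfl

theorem lift_int {K : Type*} [Field K] {n : ℕ} [NeZero n] {ν : K} (hν : ν ^ n = 1) (k : ℤ) :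
    ν ^ ((k : ZMod n).val) = ν ^ k := by
  have hν0 : ν ≠ 0 := by rintro rfl; rw [zero_pow (NeZero.ne n)] at hν; exact zero_ne_one hν
  rw [← zpow_natCast, ZMod.val_intCast]
  conv_rhs => rw [← Int.emod_add_mul_ediv k n, zpow_add₀ hν0, zpow_mul, zpow_natCast, hν, one_zpow, mul_one]

theorem sum_ch {n : ℕ} [NeZero n] {A : Multiset ℕ} (h : (Wn n A).map (3 * ·) = Wn n A) {z : ℂ} (hz : z ^ n = 1) :
    (A.map fun a => ch a (z ^ 3)).sum = (A.map fun a => ch a z).sum := by
  have := congrArg (fun M : Multiset (ZMod n) => (M.map fun x => z ^ x.val).sum) h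
  have e : ∀ k : ℤ, z ^ ((3 : ZMod n) * k).val = (z ^ 3) ^ k := fun k => by
    rw [show (3 : ZMod n) * k = ((3 * k : ℤ) : ZMod n) by push_cast; rfl, lift_int hz, zpow_mul]; rfl
  simp only [Wn, Multiset.map_map, Function.comp_def, lift_int hz, e, sum_WZ] at this
  exact this

noncomputable def P (m a : ℕ) : ℂ[X] := ∑ c ∈ I a, X ^ (m + a / 2 - c)

theorem eval_P {m a : ℕ} (ha : a ≤ 2 * m) (he : 2 ∣ a) {z : ℂ} (hz : z ≠ 0) :
    (P m a).eval (z ^ 2) = z ^ (2 * m) * ch a z := by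
  rw [P, eval_finset_sum, ch, Finset.mul_sum]
  refine Finset.sum_congr rfl fun c hc => ?_
  have := le_of_mem_I hc
  rw [eval_pow, eval_X, ← pow_mul, ← zpow_natCast, ← zpow_natCast, ← zpow_add₀ hz]
  congr 1
  omega

theorem coeff_P_lt {m a k : ℕ} (h : m + a / 2 < k) : (P m a).coeff k = 0 := by
  rw [P, finset_sum_coeff]
  exact Finset.sum_eq_zero fun c _ => by rw [coeff_X_pow, if_neg (by omega)]

theorem coeff_P_top {m a : ℕ} (ha : a ≤ 2 * m) : (P m a).coeff (m + a / 2) = 1 := by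
  rw [P, finset_sum_coeff, Finset.sum_eq_single_of_mem 0 (zero_mem_I a)]
  · simp
  · intro c hc h0
    have := le_of_mem_I hc
    rw [coeff_X_pow, if_neg (by omega)]

theorem P_inj {m : ℕ} (k : ℕ) : ∀ A B : Multiset ℕ, A.card ≤ k → (∀ a ∈ A, a ≤ 2 * m ∧ 2 ∣ a) →
    (∀ a ∈ B, a ≤ 2 * m ∧ 2 ∣ a) → (A.map (P m)).sum = (B.map (P m)).sum → A = B := by
  have key : ∀ A B : Multiset ℕ, (∀ a ∈ A, a ≤ 2 * m ∧ 2 ∣ a) → (∀ a ∈ B, a ≤ 2 * m ∧ 2 ∣ a) →
      (A.map (P m)).sum = (B.map (P m)).sum → ∀ b ∈ B, (∀ a ∈ A, a ≤ b) → (∀ a ∈ B, a ≤ b) → b ∈ A := by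
    intro A B hA hB h b hb h1 h2
    by_contra h3
    have h4 : ∀ C : Multiset ℕ, (∀ a ∈ C, a ≤ 2 * m ∧ 2 ∣ a) → (∀ a ∈ C, a ≤ b) →
        ((C.map (P m)).sum).coeff (m + b / 2) = C.count b := fun C => by
      induction C using Multiset.induction_on with
      | empty => simp
      | cons a C ih =>
        intro h5 h6
        rw [Multiset.map_cons, Multiset.sum_cons, coeff_add, ih (fun x hx => h5 x (Multiset.mem_cons_of_mem hx))
          (fun x hx => h6 x (Multiset.mem_cons_of_mem hx)), Multiset.count_cons]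
        have h7 := h5 a (Multiset.mem_cons_self _ _)
        have h8 := h6 a (Multiset.mem_cons_self _ _)
        have h9 := hB b hb
        by_cases hab : b = a
        · subst hab; rw [coeff_P_top h7.1]; simp [add_comm]
        · rw [coeff_P_lt (by omega)]; simp [hab]
    have h5 := h4 A hA h1
    rw [h, h4 B hB h2, Nat.cast_inj, Multiset.count_eq_zero_of_notMem h3] at h5
    exact absurd hb (Multiset.count_eq_zero.mp h5)
  induction k with
  | zero =>
    intro A B hk hA hB h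
    obtain rfl : A = 0 := Multiset.card_eq_zero.mp (by omega)
    by_contra h0
    obtain ⟨b, hb, h1⟩ := Multiset.exists_max_image (s := B) id (Ne.symm h0)
    exact absurd (key 0 B hA hB h b hb (by simp) h1) (by simp)
  | succ k ih =>
    intro A B hk hA hB h
    by_cases h0 : A + B = 0
    · rw [add_eq_zero] at h0; rw [h0.1, h0.2]
    obtain ⟨b, hb, h1⟩ := Multiset.exists_max_image (s := A + B) id h0
    have h2 : ∀ a ∈ A, a ≤ b := fun a ha => h1 a (Multiset.mem_add.mpr (Or.inl ha))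
    have h3 : ∀ a ∈ B, a ≤ b := fun a ha => h1 a (Multiset.mem_add.mpr (Or.inr ha))
    have h4 : b ∈ A ∧ b ∈ B := by
      rcases Multiset.mem_add.mp hb with h5 | h5
      · exact ⟨h5, key B A hB hA h.symm b h5 h3 h2⟩
      · exact ⟨key A B hA hB h b h5 h2 h3, h5⟩
    obtain ⟨A', rfl⟩ := Multiset.exists_cons_of_mem h4.1
    obtain ⟨B', rfl⟩ := Multiset.exists_cons_of_mem h4.2
    simp only [Multiset.map_cons, Multiset.sum_cons, add_right_inj] at h
    rw [ih A' B' (by simpa using hk) (fun x hx => hA x (Multiset.mem_cons_of_mem hx))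
      (fun x hx => hB x (Multiset.mem_cons_of_mem hx)) h]

theorem closed {f m : ℕ} (hm : 3 ^ (f + 1) = 2 * m + 1) (hm0 : 0 < m)
    (hσ : ∀ a ≤ 2 * m, 2 ∣ a → σ f a ≤ 2 * m ∧ 2 ∣ σ f a ∧ (σ f a = a ∨ (a < 2 * m ∧ σ f a < 2 * m)))
    {A : Multiset ℕ} (hA : ∀ a ∈ A, a ≤ 2 * m ∧ 2 ∣ a) (h1 : (Wn (2 * m) A).map (3 * ·) = Wn (2 * m) A)
    (h2 : (Wn (2 * (m + 1)) A).map (3 * ·) = Wn (2 * (m + 1)) A) : A.map (σ f) = A := by
  classical
  haveI : NeZero (2 * m) := ⟨by omega⟩
  haveI : NeZero (2 * (m + 1)) := ⟨by omega⟩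
  refine P_inj (m := m) _ _ _ le_rfl (fun a ha => ?_) hA ?_
  · obtain ⟨b, hb, rfl⟩ := Multiset.mem_map.mp ha
    have := hσ b (hA b hb).1 (hA b hb).2
    exact ⟨this.1, this.2.1⟩
  rw [Multiset.map_map, ← sub_eq_zero, ← Multiset.sum_map_sub]
  refine eq_zero_of_natDegree_lt_card_of_eval_eq_zero' _ (nthRootsFinset m (1 : ℂ) ∪ nthRootsFinset (m + 1) 1)
    (fun u hu => ?_) ?_
  · obtain ⟨z, rfl⟩ := IsAlgClosed.exists_pow_nat_eq u (n := 2) (by norm_num)
    have h3 : z ≠ 0 ∧ (z ^ 3 ^ (f + 1) = z ∨ z ^ 3 ^ (f + 1) = z⁻¹) ∧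
        (A.map fun a => ch a (z ^ 3)).sum = (A.map fun a => ch a z).sum := by
      rcases Finset.mem_union.mp hu with h | h
      · rw [mem_nthRootsFinset hm0, ← pow_mul] at h
        refine ⟨by rintro rfl; simp [hm0.ne'] at h, Or.inl (by rw [hm, pow_succ, h, one_mul]), sum_ch h1 h⟩
      · rw [mem_nthRootsFinset (by omega), ← pow_mul] at h
        refine ⟨by rintro rfl; simp at h, Or.inr (eq_inv_of_mul_eq_one_left ?_), sum_ch h2 h⟩
        rw [hm, ← pow_succ, ← h]; rfl
    rw [← coe_evalRingHom, map_multiset_sum, Multiset.map_map]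
    have h4 : ∀ a ∈ A, ((evalRingHom (z ^ 2)) ∘ fun a => (P m ∘ σ f) a - P m a) a =
        z ^ (2 * m) * (ch a (z ^ 3) - ch a z) := fun a ha => by
      have h5 := hA a ha
      have h6 := hσ a h5.1 h5.2
      simp only [Function.comp, coe_evalRingHom, eval_sub, eval_P h5.1 h5.2 h3.1, eval_P h6.1 h6.2.1 h3.1,
        ch_σ (show a < 3 ^ (f + 1) by omega) h3.1 h3.2.1]
      ring
    rw [Multiset.map_congr rfl h4, Multiset.sum_map_mul_left, Multiset.sum_map_sub, h3.2.2, sub_self, mul_zero]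
  · have h3 := Finset.card_union_add_card_inter (nthRootsFinset m (1 : ℂ)) (nthRootsFinset (m + 1) 1)
    rw [(Complex.isPrimitiveRoot_exp m hm0.ne').card_nthRootsFinset,
      (Complex.isPrimitiveRoot_exp (m + 1) (by omega)).card_nthRootsFinset] at h3
    have h4 : (nthRootsFinset m (1 : ℂ) ∩ nthRootsFinset (m + 1) 1).card ≤ 1 :=
      (Finset.card_le_card (t := {1}) fun u hu => by
        rw [Finset.mem_inter, mem_nthRootsFinset hm0, mem_nthRootsFinset (by omega), pow_succ] at hu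
        have h5 := hu.2
        rw [hu.1, one_mul] at h5
        exact Finset.mem_singleton.mpr h5).trans (by simp)
    refine lt_of_le_of_lt (b := 2 * m - 1) ?_ (by omega)
    rw [natDegree_le_iff_coeff_eq_zero]
    intro k hk
    rw [← lcoeff_apply, map_multiset_sum, Multiset.map_map]
    refine Multiset.sum_eq_zero fun x hx => ?_
    obtain ⟨a, ha, rfl⟩ := Multiset.mem_map.mp hx
    rcases (hσ a (hA a ha).1 (hA a ha).2).2.2 with h5 | h5
    · simp [h5]
    · simp only [Function.comp, lcoeff_apply, coeff_sub]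
      rw [coeff_P_lt (by omega), coeff_P_lt (by omega), sub_self]

def orb (f a : ℕ) : List ℕ := ((List.range (f + 1)).map fun i => (σ f)^[i] a).dedup

theorem decomp {V : Type*} [AddCommMonoid V] (f : ℕ) (v : ℕ → V) (p : V → Prop) (p0 : p 0)
    (pa : ∀ x y, p x → p y → p (x + y)) (Q : ℕ → Prop)
    (h : ∀ a, Q a → (∀ b ∈ orb f a, a ≤ b) → ((orb f a).map (σ f)).Perm (orb f a) ∧ p ((orb f a).map v).sum)
    (k : ℕ) : ∀ A : Multiset ℕ, A.card ≤ k → (∀ a ∈ A, Q a) → A.map (σ f) = A → p (A.map v).sum := by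
  induction k with
  | zero => intro A hk _ _; obtain rfl : A = 0 := Multiset.card_eq_zero.mp (by omega); simpa using p0
  | succ k ih =>
    intro A hk hQ hA
    by_cases h0 : A = 0
    · subst h0; simpa using p0
    obtain ⟨a, ha, h1⟩ := Multiset.exists_min_image (s := A) id h0
    have h2 : ∀ i, (σ f)^[i] a ∈ A := fun i => by
      induction i with
      | zero => exact ha
      | succ i ih => rw [Function.iterate_succ_apply', ← hA]; exact Multiset.mem_map_of_mem _ ih
    have h3 : ∀ b ∈ orb f a, b ∈ A := fun b hb => by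
      obtain ⟨i, _, rfl⟩ := List.mem_map.mp (List.mem_dedup.mp hb); exact h2 i
    obtain ⟨h4, h5⟩ := h a (hQ a ha) fun b hb => h1 b (h3 b hb)
    obtain ⟨B, rfl⟩ := Multiset.le_iff_exists_add.mp
      ((Multiset.le_iff_subset (s := (orb f a : Multiset ℕ)) (List.nodup_dedup _)).mpr h3)
    have h6 : 0 < (orb f a).length := List.length_pos_of_mem (a := a)
      (List.mem_dedup.mpr (List.mem_map.mpr ⟨0, by simp, rfl⟩))
    rw [Multiset.map_add, Multiset.sum_add]
    refine pa _ _ (by simpa using h5) (ih B (by simp at hk; omega)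
      (fun x hx => hQ x (Multiset.mem_add.mpr (Or.inr hx))) ?_)
    rw [Multiset.map_add, Multiset.map_coe, Multiset.coe_eq_coe.mpr h4] at hA
    exact add_left_cancel hA

end Cfsg.Agent.LD.M
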