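import Cfsg.Agent.LD.M3

set_option autoImplicit false
set_option linter.unusedSectionVars false

/-! Eigenvalues of semisimple elements of `SL₂(q)` in representations over `𝔽₃`. -/

namespace Cfsg.Agent.LD.M

open Polynomial Matrix

section
variable {K : Type*} [Field K] {n : ℕ} [NeZero n]

noncomputable def PP (l : K) (W : Multiset (ZMod n)) : K[X] := (W.map fun x => X - C (l ^ x.val)).prod

theorem PP_inj {l : K} (hl : IsPrimitiveRoot l n) {W W' : Multiset (ZMod n)} (h : PP l W = PP l W') : W = W' := by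
  have e : ∀ W : Multiset (ZMod n), (PP l W).roots = W.map fun x => l ^ x.val := fun W => by
    rw [← roots_multiset_prod_X_sub_C (W.map fun x => l ^ x.val), Multiset.map_map]; rfl
  refine Multiset.map_injective (f := fun x : ZMod n => l ^ x.val)
    (fun x y hxy => ZMod.val_injective n (hl.pow_inj (ZMod.val_lt _) (ZMod.val_lt _) hxy)) ?_
  rw [← e, ← e, h]

theorem PP_frob [Algebra (ZMod 3) K] {l : K} (hl : IsPrimitiveRoot l n) {W : Multiset (ZMod n)} {p : (ZMod 3)[X]}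
    (h : p.map (algebraMap _ K) = PP l W) : W.map (3 * ·) = W := by
  haveI : Fact (Nat.Prime 3) := ⟨Nat.prime_three⟩
  haveI : CharP K 3 := charP_of_injective_algebraMap (algebraMap (ZMod 3) K).injective 3
  refine PP_inj hl ?_
  have h1 : (PP l W).map (frobenius K 3) = PP l W := by
    rw [← h, Polynomial.map_map, RingHom.ext_zmod ((frobenius K 3).comp _) (algebraMap _ K)]
  rw [← h1, PP, PP, Polynomial.map_multiset_prod, Multiset.map_map, Multiset.map_map]
  refine congrArg _ (Multiset.map_congr rfl fun x _ => ?_)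
  have h2 := lift_int hl.pow_eq_one (3 * x.val)
  simp only [Function.comp, Polynomial.map_sub, map_X, map_C, frobenius_def]
  rw [show ((3 * x.val : ℤ) : ZMod n) = 3 * x by simp] at h2
  rw [h2, ← pow_mul, ← zpow_natCast, mul_comm]; rfl

end

section
variable {F K ι : Type*} [Field F] [Fintype F] [DecidableEq F] [CharP F 3] [Field K] [IsAlgClosed K]
  [Algebra (ZMod 3) K] [Fintype ι] [DecidableEq ι]

def cp (τ : F) : G F := ⟨!![τ, -1; 1, 0], by simp [det_fin_two]⟩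

theorem en_cp (τ : F) : en (cp τ) = !![τ, -1; 1, 0] := rfl

theorem cp_diag (φ : F →+* K) {l : K} (hl : l ≠ 0) (h2 : l ^ 2 ≠ 1) {τ : F} (hτ : φ τ = l + l⁻¹) :
    ∃ h h' : Matrix (Fin 2) (Fin 2) K, h * h' = 1 ∧ (en (cp τ)).map φ * h = h * diagonal ![l, l⁻¹] := by
  have h3 : l - l⁻¹ ≠ 0 := fun h => h2 (by rw [pow_two]; nth_rewrite 2 [sub_eq_zero.mp h]; exact mul_inv_cancel₀ hl)
  refine ⟨!![l, l⁻¹; 1, 1], !![l, l⁻¹; 1, 1]⁻¹, mul_nonsing_inv _ (by simpa [det_fin_two] using h3), ?_⟩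
  ext i j
  fin_cases i <;> fin_cases j <;> simp [en_cp, Matrix.mul_apply, Fin.sum_univ_two, hτ, diagonal, hl] <;>
    field_simp <;> ring

theorem cp_pow (φ : F →+* K) {l : K} {n : ℕ} (hn : l ^ n = 1) (hl : l ≠ 0) (h2 : l ^ 2 ≠ 1) {τ : F}
    (hτ : φ τ = l + l⁻¹) : cp τ ^ n = 1 := by
  obtain ⟨h, h', h3, h4⟩ := cp_diag φ hl h2 hτ
  have h5 : (en (cp τ)).map φ ^ n * h = h * diagonal ![l, l⁻¹] ^ n := (SemiconjBy.pow_right h4.symm n).symm
  have h6 : diagonal ![l, l⁻¹] ^ n = 1 := by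
    rw [diagonal_pow, ← diagonal_one]; congr 1; funext i; fin_cases i <;> simp [hn]
  have h7 : (en (cp τ)).map φ ^ n = 1 := by rw [← mul_one (_ ^ n), ← h3, ← mul_assoc, h5, h6, mul_one]
  refine Subtype.ext (Matrix.map_injective φ.injective ?_)
  show (en (cp τ) ^ n).map φ = (1 : Matrix _ _ F).map φ
  rw [Matrix.map_pow, h7, Matrix.map_one _ φ.map_zero φ.map_one]

theorem exists_tr (φ : F →+* K) {l : K} (h : l ^ Fintype.card F = l ∨ l ^ Fintype.card F = l⁻¹) :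
    ∃ τ, φ τ = l + l⁻¹ := by
  classical
  haveI : Fact (Nat.Prime 3) := ⟨Nat.prime_three⟩
  haveI : CharP K 3 := charP_of_injective_algebraMap (algebraMap (ZMod 3) K).injective 3
  obtain ⟨f, _, hf⟩ := FiniteField.card F 3
  have h1 : (l + l⁻¹) ^ Fintype.card F = l + l⁻¹ := by
    rw [hf, add_pow_char_pow, inv_pow, ← hf]
    rcases h with h | h <;> rw [h]
    rw [inv_inv, add_comm]
  have h2 : ((X ^ Fintype.card F - X : F[X]).map φ).roots = (X ^ Fintype.card F - X : F[X]).roots.map φ :=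
    roots_map_of_injective_of_card_eq_natDegree φ.injective (by
      rw [FiniteField.roots_X_pow_card_sub_X, FiniteField.X_pow_card_sub_X_natDegree_eq F Fintype.one_lt_card]; rfl)
    |>.symm
  have h3 : l + l⁻¹ ∈ ((X ^ Fintype.card F - X : F[X]).map φ).roots := by
    rw [mem_roots ((Polynomial.map_ne_zero_iff φ.injective).mpr
      (FiniteField.X_pow_card_sub_X_ne_zero F Fintype.one_lt_card))]
    simp [h1]
  rw [h2] at h3
  obtain ⟨τ, _, h4⟩ := Multiset.mem_map.mp h3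
  exact ⟨τ, h4⟩

theorem setup (φ : F →+* K) (θ : G F →* Matrix ι ι (ZMod 3)) (h1 : θ (-1) = 1) :
    ∃ A : Multiset ℕ, (∀ a ∈ A, a < Fintype.card F ∧ 2 ∣ a) ∧ ∀ (n : ℕ) [NeZero n] (l : K), IsPrimitiveRoot l n →
      2 < n → ∀ τ : F, φ τ = l + l⁻¹ → (θ (cp τ)).charpoly.map (algebraMap _ K) = PP l (Wn n A) := by
  haveI : CharP K 3 := charP_of_injective_algebraMap (algebraMap (ZMod 3) K).injective 3
  let ρ : Representation K (G F) (ι → K) :=
    ((Matrix.toLinAlgEquiv' (R := K) (n := ι)).toRingEquiv.toRingHom.comp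
      (algebraMap (ZMod 3) K).mapMatrix).toMonoidHom.comp θ
  have hρ : ∀ g, (ρ g).charpoly = (θ g).charpoly.map (algebraMap _ K) := fun g => by
    rw [← Matrix.charpoly_map, ← Matrix.charpoly_toLin']; rfl
  obtain ⟨A, hA, h⟩ := general_case φ _ (ι → K) ρ (Nat.lt_succ_self _)
  refine ⟨A, fun a ha => ⟨hA a ha, ?_⟩, fun n _ l hl hn τ hτ => ?_⟩
  · by_contra h2
    have h3 := h (-1) 1 1 (-1) (-1) (mul_one _) (by
      ext i j; fin_cases i <;> fin_cases j <;> simp [en, diagonal])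
    rw [hρ, h1, Matrix.charpoly_one] at h3
    have h4 := congrArg (eval (-1)) h3
    rw [eval_multiset_prod, Multiset.prod_eq_zero] at h4
    · have h5 : (3 : K) = 0 := by exact_mod_cast CharP.cast_eq_zero K 3
      have h6 : (-1 - 1 : K) = 1 := by linear_combination -h5
      simp [h6] at h4
    · refine Multiset.mem_map.mpr ⟨_, Multiset.mem_map_of_mem _ ha, ?_⟩
      rw [eval_prod]
      refine Finset.prod_eq_zero (zero_mem_I a) ?_
      simp [(Nat.not_even_iff_odd.mp fun h => h2 h.two_dvd).neg_one_pow]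
  · have h0 := hl.ne_zero (NeZero.ne n)
    obtain ⟨u, u', h3, h4⟩ := cp_diag φ h0 (hl.pow_ne_one_of_pos_of_lt two_ne_zero hn) hτ
    rw [← hρ, h _ _ _ _ _ h3 h4, PP, Wn, WZ]
    simp only [Multiset.map_bind, Multiset.prod_bind, Multiset.map_map, Function.comp_def, lift_int hl.pow_eq_one]
    refine congrArg _ (Multiset.map_congr rfl fun a _ => Finset.prod_congr rfl fun c hc => ?_)
    have := le_of_mem_I hc
    rw [inv_pow, ← zpow_natCast, ← zpow_natCast, ← _root_.zpow_neg, ← zpow_add₀ h0]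
    congr 3
    omega

theorem setup2 (φ : F →+* K) (θ : G F →* Matrix ι ι (ZMod 3)) (h1 : θ (-1) = 1) {f m : ℕ}
    (hF : Fintype.card F = 2 * m + 1) (hm : 3 ^ (f + 1) = 2 * m + 1) (hm0 : 1 < m)
    (hσ : ∀ a ≤ 2 * m, 2 ∣ a → σ f a ≤ 2 * m ∧ 2 ∣ σ f a ∧ (σ f a = a ∨ (a < 2 * m ∧ σ f a < 2 * m))) :
    ∃ A : Multiset ℕ, (∀ a ∈ A, a < 2 * m + 1 ∧ 2 ∣ a) ∧ A.map (σ f) = A ∧ ∀ (n : ℕ) [NeZero n] (l : K),
      IsPrimitiveRoot l n → 2 < n → ∀ τ : F, φ τ = l + l⁻¹ →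
      (θ (cp τ)).charpoly.map (algebraMap _ K) = PP l (Wn n A) := by
  haveI : CharP K 3 := charP_of_injective_algebraMap (algebraMap (ZMod 3) K).injective 3
  obtain ⟨A, hA, h⟩ := setup φ θ h1
  rw [hF] at hA
  have h3 : 3 ∣ 2 * m + 1 := hm ▸ dvd_pow_self 3 (Nat.succ_ne_zero f)
  have key : ∀ n : ℕ, ¬ 3 ∣ n → 2 < n → (∀ l : K, l ≠ 0 → l ^ n = 1 → l ^ (2 * m + 1) = l ∨ l ^ (2 * m + 1) = l⁻¹) →
      (Wn n A).map (3 * ·) = Wn n A := fun n h4 h5 h6 => by
    haveI : NeZero n := ⟨by omega⟩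
    haveI : NeZero (n : K) := ⟨fun h7 => h4 ((CharP.cast_eq_zero_iff K 3 n).mp h7)⟩
    obtain ⟨l, hl⟩ := HasEnoughRootsOfUnity.exists_primitiveRoot K n
    obtain ⟨τ, hτ⟩ := exists_tr φ (l := l) (hF ▸ h6 l (hl.ne_zero (NeZero.ne n)) hl.pow_eq_one)
    exact PP_frob hl (h n l hl h5 τ hτ)
  exact ⟨A, hA, closed hm (by omega) hσ (fun a ha => ⟨by have := (hA a ha).1; omega, (hA a ha).2⟩)
    (key _ (by omega) (by omega) fun l _ h7 => Or.inl (by rw [pow_succ, h7, one_mul]))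
    (key _ (by omega) (by omega) fun l _ h7 => Or.inr (eq_inv_of_mul_eq_one_left (by rw [← pow_succ, ← h7]; rfl))), h⟩

end

end Cfsg.Agent.LD.M
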