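import Cfsg.Agent.LD.M4
import Cfsg.Agent.LD.K4

set_option autoImplicit false
set_option linter.unusedSectionVars false
set_option maxRecDepth 100000
set_option maxHeartbeats 400000

/-! No subgroup `PSL₂(3⁵)` or `PSL₂(3⁶)` in `E₈(3)`. -/

namespace Cfsg.Agent.LD.M

open Polynomial Matrix Cfsg.Lie Cfsg.Agent.LD.E8

theorem PP_EM {K : Type*} [Field K] {n : ℕ} [NeZero n] {l : K} (hl : l ^ n = 1) (k : ℕ) (s : Fin 8 → ℕ) :
    (X - 1) ^ 8 * ∏ r : Fin 240, (X - C ((l ^ k) ^ val s r)) = PP l (EM n k s) := by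
  simp only [PP, EM, Multiset.map_add, Multiset.prod_add, Multiset.map_replicate, Multiset.prod_replicate,
    Multiset.map_map, Function.comp_def, lift_int hl, ZMod.val_zero, pow_zero, C_1, _root_.zpow_mul, zpow_natCast]
  rfl

def DD (W : Multiset (ZMod 4)) : ℕ := (W.map fun x => ind x.val 2).sum

def DL (t : R8) : ℕ := (pos.map fun r => ind ((2 * (-(R8.dot t r : ℕ)) : ℤ) : ZMod 4).val 2 +
  ind ((2 * (R8.dot t r : ℕ) : ℤ) : ZMod 4).val 2).sum

theorem DL0 : DL ⟨1, 0, 0, 0, 0, 0, 0, 0⟩ = 128 := by decide +kernel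
theorem DL7 : DL ⟨0, 0, 0, 0, 0, 0, 0, 1⟩ = 112 := by decide +kernel

theorem DD_EM (s : Fin 8 → ℕ) : DD (EM 4 2 s) = DL (toR s) := by
  unfold DD DL
  rw [sum_EM, sum_roots s fun k => ind ((2 * k : ℤ) : ZMod 4).val 2]
  exact zero_add _

theorem inv4 (s : Fin 8 → ℕ)
    (hs : 2 * s 0 + 3 * s 1 + 4 * s 2 + 6 * s 3 + 5 * s 4 + 4 * s 5 + 3 * s 6 + 2 * s 7 ≤ 2) (h0 : s ≠ 0) :
    DD (EM 4 2 s) = 112 ∨ DD (EM 4 2 s) = 128 := by
  rw [DD_EM]
  have h1 : s 0 ≠ 0 ∨ s 7 ≠ 0 := by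
    by_contra h
    refine h0 (funext fun i => ?_)
    fin_cases i <;> simp only [Fin.reduceFinMk, Fin.zero_eta, Fin.mk_one, Fin.isValue, Pi.zero_apply] <;> omega
  rcases h1 with h1 | h1
  · right; rw [← DL0]; congr 1; ext <;> simp only [toR] <;> omega
  · left; rw [← DL7]; congr 1; ext <;> simp only [toR] <;> omega

theorem val4 (a c : ℕ) : (((a : ℤ) - 2 * c : ℤ) : ZMod 4).val = (a + 2 * c) % 4 := by
  rw [← ZMod.val_natCast]; congr 1; push_cast
  have h : (4 : ZMod 4) = 0 := rfl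
  linear_combination (-(c : ZMod 4)) * h

theorem val73 (a c : ℕ) : (((a : ℤ) - 2 * c : ℤ) : ZMod 73).val = (a + 71 * c) % 73 := by
  rw [← ZMod.val_natCast]; congr 1; push_cast
  have h : (73 : ZMod 73) = 0 := rfl
  linear_combination (-(c : ZMod 73)) * h

theorem fin243 {A : Multiset ℕ} (hA : ∀ a ∈ A, a < 243 ∧ 2 ∣ a) (hc : A.map (σ 4) = A)
    (hD : DD (Wn 4 A) = 112 ∨ DD (Wn 4 A) = 128) : False := by
  have h1 : DD (Wn 4 A) = (A.map vD).sum := by
    rw [DD, Wn, Multiset.map_map, sum_WZ]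
    refine congrArg _ (Multiset.map_congr rfl fun a ha => ?_)
    simp only [Function.comp, val4]
    exact sum_Il 5 a _ (hA a ha).1
  obtain ⟨n, B, h2⟩ := decomp 4 vD (fun D => ∃ n B, D = 122 * n + 5 * B) ⟨0, 0, rfl⟩
    (by rintro _ _ ⟨n, B, rfl⟩ ⟨n', B', rfl⟩; exact ⟨n + n', B + B', by ring⟩) (fun a => a < 243 ∧ 2 ∣ a)
    (fun a ha h3 => by
      have h4 := List.all_eq_true.mp k_D a (List.mem_range.mpr ha.1)
      have h5 : (orb 4 a).all (a ≤ ·) = true := by simpa using h3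
      simp only [chkD, h5, frc_eq, Bool.or_eq_true, Bool.and_eq_true, beq_iff_eq, List.isPerm_iff] at h4
      obtain ⟨h6, h7⟩ := h4.resolve_left (by simp; omega)
      refine ⟨h6, ?_⟩
      rcases h7 with h7 | h7
      · exact ⟨0, ((orb 4 a).map vD).sum / 5, by omega⟩
      · exact ⟨1, 0, by omega⟩) _ A le_rfl hA hc
  omega

theorem U73_dim : ∀ x : ZMod 73, (U73 x.val).dim = 1 ∧ (U73 x.val).h = 0 := by decide +kernel

theorem sum_U73 (W : Multiset (ZMod 73)) : (W.map fun x => U73 x.val).sum.dim = W.card ∧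
    (W.map fun x => U73 x.val).sum.h = 0 := by
  induction W using Multiset.induction_on with
  | empty => exact ⟨rfl, rfl⟩
  | cons x W ih =>
    have := U73_dim x
    rw [Multiset.map_cons, Multiset.sum_cons, Multiset.card_cons]
    simp only [R8.dim, R8.add_def] at ih this ⊢
    omega

theorem sum_U4 (W : Multiset (ZMod 4)) : (W.map fun x => U4 x.val).sum = ⟨0, 0, 0, 0, 0, 0, 0, DD W⟩ := by
  induction W using Multiset.induction_on with
  | empty => rfl
  | cons x W ih => rw [DD, Multiset.map_cons, Multiset.sum_cons, ih, Multiset.map_cons, Multiset.sum_cons]; rfl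

theorem fin729 {A : Multiset ℕ} (hA : ∀ a ∈ A, a < 729 ∧ 2 ∣ a) (hc : A.map (σ 5) = A)
    (hD : DD (Wn 4 A) = 112 ∨ DD (Wn 4 A) = 128) (s : Fin 8 → ℕ)
    (hs : 2 * s 0 + 3 * s 1 + 4 * s 2 + 6 * s 3 + 5 * s 4 + 4 * s 5 + 3 * s 6 + 2 * s 7 ≤ 73)
    (h : (EM 73 1 s).map (3 * ·) = EM 73 1 s) (hW : Wn 73 A = EM 73 1 s) : False := by
  have h1 : (A.map vv).sum = ((Wn 73 A).map fun x => U73 x.val).sum + ((Wn 4 A).map fun x => U4 x.val).sum := by
    rw [Wn, Wn, Multiset.map_map, Multiset.map_map, sum_WZ, sum_WZ, ← Multiset.sum_map_add]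
    refine congrArg _ (Multiset.map_congr rfl fun a ha => ?_)
    simp only [Function.comp, val4, val73, ← Finset.sum_add_distrib]
    exact (sum_Il 6 a (uu a) (hA a ha).1).symm
  have h2 := decomp 5 vv (fun t => t.dim ≤ 248 → Sol LL t) (fun _ => Sol_zero _)
    (fun x y hx hy h3 => by
      have : (x + y).dim = x.dim + y.dim := by simp only [R8.dim, R8.add_def]; omega
      exact Sol_add _ _ _ (hx (by omega)) (hy (by omega))) (fun a => a < 729 ∧ 2 ∣ a)
    (fun a ha h3 => by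
      have h4 := List.all_eq_true.mp k_O a (List.mem_range.mpr ha.1)
      have h5 : (orb 5 a).all (a ≤ ·) = true := by simpa using h3
      simp only [chkO, h5, frc8_eq, Bool.or_eq_true, Bool.and_eq_true, beq_iff_eq, List.isPerm_iff,
        decide_eq_true_eq, List.contains_iff_mem] at h4
      obtain ⟨h6, h7⟩ := h4.resolve_left (by simp; omega)
      exact ⟨h6, fun h8 => Sol_mem (h7.resolve_left (by omega))⟩) _ A le_rfl hA hc
  have h3 := sum_U73 (EM 73 1 s)
  have h4 : (EM 73 1 s).card = 248 := by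
    rw [EM, Multiset.card_add, Multiset.card_replicate, Multiset.card_map, Finset.card_val, Finset.card_univ,
      Fintype.card_fin]
  have h5 := main73 s hs h
  rw [h1, hW, sum_U4] at h2
  generalize ((EM 73 1 s).map fun x => U73 x.val).sum = T at h2 h3 h5
  generalize DD (Wn 4 A) = D at h2 hD
  have h6 : (T + ⟨0, 0, 0, 0, 0, 0, 0, D⟩).dim = 248 := by simp only [R8.dim, R8.add_def] at h3 ⊢; omega
  have h7 := h2 h6.le
  have h8 := Sol_small h7 h6 (by simp only [R8.add_def]; omega)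
  have h9 := h5.resolve_left (by simp only [R8.add_def] at h8; omega)
  rcases hD with rfl | rfl
  · exact ns_spec _ _ (List.all_eq_true.mp k_ns1 T h9) h7
  · exact ns_spec _ _ (List.all_eq_true.mp k_ns2 T h9) h7

theorem hσ_of {f m : ℕ} (h : (List.range (2 * m + 1)).all (chkσ f m) = true) :
    ∀ a ≤ 2 * m, 2 ∣ a → σ f a ≤ 2 * m ∧ 2 ∣ σ f a ∧ (σ f a = a ∨ (a < 2 * m ∧ σ f a < 2 * m)) := fun a h1 h2 => by
  have h4 := List.all_eq_true.mp h a (List.mem_range.mpr (by omega))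
  simp only [chkσ, Bool.or_eq_true, Bool.and_eq_true, beq_iff_eq, decide_eq_true_eq] at h4
  omega

section
variable {F K : Type*} [Field F] [Fintype F] [DecidableEq F] [CharP F 3] [Field K] [IsAlgClosed K]
  [Algebra (ZMod 3) K]

theorem one_of {ι : Type*} [Fintype ι] [DecidableEq ι] (M : Matrix ι ι (ZMod 3)) (h9 : M * M = 1)
    (h6 : M.charpoly.map (algebraMap (ZMod 3) K) = (X - 1) ^ 248) : M = 1 := by
  have h8 : M.charpoly = (X - 1) ^ 248 := by
    refine Polynomial.map_injective _ (algebraMap (ZMod 3) K).injective ?_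
    rw [h6, Polynomial.map_pow, Polynomial.map_sub, map_X, Polynomial.map_one]
  have h10 := Matrix.aeval_self_charpoly M
  rw [h8, map_pow, map_sub, aeval_X, map_one] at h10
  have h11 : IsIdempotentElem (M - 1) := by
    have h12 : (3 : ZMod 3) • (1 - M) = 0 := by rw [show (3 : ZMod 3) = 0 from rfl, zero_smul]
    rw [show (3 : ZMod 3) = 1 + 1 + 1 by norm_num, add_smul, add_smul, one_smul] at h12
    rw [IsIdempotentElem, mul_sub, sub_mul, h9, mul_one, one_mul, ← sub_eq_zero, ← h12]; abel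
  rw [h11.pow_succ_eq 247] at h10
  exact sub_eq_zero.mp h10

theorem cp_zero (ν : K) : (X - 1) ^ 8 * ∏ r : Fin 240, (X - C (ν ^ val 0 r)) = (X - 1) ^ 248 := by
  have : ∀ r, val 0 r = 0 := fun r => by simp [val]
  simp only [this, zpow_zero, C_1, Finset.prod_const, Finset.card_univ, Fintype.card_fin, ← pow_add]

theorem invol (θ : G F →* chevE8.group (ZMod 3)) (h1 : θ (-1) = 1) (h2 : θ (cp 0) ≠ 1) {A : Multiset ℕ}
    (h : ∀ l : K, IsPrimitiveRoot l 4 → 0 = l + l⁻¹ →
      ((θ (cp 0)).1 : Matrix chevE8.Idx chevE8.Idx (ZMod 3)).charpoly.map (algebraMap _ K) = PP l (Wn 4 A)) :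
    DD (Wn 4 A) = 112 ∨ DD (Wn 4 A) = 128 := by
  haveI : CharP K 3 := charP_of_injective_algebraMap (algebraMap (ZMod 3) K).injective 3
  haveI : NeZero ((4 : ℕ) : K) := ⟨fun h7 => absurd ((CharP.cast_eq_zero_iff K 3 4).mp h7) (by decide)⟩
  obtain ⟨l, hl⟩ := HasEnoughRootsOfUnity.exists_primitiveRoot K 4
  have h3 : IsPrimitiveRoot (l ^ 2) 2 := hl.pow (by norm_num) (by norm_num)
  have h0 := hl.ne_zero (by norm_num)
  have h4 := h l hl (by
    have := h3.eq_neg_one_of_two_right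
    field_simp; linear_combination -this)
  have h5 : θ (cp 0) ^ 2 = 1 := by
    rw [← map_pow, ← h1]; congr 1
    apply G_ext <;> simp [pow_two, G_mul, en_cp] <;> simp [en]
  obtain ⟨s, hs, h6⟩ := e8_toral _ (Or.inl rfl) h5 h3
  have h7 : Wn 4 A = EM 4 2 s := PP_inj hl (by rw [← h4, h6]; exact PP_EM hl.pow_eq_one 2 s)
  rw [h7]
  refine inv4 s hs ?_
  rintro rfl
  apply h2
  refine Subtype.ext (Units.ext (one_of (K := K) _ ?_ (h6.trans (cp_zero _))))
  rw [← Units.val_mul, ← Subgroup.coe_mul, ← pow_two, h5]; rfl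

end

theorem no_psl {F : Type*} [Field F] [Fintype F] (hF : Fintype.card F = 243 ∨ Fintype.card F = 729)
    (H : Subgroup ↥(chevE8.group (ZMod 3))) (e : ↥H ≃* Matrix.ProjectiveSpecialLinearGroup (Fin 2) F) : False := by
  classical
  haveI : Fact (Nat.Prime 3) := ⟨Nat.prime_three⟩
  haveI : CharP F 3 := by
    rcases hF with h | h
    · exact charP_of_card_eq_prime_pow (f := 5) h
    · exact charP_of_card_eq_prime_pow (f := 6) h
  letI := ZMod.algebra F 3
  let K := AlgebraicClosure (ZMod 3)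
  haveI : CharP K 3 := charP_of_injective_algebraMap (algebraMap (ZMod 3) K).injective 3
  let φ : F →+* K := (IsAlgClosed.lift (R := ZMod 3) (S := F) (M := K)).toRingHom
  let θ : G F →* chevE8.group (ZMod 3) :=
    H.subtype.comp (e.symm.toMonoidHom.comp (QuotientGroup.mk' (Subgroup.center (G F))))
  have hθ : ∀ g, θ g = 1 ↔ g ∈ Subgroup.center (G F) := fun g => by
    rw [← QuotientGroup.eq_one_iff]
    simp [θ]
  have h1 : θ (-1) = 1 := (hθ _).mpr (Subgroup.mem_center_iff.mpr fun g => by simp)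
  have h2 : θ (cp 0) ≠ 1 := fun h => by
    have := congrArg (fun g => en g 0 0) (Subgroup.mem_center_iff.mp ((hθ _).mp h) (up 1))
    simp [G_mul, en_cp, en_up] at this
  let θ' : G F →* Matrix chevE8.Idx chevE8.Idx (ZMod 3) :=
    (Units.coeHom _).comp ((chevE8.group (ZMod 3)).subtype.comp θ)
  have h1' : θ' (-1) = 1 := by simp [θ', h1]
  rcases hF with hF | hF
  · obtain ⟨A, hA, hc, h⟩ := setup2 φ θ' h1' (f := 4) (m := 121) hF (by norm_num) (by norm_num) (hσ_of k_σ4)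
    exact fin243 hA hc (invol θ h1 h2 fun l hl h3 => h 4 l hl (by norm_num) 0 (by rw [map_zero, h3]))
  · obtain ⟨A, hA, hc, h⟩ := setup2 φ θ' h1' (f := 5) (m := 364) hF (by norm_num) (by norm_num) (hσ_of k_σ5)
    haveI : NeZero ((73 : ℕ) : K) := ⟨fun h7 => absurd ((CharP.cast_eq_zero_iff K 3 73).mp h7) (by decide)⟩
    obtain ⟨l, hl⟩ := HasEnoughRootsOfUnity.exists_primitiveRoot K 73
    obtain ⟨τ, hτ⟩ := exists_tr φ (l := l) (Or.inr (eq_inv_of_mul_eq_one_left (by
      rw [hF, ← pow_succ, show 729 + 1 = 73 * 10 by norm_num, pow_mul, hl.pow_eq_one, one_pow])))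
    have h3 := h 73 l hl (by norm_num) τ hτ
    have h4 : θ (cp τ) ^ 73 = 1 := by
      rw [← map_pow, cp_pow φ hl.pow_eq_one (hl.ne_zero (by norm_num))
        (hl.pow_ne_one_of_pos_of_lt two_ne_zero (by norm_num)) hτ, map_one]
    obtain ⟨s, hs, h6⟩ := e8_toral _ (Or.inr rfl) h4 hl
    have h7 : Wn 73 A = EM 73 1 s := PP_inj hl (by
      have := PP_EM hl.pow_eq_one 1 s
      rw [pow_one] at this
      exact h3.symm.trans (h6.trans this))
    exact fin729 hA hc (invol θ h1 h2 fun l hl h3 => h 4 l hl (by norm_num) 0 (by rw [map_zero, h3])) s hs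
      (h7 ▸ PP_frob hl h3) h7

end Cfsg.Agent.LD.M
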