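import Cfsg.Agent.LD.E8

set_option autoImplicit false
set_option linter.unusedSectionVars false
set_option maxRecDepth 100000

/-! Elements of prime order at least 11 in the group of type E8 over the field with three elements. -/

namespace Cfsg.Agent.LD.E8

open Cfsg.Agent.H4.Sl Cfsg.Lie Polynomial
open Cfsg.Agent.H4.Sl.RS (L hh Γ lin_eq_of_roots Fr θ Fr_e Fr_hh θ_smul θ_e θ_hh FrΓ coe_FrΓ FrΓ_inj Fr_Fr)

namespace SR

variable {ι Φ : Type} [Fintype ι] [DecidableEq ι] [Fintype Φ] [DecidableEq Φ] {S : SR ι Φ}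
variable {K K' : Type*} [Field K] [Field K']

theorem Mon.Fr {n : Γ ι Φ K} {w : (ι → ℤ) →ₗ[ℤ] (ι → ℤ)} {χ : (ι → ℤ) → K} (h : S.Mon n w χ) (φ : K →+* K') :
    S.Mon (FrΓ φ n) w fun v => φ (χ v) :=
  ⟨h.iso, h.root, h.bij, by rw [h.χ0, map_one], fun v v' => by
    have := congrArg φ (h.χa v v'); simpa only [map_mul, ε, map_sg] using this,
    fun a ha => by rw [coe_FrΓ, Fr_e, h.he a ha, θ_smul, θ_e], fun v => by rw [coe_FrΓ, Fr_hh, h.hh, θ_hh]⟩

theorem W_rel {f : (ι → ℤ) →+ ℤ} (hf : S.Gen f) {t t' u u' h : Γ ι Φ K} {χ χ' : (ι → ℤ) → K}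
    (ht : S.Mon t LinearMap.id χ) (ht' : S.Mon t' LinearMap.id χ') (hu : u ∈ S.Up K f) (hu' : u' ∈ S.Up K f)
    (hh : h ∈ S.U K Set.univ) (e : h * (t * u) = t' * u' * h) :
    ∃ (n : Γ ι Φ K) (w : _) (ψ : _), S.Mon n w ψ ∧ ∀ a, S.R a → χ a = χ' (w a) := by
  obtain ⟨u1, h1, n, hn, u2, h2, e1⟩ := bruhat hf isNK hh (one_mem _)
  rw [mul_one] at e1
  obtain ⟨w, ψ, hw⟩ := isNK.mon n hn
  refine ⟨n, w, ψ, hw, fun a ha => ?_⟩
  have h3 : t⁻¹ * u2 * t⁻¹⁻¹ ∈ S.Up K f := ht.inv_id.conjU (fun r h _ => h) h2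
  have h4 : t' * (u' * u1) * t'⁻¹ ∈ S.Up K f := ht'.conjU (fun r h _ => h) (mul_mem hu' h1)
  have := (bruhat_unique (hw.mul ht) (ht'.mul hw) (mul_mem (mul_mem h3 hu) (inv_mem h2)) (mul_mem (inv_mem h1) h4)
    (by
      have e2 : t' * u' = h * (t * u) * h⁻¹ := by rw [e]; group
      have e3 : u1⁻¹ * (t' * (u' * u1) * t'⁻¹) * (t' * n) = u1⁻¹ * (t' * u') * u1 * n := by group
      rw [e3, e2, e1]; group) a ha).2
  exact mul_right_cancel₀ (hw.χne a) (this.trans (mul_comm _ _))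

theorem Mon.χz {t : Γ ι Φ K} {χ : (ι → ℤ) → K} (h : S.Mon t LinearMap.id χ) (z : ι → ℤ) (k : ℤ) :
    χ (k • z) = χ z ^ k := by
  induction k using Int.induction_on with
  | zero => simp [h.χ0]
  | succ k ih => rw [add_smul, one_smul, h.χa_id, ih, zpow_add_one₀ (h.χne z)]
  | pred k ih =>
    rw [sub_smul, one_smul, sub_eq_add_neg, h.χa_id, ih, zpow_sub_one₀ (h.χne z),
      eq_inv_of_mul_eq_one_left (h.χn z)]

theorem root_ind (hb : ∀ i, S.R (Pi.single i 1)) {p : (ι → ℤ) → Prop} (h0 : p 0) (h1 : ∀ a, S.R a → p a)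
    (h2 : ∀ v v', p v → p v' → p (v + v')) (v : ι → ℤ) : p v := by
  induction v using Pi.single_induction with
  | zero => exact h0
  | add v v' h6 h7 => exact h2 _ _ h6 h7
  | single i k =>
    induction k using Int.induction_on with
    | zero => simpa using h0
    | succ k ih => rw [Pi.single_add]; exact h2 _ _ ih (h1 _ (hb i))
    | pred k ih => rw [sub_eq_add_neg, Pi.single_add, Pi.single_neg i 1]; exact h2 _ _ ih (h1 _ (hb i).ng)

theorem no40 (hb : ∀ i, S.R (Pi.single i 1)) (h8 : Fintype.card ι ≤ 15) {t : Γ ι Φ K} {χ : (ι → ℤ) → K}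
    (h : S.Mon t LinearMap.id χ) (h41 : ∀ a, S.R a → χ a ^ 41 = 1) {w : Module.End ℤ (ι → ℤ)} {N : ℕ} (hN : 0 < N)
    (hw : w ^ N = 1) (h7 : ∀ a, S.R a → χ (w a) = χ a ^ 7) (v : ι → ℤ) : χ v = 1 := by
  have h1 : ∀ v, χ v ^ 41 = 1 := root_ind hb (by simp [h.χ0]) h41 fun v v' h2 h3 => by
    rw [h.χa_id, mul_pow, h2, h3, mul_one]
  have h2 : ∀ v, χ (w v) = χ v ^ 7 := root_ind hb (by simp [h.χ0]) h7 fun v v' h2 h3 => by
    rw [map_add, h.χa_id, h.χa_id, mul_pow, h2, h3]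
  have h3 : ∀ (k : ℕ) v, χ ((w ^ k) v) = χ v ^ 7 ^ k := fun k v => by
    induction k with
    | zero => simp
    | succ k ih => rw [pow_succ', Module.End.mul_apply, h2, ih, ← pow_mul, ← pow_succ]
  have h4 : ∀ (p : ℤ[X]) v, χ (aeval w p v) = χ v ^ p.eval 7 := fun p v => by
    induction p using Polynomial.induction_on' with
    | add p q h5 h6 => rw [map_add, LinearMap.add_apply, h.χa_id, h5, h6, eval_add, zpow_add₀ (h.χne v)]
    | monomial k c =>
      rw [aeval_monomial, Module.End.mul_apply, Module.algebraMap_end_apply, h.χz, h3, eval_monomial,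
        ← zpow_natCast, ← zpow_mul, mul_comm]; rfl
  have key : ∀ s : Finset ℕ, (∀ d ∈ s, 0 < d) → ∀ v, aeval w (∏ d ∈ s, cyclotomic d ℤ) v = 0 → χ v = 1 := by
    intro s
    induction s using Finset.induction_on with
    | empty => intro _ v h5; simp only [Finset.prod_empty, map_one, Module.End.one_apply] at h5; rw [h5, h.χ0]
    | insert d s hd ih =>
      intro h5 v h6
      have h9 := h5 d (Finset.mem_insert_self _ _)
      have ih' := ih fun e he => h5 e (Finset.mem_insert_of_mem he)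
      rw [Finset.prod_insert hd] at h6
      by_cases h10 : d.totient ≤ 15
      · rw [mul_comm, map_mul, Module.End.mul_apply] at h6
        have h11 := ih' _ h6
        rw [h4] at h11
        have h12 : IsCoprime ((cyclotomic d ℤ).eval 7) 41 := by
          refine ((Int.prime_iff_natAbs_prime.mpr (by norm_num)).irreducible.coprime_iff_not_dvd.mpr
            fun h13 => ?_).symm
          have h14 := h13.trans (eval_dvd (x := 7) (cyclotomic.dvd_X_pow_sub_one d ℤ))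
          have h15 : (7 : ZMod 41) ^ d = 1 := by
            have := (ZMod.intCast_zmod_eq_zero_iff_dvd _ 41).mpr h14
            simpa [sub_eq_zero] using this
          have h16 : orderOf (7 : ZMod 41) = 40 := by
            rw [orderOf_eq_iff (by norm_num)]; decide
          have h17 := Nat.le_of_dvd (Nat.totient_pos.mpr h9)
            (Nat.totient_dvd_of_dvd (h16 ▸ orderOf_dvd_of_pow_eq_one h15))
          have h18 : Nat.totient 40 = 16 := by decide
          omega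
        obtain ⟨a, b, h13⟩ := h12
        have h14 : χ v ^ (41 : ℤ) = 1 := by exact_mod_cast h1 v
        rw [← zpow_one (χ v), ← h13, zpow_add₀ (h.χne v), mul_comm a, mul_comm b, zpow_mul, zpow_mul, h11, h14]
        simp
      · rw [map_mul, Module.End.mul_apply] at h6
        refine ih' v ?_
        by_contra h11
        have := rank_ge w h9 ⊤ (fun _ _ => trivial) trivial h11 h6
        rw [H4.Sl.rank_top] at this; omega
  refine key N.divisors (fun d hd => Nat.pos_of_mem_divisors hd) v ?_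
  rw [prod_cyclotomic_eq_X_pow_sub_one hN]; simp [hw]

theorem no41g [Finite K] [CharP K 3] [Fact (Nat.Prime 3)] (hb : ∀ i, S.R (Pi.single i 1))
    (h8 : Fintype.card ι ≤ 15) {f : (ι → ℤ) →+ ℤ} (hf : S.Gen f) {y c h : Γ ι Φ K} (hc : c ∈ S.U K Set.univ)
    (hh : h ∈ S.U K Set.univ) (hB : c⁻¹ * y * c ∈ S.BK K f) (hy : y ^ 41 = 1) (e : h * y = y ^ 2 * h)
    (hF : FrΓ (frobenius K 3) y = y) : y = 1 := by
  obtain ⟨t, ht, u, hu, e1⟩ := hB
  obtain ⟨_, χ, hχ⟩ := id ht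
  have h1 : (t * u) ^ 41 = 1 := by
    have := conj_pow (a := c⁻¹) (b := y) (i := 41)
    rw [inv_inv] at this; rw [← e1, this, hy]; group
  obtain ⟨u1, h2, h3⟩ := pow_TU ht hu 41
  obtain ⟨u2, h4, h5⟩ := pow_TU ht hu 2
  have h41 : ∀ a, S.R a → χ a ^ 41 = 1 := fun a ha =>
    (bruhat_unique (f := f) (hχ.pow_id 41) Mon.one h2 (one_mem _) (by rw [← h3, h1]; simp) a ha).2
  obtain ⟨n1, w1, ψ1, h6, h7⟩ := W_rel hf hχ (hχ.pow_id 2) hu h4 (mul_mem (mul_mem (inv_mem hc) hh) hc)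
    (by rw [← h5, ← e1, pow_two]
        have : c⁻¹ * h * c * (c⁻¹ * y * c) = c⁻¹ * (h * y) * c := by group
        rw [this, e, pow_two]; group)
  obtain ⟨n2, w2, ψ2, h8', h9⟩ := W_rel hf hχ (hχ.Fr (frobenius K 3)) hu (FrΓ_U (frobenius K 3) hu)
    (mul_mem (inv_mem (FrΓ_U (frobenius K 3) hc)) hc)
    (by rw [← map_mul, ← e1, map_mul, map_mul, map_inv, hF]; group)
  obtain ⟨ψ, h10⟩ := (h8'.mul h6).pow (Nat.card (Γ ι Φ K))
  rw [pow_card_eq_one'] at h10
  have h11 := no40 hb h8 hχ h41 Nat.card_pos (lin_eq_of_roots hb fun a ha =>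
    (bruhat_unique (f := f) h10 Mon.one (one_mem _) (one_mem _) (by simp) a ha).1) fun a ha => by
      have h12 := h41 _ (h8'.root _ (h6.root a ha))
      rw [h7 a ha, h9 _ (h6.root a ha), frobenius_def, LinearMap.comp_apply]
      linear_combination (-χ (w2 (w1 a))) * h12
  have h12 : t = 1 := hχ.eq Mon.one (fun _ => rfl) fun a _ => h11 a
  rw [h12, one_mul] at h1 e1
  obtain ⟨k, h13⟩ := isPGroup_Up f ⟨u, hu⟩
  have h14 : u = 1 := by
    have := pow_gcd_eq_one.mpr ⟨h1, (congrArg Subtype.val h13 : u ^ 3 ^ k = 1)⟩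
    rwa [(Nat.Coprime.pow_right k (by norm_num) : Nat.Coprime 41 _), pow_one] at this
  rw [h14] at e1
  rw [← mul_inv_cancel_right y c, ← mul_inv_cancel_left c (y * c), ← mul_assoc c⁻¹, e1]; group

end SR

noncomputable def Ψ : chevE8.group (ZMod 3) →* Γ (Fin 8) (Fin 240) (ZMod 3) :=
  (MulAut.conj (ΔΓ (D := chevE8) (ZMod 3) fun r => (dl r : ℤ))⁻¹⁻¹).toMonoidHom.comp
    ((toΓ chevE8 (ZMod 3)).comp (chevE8.group (ZMod 3)).subtype)

theorem Ψ_eq (g : chevE8.group (ZMod 3)) : Ψ g = (ΔΓ (D := chevE8) (ZMod 3) fun r => (dl r : ℤ))⁻¹⁻¹ *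
    toΓ chevE8 (ZMod 3) g * (ΔΓ (D := chevE8) (ZMod 3) fun r => (dl r : ℤ))⁻¹ := rfl

theorem Ψ_mem (g : chevE8.group (ZMod 3)) : Ψ g ∈ S8.U (ZMod 3) Set.univ := mem_U sgn8 g.2

theorem Ψ_inj : Function.Injective Ψ :=
  (MulAut.conj _).injective.comp ((toΓ_inj (ZMod 3)).comp Subtype.val_injective)

theorem Ψ_cp (g : chevE8.group (ZMod 3)) : (Ψ g : Module.End (ZMod 3) (L (Fin 8) (Fin 240) (ZMod 3))).charpoly =
    (g.1 : Matrix chevE8.Idx chevE8.Idx (ZMod 3)).charpoly :=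
  (SR.charpoly_conj _ _).trans (Matrix.charpoly_toLin' _)

theorem into_B {f : (Fin 8 → ℤ) →+ ℤ} (hf : S8.Gen f) (g : chevE8.group (ZMod 3)) {p : ℕ} [hp : Fact p.Prime]
    (h10 : 10 < p) (hg : g ^ p = 1) : ∃ c ∈ S8.U (GaloisField 3 (p - 1)) Set.univ,
      c⁻¹ * FrΓ (algebraMap (ZMod 3) (GaloisField 3 (p - 1))) (Ψ g) * c ∈ S8.BK (GaloisField 3 (p - 1)) f := by
  obtain ⟨ζ, hζ⟩ := exists_prime_orderOf_dvd_card' (G := (GaloisField 3 (p - 1))ˣ) p (by
    rw [Nat.card_units, GaloisField.card 3 (p - 1) (by omega), ← Nat.modEq_iff_dvd' (Nat.one_le_pow _ _ (by norm_num))]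
    have := Nat.ModEq.pow_totient ((Nat.coprime_primes Nat.prime_three hp.out).mpr (by omega))
    rw [Nat.totient_prime hp.out] at this
    exact this.symm)
  exact SR.conj_into_B hf S8_hb (ζ := (ζ : GaloisField 3 (p - 1)))
    (by rw [← Units.val_pow_eq_pow_val, orderOf_dvd_iff_pow_eq_one.mp hζ.dvd]; rfl) (fun h => by
      have := Nat.le_of_dvd two_pos (orderOf_dvd_of_pow_eq_one (x := ζ) (Units.ext h)); omega)
    le_rfl (fun t ht => SR.NK_le ht.1) (fun _ _ n hn _ => SR.NK_le hn) (fun n _ w χ _ hw => by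
      by_contra h3
      have := rank_prime w hw h3
      rw [Fintype.card_fin] at this; omega)
    (SR.FrΓ_U _ (Ψ_mem g)) (by rw [← map_pow, ← map_pow, hg, map_one, map_one])

theorem e8_toral' (g : chevE8.group (ZMod 3)) {p : ℕ} [hp : Fact p.Prime] (h10 : 10 < p) (hg : g ^ p = 1)
    {K : Type*} [Field K] [IsAlgClosed K] [Algebra (ZMod 3) K] {ν : K} (hν : IsPrimitiveRoot ν p) :
    ∃ s : Fin 8 → ℕ, 2 * s 0 + 3 * s 1 + 4 * s 2 + 6 * s 3 + 5 * s 4 + 4 * s 5 + 3 * s 6 + 2 * s 7 ≤ p ∧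
      (g.1 : Matrix chevE8.Idx chevE8.Idx (ZMod 3)).charpoly.map (algebraMap (ZMod 3) K) =
        (Polynomial.X - 1) ^ 8 * ∏ r : Fin 240, (Polynomial.X - C (ν ^ val s r)) := by
  haveI : NeZero p := ⟨by omega⟩
  obtain ⟨f, hf, -⟩ := exists_f8
  obtain ⟨c, -, hc⟩ := into_B hf g h10 hg
  let φ : GaloisField 3 (p - 1) →ₐ[ZMod 3] K := IsAlgClosed.lift
  obtain ⟨s, hs⟩ := SR.toral S8_hb hc (m := p) (by rw [← map_pow, ← map_pow, hg, map_one, map_one]) φ.toRingHom hν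
  obtain ⟨s', h3, h4⟩ := to_alcove hν.pow_eq_one s
  refine ⟨s', h3, ?_⟩
  rw [Fintype.card_fin] at hs
  rw [← h4, ← hs, coe_FrΓ, SR.charpoly_Fr, Polynomial.map_map, Ψ_cp]
  congr 1
  exact Subsingleton.elim _ _

theorem no41 (x h : chevE8.group (ZMod 3)) (hx : x ^ 41 = 1) (e : h * x = x ^ 2 * h) : x = 1 := by
  haveI : Fact (Nat.Prime 41) := ⟨by norm_num⟩
  haveI : Fact (Nat.Prime 3) := ⟨Nat.prime_three⟩
  obtain ⟨f, hf, -⟩ := exists_f8
  obtain ⟨c, hc, hB⟩ := into_B hf x (by norm_num) hx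
  have := SR.no41g S8_hb (by simp) hf hc (SR.FrΓ_U _ (Ψ_mem h)) hB (by rw [← map_pow, ← map_pow, hx, map_one, map_one])
    (by rw [← map_pow, ← map_pow, ← map_mul, ← map_mul, ← map_mul, ← map_mul, e])
    (Units.ext (by rw [coe_FrΓ, coe_FrΓ, Fr_Fr S8.toRS]; congr 2; exact Subsingleton.elim _ _))
  exact Ψ_inj (FrΓ_inj _ (this.trans (by rw [map_one, map_one])))

end Cfsg.Agent.LD.E8
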