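import Cfsg.Agent.LD.K3

set_option autoImplicit false
set_option linter.unusedSectionVars false
set_option maxRecDepth 100000

/-! Eigenvalue multiplicities of elements of order 2, 11 and 31 of `E₈(3)`. -/

namespace Cfsg.Agent.LD.M

noncomputable def lq (a r : ℕ) (p : ℕ → ℕ → Bool) : Bool :=
  lp (Nat.succ (Nat.div r a)) fun k => frc (Nat.sub r (Nat.mul a k)) (p k)

theorem lq_spec {a r x : ℕ} {p : ℕ → ℕ → Bool} (h : lq a r p = true) (ha : 0 < a) (hx : a * x ≤ r) :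
    p x (r - a * x) = true := by
  have := lp_spec h (k := x) (Nat.lt_succ_of_le ((Nat.le_div_iff_mul_le ha).mpr (by rw [mul_comm]; exact hx)))
  rwa [frc_eq] at this

noncomputable def enm (m : ℕ) (p : ℕ → ℕ → ℕ → ℕ → ℕ → ℕ → ℕ → ℕ → Bool) : Bool :=
  lq 6 m fun s3 r => lq 5 r fun s4 r => lq 4 r fun s2 r => lq 4 r fun s5 r => lq 3 r fun s1 r =>
    lq 3 r fun s6 r => lq 2 r fun s0 r => lq 2 r fun s7 _ => p s0 s1 s2 s3 s4 s5 s6 s7

theorem enm_spec {m : ℕ} {p : ℕ → ℕ → ℕ → ℕ → ℕ → ℕ → ℕ → ℕ → Bool} (h : enm m p = true) {s : Fin 8 → ℕ}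
    (hs : 2 * s 0 + 3 * s 1 + 4 * s 2 + 6 * s 3 + 5 * s 4 + 4 * s 5 + 3 * s 6 + 2 * s 7 ≤ m) :
    p (s 0) (s 1) (s 2) (s 3) (s 4) (s 5) (s 6) (s 7) = true :=
  lq_spec (lq_spec (lq_spec (lq_spec (lq_spec (lq_spec (lq_spec (lq_spec h (x := s 3) (by norm_num) (by omega))
    (x := s 4) (by norm_num) (by omega)) (x := s 2) (by norm_num) (by omega)) (x := s 5) (by norm_num) (by omega))
    (x := s 1) (by norm_num) (by omega)) (x := s 6) (by norm_num) (by omega)) (x := s 0) (by norm_num) (by omega))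
    (x := s 7) (by norm_num) (by omega)

def ct (m k : ℕ) (t : R8) : ℕ := (pos.map fun r => Nat.add (ind (Nat.mod (Nat.add (R8.dot t r) k) m) 0)
  (ind (Nat.mod (R8.dot t r) m) k)).sum

theorem k2 : enm 2 (fun a b c d e f g h => frc (ct 2 0 ⟨a, b, c, d, e, f, g, h⟩) fun x =>
    x == 112 || x == 128 || x == 240) = true := by decide +kernel

theorem k11 : enm 11 (fun a b c d e f g h => frc (ct 11 1 ⟨a, b, c, d, e, f, g, h⟩) fun x =>
    x == 22 || x != ct 11 3 ⟨a, b, c, d, e, f, g, h⟩ || x != ct 11 9 ⟨a, b, c, d, e, f, g, h⟩ ||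
      ct 11 0 ⟨a, b, c, d, e, f, g, h⟩ == 240) = true := by decide +kernel

theorem k31 : enm 31 (fun a b c d e f g h => imp (Nat.beq (Nat.mod (Nh a b c d e f g h) 31) 0)
    (frc (ct 31 0 ⟨a, b, c, d, e, f, g, h⟩) fun x => x == 0 || x == 240 ||
      frc (ct 31 1 ⟨a, b, c, d, e, f, g, h⟩) fun y => y != ct 31 3 ⟨a, b, c, d, e, f, g, h⟩ ||
      y != ct 31 9 ⟨a, b, c, d, e, f, g, h⟩ || y != ct 31 27 ⟨a, b, c, d, e, f, g, h⟩ ||
      y != ct 31 19 ⟨a, b, c, d, e, f, g, h⟩ || y != ct 31 26 ⟨a, b, c, d, e, f, g, h⟩)) = true := by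
  decide +kernel

end Cfsg.Agent.LD.M
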