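import Cfsg.Agent.LD.M5
import Cfsg.Agent.LD.N1
import Cfsg.Agent.LD.N2k

set_option autoImplicit false
set_option linter.unusedSectionVars false
set_option maxRecDepth 100000

/-! Eigenvalue multiplicities of elements of order 2, 11 and 31 of `E₈(3)`. -/

namespace Cfsg.Agent.LD.M

open Polynomial Cfsg.Lie Cfsg.Agent.LD.E8

theorem count_EM {m : ℕ} [NeZero m] (s : Fin 8 → ℕ) (k : ZMod m) :
    (EM m 1 s).count k = (if k = 0 then 8 else 0) + ct m k.val (toR s) := by
  have h1 : (EM m 1 s).count k = ((EM m 1 s).map fun x => if x = k then 1 else 0).sum := by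
    generalize EM m 1 s = W
    induction W using Multiset.induction_on with
    | empty => rfl
    | cons x W ih => rw [Multiset.count_cons, Multiset.map_cons, Multiset.sum_cons, ih, add_comm]; simp [eq_comm]
  rw [h1, sum_EM, sum_roots s fun j => if ((1 * j : ℤ) : ZMod m) = k then 1 else 0]
  unfold ct
  refine congrArg₂ _ (by by_cases h : k = 0 <;> simp [h, eq_comm]) (congrArg _ (List.map_congr_left fun r _ => ?_))
  generalize R8.dot (toR s) r = d
  have e1 : ∀ a b : ℕ, ind a b = if a = b then 1 else 0 := fun a b => by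
    by_cases h : a = b
    · simp [ind, h]
    · rw [if_neg h, ind, Bool.eq_false_iff.mpr fun h1 => h (Nat.eq_of_beq_eq_true h1)]; rfl
  have e2 : ((1 * -(d : ℤ) : ℤ) : ZMod m) = k ↔ (d + k.val) % m = 0 := by
    rw [← Nat.dvd_iff_mod_eq_zero, ← ZMod.natCast_eq_zero_iff]; push_cast
    rw [ZMod.natCast_zmod_val, one_mul, neg_eq_iff_add_eq_zero]
  have e3 : ((1 * (d : ℤ) : ℤ) : ZMod m) = k ↔ d % m = k.val := by
    rw [← ZMod.val_natCast, (ZMod.val_injective m).eq_iff]; simp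
  simp only [e1, e2, e3]; rfl

theorem count3 {m : ℕ} [Fact m.Prime] (h3 : (3 : ZMod m) ≠ 0) {W : Multiset (ZMod m)} (h : W.map (3 * ·) = W)
    (k : ZMod m) : W.count (3 * k) = W.count k := by
  conv_lhs => rw [← h]
  exact Multiset.count_map_eq_count' _ _ (mul_right_injective₀ h3) k

theorem EM_N31 (s : Fin 8 → ℕ) (h : (EM 31 1 s).map (3 * ·) = EM 31 1 s) :
    Nh (s 0) (s 1) (s 2) (s 3) (s 4) (s 5) (s 6) (s 7) % 31 = 0 := by
  have h1 := hinv h fun x => x ^ 2
  simp only [sum_EM, one_mul, mul_pow, ← Finset.mul_sum] at h1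
  have h2 := congrArg (Int.cast : ℤ → ZMod 31) (sum_sq s)
  generalize Nh (s 0) (s 1) (s 2) (s 3) (s 4) (s 5) (s 6) (s 7) = N at h2 ⊢
  push_cast at h2
  rw [h2] at h1
  have h3 : (N : ZMod 31) = 0 := by
    have h4 : (960 : ZMod 31) * 30 = 1 := by decide
    linear_combination 30 * h1 - (N : ZMod 31) * h4
  exact Nat.mod_eq_zero_of_dvd ((ZMod.natCast_eq_zero_iff _ _).mp h3)

section
variable {K V : Type*} [Field K] [AddCommGroup V] [Module K V] [FiniteDimensional K V]

noncomputable def dE (f : Module.End K V) (c : K) : ℕ := Module.finrank K (f.eigenspace c)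

theorem dimE {m : ℕ} [NeZero m] (hm : (m : K) ≠ 0) {f : Module.End K V} (hf : f ^ m = 1) {l : K}
    (hl : IsPrimitiveRoot l m) {W : Multiset (ZMod m)} (h : f.charpoly = PP l W) (k : ZMod m) :
    dE f (l ^ k.val) = W.count k := by
  classical
  have h1 : f.IsSemisimple := Module.End.isSemisimple_of_squarefree_aeval_eq_zero
    (separable_X_pow_sub_C 1 hm one_ne_zero).squarefree (by simp [hf])
  rw [dE, ← h1.isFinitelySemisimple.maxGenEigenspace_eq_eigenspace, LinearMap.finrank_maxGenEigenspace_eq,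
    ← count_roots, h]
  have e : (PP l W).roots = W.map fun x => l ^ x.val := by
    rw [← roots_multiset_prod_X_sub_C (W.map fun x => l ^ x.val), Multiset.map_map]; rfl
  rw [e]
  exact Multiset.count_map_eq_count' _ _
    (fun x y hxy => ZMod.val_injective m (hl.pow_inj (ZMod.val_lt _) (ZMod.val_lt _) hxy)) k

end

section
variable (K : Type*) [Field K] [Algebra (ZMod 3) K]

noncomputable def rE : Representation K (chevE8.group (ZMod 3)) (chevE8.Idx → K) :=
  ((Matrix.toLinAlgEquiv' (R := K) (n := chevE8.Idx)).toRingEquiv.toRingHom.comp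
    (algebraMap (ZMod 3) K).mapMatrix).toMonoidHom.comp ((Units.coeHom _).comp (chevE8.group (ZMod 3)).subtype)

theorem rE_cp (g : chevE8.group (ZMod 3)) : (rE K g).charpoly =
    (g.1 : Matrix chevE8.Idx chevE8.Idx (ZMod 3)).charpoly.map (algebraMap _ K) := by
  rw [← Matrix.charpoly_map, ← Matrix.charpoly_toLin']; rfl

theorem rE_one {g : chevE8.group (ZMod 3)} (h : rE K g = 1) : g = 1 := by
  refine Subtype.ext (Units.ext (Matrix.map_injective (algebraMap (ZMod 3) K).injective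
    ((Matrix.toLinAlgEquiv' (R := K) (n := chevE8.Idx)).injective (h.trans ?_))))
  show _ = Matrix.toLinAlgEquiv' ((1 : Matrix _ _ (ZMod 3)).map _)
  rw [Matrix.map_one _ (map_zero _) (map_one _), map_one]

theorem rk248 : Module.finrank K (chevE8.Idx → K) = 248 := by
  rw [Module.finrank_fintype_fun_eq_card]; exact Fintype.card_sum.trans (by rw [Fintype.card_fin, Fintype.card_fin]; rfl)

variable {K} [IsAlgClosed K]

theorem dims {g : chevE8.group (ZMod 3)} {m : ℕ} [Fact m.Prime] (hm : m = 2 ∨ 10 < m) (hg : g ^ m = 1) (h1 : g ≠ 1)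
    {l : K} (hl : IsPrimitiveRoot l m) : ∃ s : Fin 8 → ℕ,
      2 * s 0 + 3 * s 1 + 4 * s 2 + 6 * s 3 + 5 * s 4 + 4 * s 5 + 3 * s 6 + 2 * s 7 ≤ m ∧
      (EM m 1 s).map (3 * ·) = EM m 1 s ∧ ct m 0 (toR s) ≠ 240 ∧
      ∀ k : ZMod m, dE (rE K g) (l ^ k.val) = (EM m 1 s).count k := by
  haveI : CharP K 3 := charP_of_injective_algebraMap (algebraMap (ZMod 3) K).injective 3
  obtain ⟨s, hs, h2⟩ : ∃ s : Fin 8 → ℕ,
      2 * s 0 + 3 * s 1 + 4 * s 2 + 6 * s 3 + 5 * s 4 + 4 * s 5 + 3 * s 6 + 2 * s 7 ≤ m ∧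
      (g.1 : Matrix chevE8.Idx chevE8.Idx (ZMod 3)).charpoly.map (algebraMap (ZMod 3) K) =
        (Polynomial.X - 1) ^ 8 * ∏ r : Fin 240, (Polynomial.X - C (l ^ val s r)) := by
    rcases hm with hm | hm
    · exact e8_toral g (Or.inl hm) hg hl
    · exact e8_toral' g hm hg hl
  have h3 := PP_EM hl.pow_eq_one 1 s
  rw [pow_one, ← h2, Nat.cast_one] at h3
  have h4 := dimE (hl.neZero'.out) (by rw [← map_pow, hg, map_one]) hl ((rE_cp K g).trans h3)
  refine ⟨s, hs, PP_frob hl h3, fun h5 => h1 (rE_one K ?_), h4⟩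
  have h6 := h4 0
  rw [count_EM, ZMod.val_zero, h5, pow_zero, if_pos rfl] at h6
  have h7 := Submodule.eq_top_of_finrank_eq (h6.trans (rk248 K).symm)
  exact LinearMap.ext fun v => (Module.End.mem_eigenspace_iff.mp (h7 ▸ Submodule.mem_top (x := v))).trans (one_smul _ _)

theorem dim2 {g : chevE8.group (ZMod 3)} (hg : g ^ 2 = 1) (h1 : g ≠ 1) :
    dE (rE K g) 1 = 120 ∧ dE (rE K g) (-1) = 128 ∨
    dE (rE K g) 1 = 136 ∧ dE (rE K g) (-1) = 112 := by
  haveI : CharP K 3 := charP_of_injective_algebraMap (algebraMap (ZMod 3) K).injective 3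
  obtain ⟨s, hs, -, h2, h3⟩ := dims (Or.inl rfl) hg h1 (IsPrimitiveRoot.neg_one (R := K) 3 (by norm_num))
  have h4 := enm_spec k2 hs
  have h5 := h3 0
  have h6 := h3 1
  have h7 := Multiset.sum_count_eq_card (m := EM 2 1 s) (s := Finset.univ) fun _ _ => Finset.mem_univ _
  have h8 : (EM 2 1 s).card = 248 := by
    rw [EM, Multiset.card_add, Multiset.card_replicate, Multiset.card_map, Finset.card_val, Finset.card_univ,
      Fintype.card_fin]
  rw [h8, show (Finset.univ : Finset (ZMod 2)) = {0, 1} from rfl, Finset.sum_pair (by decide), ← h5, ← h6] at h7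
  rw [count_EM, if_pos rfl] at h5
  simp only [frc_eq, Bool.or_eq_true, beq_iff_eq] at h4
  simp only [ZMod.val_zero, pow_zero, ZMod.val_one, pow_one] at h5 h7
  simp only [toR] at h2 h5
  omega

theorem dim11 {g : chevE8.group (ZMod 3)} (hg : g ^ 11 = 1) (h1 : g ≠ 1) {l : K} (hl : IsPrimitiveRoot l 11) :
    dE (rE K g) l = 22 := by
  have h03 : (3 : ZMod 11) ≠ 0 := by decide
  haveI : Fact (Nat.Prime 11) := ⟨by norm_num⟩
  obtain ⟨s, hs, h0, h2, h3⟩ := dims (Or.inr (by norm_num)) hg h1 hl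
  have h4 := enm_spec k11 hs
  have h5 := h3 1
  have h6 := count3 h03 h0 1
  have h7 := count3 h03 h0 3
  rw [count_EM, count_EM] at h6 h7
  rw [count_EM, ZMod.val_one, pow_one] at h5
  simp only [frc_eq, Bool.or_eq_true, beq_iff_eq, bne_iff_ne] at h4
  change 0 + ct 11 3 _ = 0 + ct 11 1 _ at h6
  change 0 + ct 11 9 _ = 0 + ct 11 3 _ at h7
  change _ = 0 + _ at h5
  simp only [toR] at h2 h5 h6 h7
  omega

theorem dim31 {g : chevE8.group (ZMod 3)} (hg : g ^ 31 = 1) (h1 : g ≠ 1) :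
    dE (rE K g) 1 = 8 := by
  have h03 : (3 : ZMod 31) ≠ 0 := by decide
  haveI : Fact (Nat.Prime 31) := ⟨by norm_num⟩
  haveI : CharP K 3 := charP_of_injective_algebraMap (algebraMap (ZMod 3) K).injective 3
  haveI : NeZero ((31 : ℕ) : K) := ⟨fun h7 => absurd ((CharP.cast_eq_zero_iff K 3 31).mp h7) (by decide)⟩
  obtain ⟨l, hl⟩ := HasEnoughRootsOfUnity.exists_primitiveRoot K 31
  obtain ⟨s, hs, h0, h2, h3⟩ := dims (Or.inr (by norm_num)) hg h1 hl
  have h4 := imp_spec (enm_spec k31 hs) (by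
    rw [show ∀ a, Nat.mod a 31 = a % 31 from fun _ => rfl, EM_N31 s h0]; rfl)
  have h5 := h3 0
  have h6 := count3 h03 h0 1
  have h7 := count3 h03 h0 3
  have h8 := count3 h03 h0 9
  have h9 := count3 h03 h0 27
  have h10 := count3 h03 h0 19
  rw [count_EM, count_EM] at h6 h7 h8 h9 h10
  rw [count_EM, ZMod.val_zero, pow_zero, if_pos rfl] at h5
  simp only [frc_eq, Bool.or_eq_true, beq_iff_eq, bne_iff_ne] at h4
  change 0 + ct 31 3 _ = 0 + ct 31 1 _ at h6
  change 0 + ct 31 9 _ = 0 + ct 31 3 _ at h7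
  change 0 + ct 31 27 _ = 0 + ct 31 9 _ at h8
  change 0 + ct 31 19 _ = 0 + ct 31 27 _ at h9
  change 0 + ct 31 26 _ = 0 + ct 31 19 _ at h10
  simp only [toR] at h2 h5 h6 h7 h8 h9 h10
  omega

end

end Cfsg.Agent.LD.M
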