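import Mathlib

set_option autoImplicit false
set_option linter.unusedSectionVars false
set_option linter.style.haveILetI false
set_option linter.dupNamespace false

/-! Fixed points of finite 2-groups in odd characteristic, counted through eigenspace dimensions. -/

namespace Cfsg.Agent.LD.T2

open Module

variable {K V P : Type*} [Field K] [AddCommGroup V] [Module K V] [FiniteDimensional K V] [Group P] [Fintype P]

theorem split (h2 : (2 : K) ≠ 0) (z : End K V) (U : Submodule K V) (h : ∀ u ∈ U, z u ∈ U ∧ z (z u) = u) :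
    finrank K U = finrank K (U ⊓ z.eigenspace 1 : Submodule K V) + finrank K (U ⊓ z.eigenspace (-1) : Submodule K V) := by
  have h1 : U ⊓ z.eigenspace 1 ⊔ U ⊓ z.eigenspace (-1) = U := le_antisymm (sup_le inf_le_left inf_le_left)
    fun u hu => Submodule.mem_sup.mpr ⟨(2 : K)⁻¹ • (u + z u), ⟨U.smul_mem _ (add_mem hu (h u hu).1),
      End.mem_eigenspace_iff.mpr (by rw [map_smul, map_add, (h u hu).2, one_smul, add_comm])⟩,
      (2 : K)⁻¹ • (u - z u), ⟨U.smul_mem _ (sub_mem hu (h u hu).1),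
      End.mem_eigenspace_iff.mpr (by rw [map_smul, map_sub, (h u hu).2]; module)⟩, by
        rw [← smul_add, add_add_sub_cancel, ← two_smul K, smul_smul, inv_mul_cancel₀ h2, one_smul]⟩
  have h3 : (U ⊓ z.eigenspace 1) ⊓ (U ⊓ z.eigenspace (-1)) = ⊥ := eq_bot_iff.mpr fun u hu => by
    have h4 := (End.mem_eigenspace_iff.mp hu.1.2).symm.trans (End.mem_eigenspace_iff.mp hu.2.2)
    have h5 : (2 : K) • u = 0 := by rw [two_smul]; nth_rewrite 1 [← one_smul K u, h4]; simp
    exact (smul_eq_zero.mp h5).resolve_left h2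
  rw [← Submodule.finrank_sup_add_finrank_inf_eq, h1, h3, finrank_bot, add_zero]

theorem rel (h2 : (2 : K) ≠ 0) (hP : IsPGroup 2 P) (ρ : Representation K P V) (n : ℕ) : ∀ W : Submodule K V,
    finrank K W < n → (∀ g, ∀ w ∈ W, ρ g w ∈ W) →
    (Fintype.card P * finrank K (W ⊓ ρ.invariants : Submodule K V) : ℤ) =
      ∑ g, ((finrank K (W ⊓ End.eigenspace (ρ g) 1 : Submodule K V) : ℤ) -
        finrank K (W ⊓ End.eigenspace (ρ g) (-1) : Submodule K V)) := by
  classical
  induction n with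
  | zero => intro W h; exact absurd h (Nat.not_lt_zero _)
  | succ n ih =>
  intro W hn hW
  let N : Subgroup P :=
    { carrier := {g | ∀ w ∈ W, ρ g w = w}
      one_mem' := fun w _ => by simp
      mul_mem' := fun h3 h4 w hw => by rw [map_mul, End.mul_apply, h4 w hw, h3 w hw]
      inv_mem' := fun {g} h3 w hw => by nth_rewrite 1 [← h3 w hw]; simp }
  haveI : N.Normal := ⟨fun g h3 k w hw => by
    rw [map_mul, map_mul, End.mul_apply, End.mul_apply, h3 _ (hW _ _ hw)]; simp⟩
  by_cases hN : ∀ g, g ∈ N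
  · have h3 : W ⊓ ρ.invariants = W := inf_eq_left.mpr fun w hw g => hN g w hw
    have h4 : ∀ g, W ⊓ End.eigenspace (ρ g) 1 = W := fun g => inf_eq_left.mpr fun w hw =>
      End.mem_eigenspace_iff.mpr (by rw [hN g w hw, one_smul])
    have h5 : ∀ g, finrank K (W ⊓ End.eigenspace (ρ g) (-1) : Submodule K V) = 0 := fun g => by
      have := split h2 (ρ g) W fun w hw => ⟨hW g w hw, by rw [hN g w hw, hN g w hw]⟩
      rw [h4] at this; omega
    have h6 : ∀ g, finrank K (W ⊓ End.eigenspace (ρ g) 1 : Submodule K V) = finrank K W := fun g => by rw [h4]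
    have h7 : finrank K (W ⊓ ρ.invariants : Submodule K V) = finrank K W := by rw [h3]
    simp only [h5, h6, h7, Nat.cast_zero, sub_zero, Finset.sum_const, Finset.card_univ, nsmul_eq_mul]
  push Not at hN
  obtain ⟨z, hz1, hz2, hz3⟩ : ∃ z : P, z ∉ N ∧ z * z ∈ N ∧ ∀ g, (g * z)⁻¹ * (z * g) ∈ N := by
    haveI : Nontrivial (P ⧸ N) := hN.elim fun g hg => ⟨g, 1, fun h => hg ((QuotientGroup.eq_one_iff g).mp h)⟩
    haveI : Fact (Nat.Prime 2) := ⟨Nat.prime_two⟩
    haveI := (hP.to_quotient N).center_nontrivial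
    obtain ⟨k, hk, h3⟩ := ((hP.to_quotient N).to_subgroup (Subgroup.center _)).nontrivial_iff_card.mp inferInstance
    obtain ⟨⟨y, hy⟩, h4⟩ := exists_prime_orderOf_dvd_card' (G := Subgroup.center (P ⧸ N)) 2
      (h3 ▸ dvd_pow_self 2 hk.ne')
    obtain ⟨z, rfl⟩ := QuotientGroup.mk_surjective y
    refine ⟨z, fun h => ?_, ?_, fun g => QuotientGroup.eq.mp (Subgroup.mem_center_iff.mp hy g)⟩
    · rw [show (⟨z, hy⟩ : Subgroup.center (P ⧸ N)) = 1 from Subtype.ext ((QuotientGroup.eq_one_iff z).mpr h),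
        orderOf_one] at h4
      exact absurd h4 (by norm_num)
    · have := congrArg Subtype.val (pow_orderOf_eq_one (⟨z, hy⟩ : Subgroup.center (P ⧸ N)))
      rw [h4, pow_two] at this
      exact (QuotientGroup.eq_one_iff _).mp this
  have c1 : ∀ w ∈ W, ρ z (ρ z w) = w := fun w hw => by rw [← End.mul_apply, ← map_mul]; exact hz2 w hw
  have c2 : ∀ g, ∀ w ∈ W, ρ z (ρ g w) = ρ g (ρ z w) := fun g w hw => by
    have := congrArg (ρ (g * z)) (hz3 g w hw)
    rw [← End.mul_apply, ← map_mul, mul_inv_cancel_left, map_mul, map_mul] at this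
    exact this
  have c3 : ∀ g c, finrank K (W ⊓ End.eigenspace (ρ g) c : Submodule K V) =
      finrank K ((W ⊓ End.eigenspace (ρ z) 1) ⊓ End.eigenspace (ρ g) c : Submodule K V) +
      finrank K ((W ⊓ End.eigenspace (ρ z) (-1)) ⊓ End.eigenspace (ρ g) c : Submodule K V) := fun g c => by
    rw [inf_right_comm, inf_right_comm W (End.eigenspace (ρ z) (-1))]
    exact split h2 (ρ z) _ fun u hu => ⟨⟨hW z u hu.1, End.mem_eigenspace_iff.mpr (by
      rw [← c2 g u hu.1, End.mem_eigenspace_iff.mp hu.2, map_smul])⟩, c1 u hu.1⟩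
  have c4 := ih (W ⊓ End.eigenspace (ρ z) 1) (by
    refine lt_of_lt_of_le (Submodule.finrank_lt_finrank_of_lt (lt_of_le_of_ne inf_le_left fun h => hz1 fun w hw => ?_))
      (Nat.lt_succ_iff.mp hn)
    simpa using End.mem_eigenspace_iff.mp (inf_eq_left.mp h hw)) fun g w hw => ⟨hW g w hw.1,
      End.mem_eigenspace_iff.mpr (by rw [c2 g w hw.1, End.mem_eigenspace_iff.mp hw.2, map_smul])⟩
  have c5 : W ⊓ End.eigenspace (ρ z) 1 ⊓ ρ.invariants = W ⊓ ρ.invariants := by
    rw [inf_right_comm]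
    exact inf_eq_left.mpr fun w hw => End.mem_eigenspace_iff.mpr (by rw [hw.2 z, one_smul])
  have c6 : ∀ g, (W ⊓ End.eigenspace (ρ z) (-1)) ⊓ End.eigenspace (ρ (g * z)) 1 =
      (W ⊓ End.eigenspace (ρ z) (-1)) ⊓ End.eigenspace (ρ g) (-1) := fun g => by
    ext w
    simp only [Submodule.mem_inf, End.mem_eigenspace_iff, and_congr_right_iff, map_mul, End.mul_apply]
    rintro ⟨-, h⟩
    rw [h]; simp [neg_eq_iff_eq_neg]
  have c6' : ∀ g, finrank K ((W ⊓ End.eigenspace (ρ z) (-1)) ⊓ End.eigenspace (ρ (g * z)) 1 : Submodule K V) =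
      finrank K ((W ⊓ End.eigenspace (ρ z) (-1)) ⊓ End.eigenspace (ρ g) (-1) : Submodule K V) := fun g => by rw [c6]
  have c7 : ∑ g, (finrank K ((W ⊓ End.eigenspace (ρ z) (-1)) ⊓ End.eigenspace (ρ (g * z)) 1 : Submodule K V) : ℤ) =
      ∑ g, (finrank K ((W ⊓ End.eigenspace (ρ z) (-1)) ⊓ End.eigenspace (ρ g) 1 : Submodule K V) : ℤ) :=
    Equiv.sum_comp (Equiv.mulRight z) fun g =>
      (finrank K ((W ⊓ End.eigenspace (ρ z) (-1)) ⊓ End.eigenspace (ρ g) 1 : Submodule K V) : ℤ)
  have c8 : finrank K (W ⊓ End.eigenspace (ρ z) 1 ⊓ ρ.invariants : Submodule K V) =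
      finrank K (W ⊓ ρ.invariants : Submodule K V) := by rw [c5]
  simp only [c6'] at c7
  rw [c8] at c4
  rw [c4]
  have c9 : ∀ g, ((finrank K (W ⊓ End.eigenspace (ρ g) 1 : Submodule K V) : ℤ) -
        finrank K (W ⊓ End.eigenspace (ρ g) (-1) : Submodule K V)) =
      ((finrank K ((W ⊓ End.eigenspace (ρ z) 1) ⊓ End.eigenspace (ρ g) 1 : Submodule K V) : ℤ) -
        finrank K ((W ⊓ End.eigenspace (ρ z) 1) ⊓ End.eigenspace (ρ g) (-1) : Submodule K V)) +
      ((finrank K ((W ⊓ End.eigenspace (ρ z) (-1)) ⊓ End.eigenspace (ρ g) 1 : Submodule K V) : ℤ) -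
        finrank K ((W ⊓ End.eigenspace (ρ z) (-1)) ⊓ End.eigenspace (ρ g) (-1) : Submodule K V)) := fun g => by
    have a1 := c3 g 1
    have a2 := c3 g (-1)
    omega
  rw [Finset.sum_congr rfl fun g _ => c9 g, Finset.sum_add_distrib, Finset.sum_sub_distrib (s := Finset.univ)
    (f := fun g => (finrank K ((W ⊓ End.eigenspace (ρ z) (-1)) ⊓ End.eigenspace (ρ g) 1 : Submodule K V) : ℤ)), c7,
    sub_self, add_zero]

/-- `|P| · dim V^P = ∑_g (dim ker (g - 1) - dim ker (g + 1))` for a finite 2-group `P`. -/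
theorem T2 (h2 : (2 : K) ≠ 0) (hP : IsPGroup 2 P) (ρ : Representation K P V) :
    (Fintype.card P * finrank K ρ.invariants : ℤ) =
      ∑ g, ((finrank K (End.eigenspace (ρ g) 1) : ℤ) - finrank K (End.eigenspace (ρ g) (-1))) := by
  have := rel h2 hP ρ _ ⊤ (Nat.lt_succ_self _) fun _ _ _ => trivial
  have e : ∀ U : Submodule K V, finrank K (⊤ ⊓ U : Submodule K V) = finrank K U := fun U => by rw [top_inf_eq]
  simp only [e] at this
  exact this

theorem conj_dim {G : Type*} [Group G] (ρ : Representation K G V) (g h : G) (c : K) :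
    finrank K (End.eigenspace (ρ (h * g * h⁻¹)) c) = finrank K (End.eigenspace (ρ g) c) := by
  have key : ∀ g h : G, finrank K (End.eigenspace (ρ g) c) ≤ finrank K (End.eigenspace (ρ (h * g * h⁻¹)) c) :=
    fun g h => LinearMap.finrank_le_finrank_of_injective (f := (ρ h).restrict (p := End.eigenspace (ρ g) c)
      fun v hv => End.mem_eigenspace_iff.mpr (by
        rw [← End.mul_apply, ← map_mul, inv_mul_cancel_right, map_mul, End.mul_apply,
          End.mem_eigenspace_iff.mp hv, map_smul]))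
      fun v w h1 => Subtype.ext (by simpa using congrArg (fun x => ρ h⁻¹ x.1) h1)
  refine le_antisymm ?_ (key g h)
  have := key (h * g * h⁻¹) h⁻¹
  rwa [show h⁻¹ * (h * g * h⁻¹) * h⁻¹⁻¹ = g by group] at this

theorem dim_le (N : End K V) (A B C : Submodule K V) (h1 : ∀ v ∈ A, N v ∈ B) (h2 : ∀ v ∈ A, N v = 0 → v ∈ C) :
    finrank K A ≤ finrank K B + finrank K C := by
  have h3 := (N.domRestrict A).finrank_range_add_finrank_ker
  have h4 : finrank K (LinearMap.range (N.domRestrict A)) ≤ finrank K B :=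
    Submodule.finrank_mono (by rintro _ ⟨v, rfl⟩; exact h1 v.1 v.2)
  have h5 : finrank K (LinearMap.ker (N.domRestrict A)) ≤ finrank K C := by
    rw [← Submodule.finrank_map_subtype_eq]
    exact Submodule.finrank_mono (by rintro _ ⟨v, hv, rfl⟩; exact h2 v.1 v.2 hv)
  omega

/-- an involution inverting `x` -/
theorem dihedral {s x x' : End K V} (h1 : x * x' = 1) (h2 : s * x = x' * s) (h3 : s * x' = x * s) :
    finrank K (s.eigenspace 1) ≤ finrank K (s.eigenspace (-1)) + finrank K ((x ^ 2).eigenspace 1) := by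
  refine dim_le (x - x') _ _ _ (fun v hv => End.mem_eigenspace_iff.mpr ?_) fun v _ hv => End.mem_eigenspace_iff.mpr ?_
  · rw [← End.mul_apply, mul_sub, h2, h3]; simp [End.mem_eigenspace_iff.mp hv]
  · have h4 : x v - x' v = 0 := hv
    rw [pow_two, End.mul_apply, sub_eq_zero.mp h4, ← End.mul_apply, h1]; simp

/-- the multiplicity of an eigenvalue, read in the field, through traces of powers -/
theorem mult_trace {f : End K V} {m : ℕ} (hm : (m : K) ≠ 0) (hf : f ^ m = 1) {l : K} (hl : l ^ m = 1) :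
    (m : K) * finrank K (f.eigenspace l) = ∑ j ∈ Finset.range m, l⁻¹ ^ j * LinearMap.trace K V (f ^ j) := by
  have h0 : l ≠ 0 := by rintro rfl; rw [zero_pow (by rintro rfl; simp at hm)] at hl; exact zero_ne_one hl
  have h1 : LinearMap.IsProj (f.eigenspace l) ((m : K)⁻¹ • ∑ j ∈ Finset.range m, (l⁻¹ • f) ^ j) := by
    refine ⟨fun v => End.mem_eigenspace_iff.mpr ?_, fun v hv => ?_⟩
    · have h2 := mul_geom_sum (l⁻¹ • f) m
      rw [smul_pow, hf, inv_pow, hl, inv_one, one_smul, sub_self, sub_mul, one_mul, sub_eq_zero] at h2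
      rw [LinearMap.smul_apply, map_smul, smul_comm l]
      congr 1
      conv_rhs => rw [← h2, End.mul_apply, LinearMap.smul_apply, smul_smul, mul_inv_cancel₀ h0, one_smul]
    · have h2 : ∀ j, ((l⁻¹ • f) ^ j) v = v := fun j => by
        induction j with
        | zero => rfl
        | succ j ih => rw [pow_succ, End.mul_apply, LinearMap.smul_apply, End.mem_eigenspace_iff.mp hv, smul_smul,
            inv_mul_cancel₀ h0, one_smul, ih]
      rw [LinearMap.smul_apply, LinearMap.sum_apply]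
      simp only [h2, Finset.sum_const, Finset.card_range]
      rw [← Nat.cast_smul_eq_nsmul K, smul_smul, inv_mul_cancel₀ hm, one_smul]
  rw [← h1.trace, map_smul, map_sum, smul_eq_mul, mul_inv_cancel_left₀ hm]
  exact Finset.sum_congr rfl fun j _ => by rw [smul_pow, map_smul, smul_eq_mul]

end Cfsg.Agent.LD.T2
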