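import Cfsg.Agent.LD.M1
import Cfsg.Agent.LD.N3

set_option autoImplicit false
set_option linter.unusedSectionVars false
set_option linter.style.haveILetI false

/-! Central characters and the Brauer homomorphism in characteristic three; modules for `SL₂(32)`. -/

namespace Cfsg.Agent.LD.M

open Polynomial Matrix Module

theorem sum3 {X K : Type*} [DecidableEq X] [Field K] (h3 : (3 : K) = 0) (σ : X → X) (hσ : ∀ x, σ (σ (σ x)) = x)
    (f : X → K) (hf : ∀ x, f (σ x) = f x) (s : Finset X) (hs : ∀ x ∈ s, σ x ∈ s ∧ σ x ≠ x) : ∑ x ∈ s, f x = 0 := by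
  induction s using Finset.strongInduction with
  | H s ih =>
  rcases s.eq_empty_or_nonempty with rfl | ⟨x, hx⟩
  · simp
  have h1 := hs x hx
  have h2 := hs _ h1.1
  have h4 : σ (σ x) ≠ x := fun h => h1.2 (by have := hσ x; rwa [h] at this)
  have ht : ({x, σ x, σ (σ x)} : Finset X) ⊆ s := by simp [Finset.insert_subset_iff, hx, h1.1, h2.1]
  have h5 := ih _ (Finset.sdiff_ssubset ht (by simp)) fun w hw => by
    obtain ⟨a, b⟩ := Finset.mem_sdiff.mp hw
    refine ⟨Finset.mem_sdiff.mpr ⟨(hs w a).1, fun h => b ?_⟩, (hs w a).2⟩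
    simp only [Finset.mem_insert, Finset.mem_singleton] at h ⊢
    have := hσ w
    rcases h with h | h | h <;> rw [h] at this
    · exact Or.inr (Or.inr this.symm)
    · exact Or.inl (by rw [← this, hσ])
    · exact Or.inr (Or.inl (by rw [← this, hσ]))
  rw [← Finset.sum_sdiff ht, h5, Finset.sum_insert (by simp [h1.2.symm, h4.symm]), Finset.sum_pair h2.2.symm, hf (σ x), hf x]
  linear_combination f x * h3

section
variable {Γ K V : Type*} [Group Γ] [Fintype Γ] [DecidableEq Γ] [Field K] [IsAlgClosed K] [AddCommGroup V] [Module K V]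
  [FiniteDimensional K V]

theorem trace_add (f : End K V) (W : Submodule K V) (h : W ≤ W.comap f) :
    LinearMap.trace K V f = LinearMap.trace K W (f.restrict h) + LinearMap.trace K _ (W.mapQ W f h) := by
  have e : ∀ (U : Type _) [AddCommGroup U] [Module K U] [FiniteDimensional K U] (g : End K U),
      LinearMap.trace K U g = -g.charpoly.nextCoeff := fun U _ _ _ g => by
    classical
    rw [LinearMap.trace_eq_matrix_trace K (Module.Free.chooseBasis K U), Matrix.trace_eq_neg_charpoly_nextCoeff,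
      LinearMap.charpoly_toMatrix]
  rw [e, e, e, charpoly_sub_quot f W h, Monic.nextCoeff_mul (LinearMap.charpoly_monic _) (LinearMap.charpoly_monic _)]
  ring

theorem brauer (h3 : (3 : K) = 0) (ρ : Representation K Γ V)
    (hs : ∀ W : Submodule K V, (∀ g, W ≤ W.comap (ρ g)) → W = ⊥ ∨ W = ⊤) {u y : Γ} (hu : u ^ 3 = 1)
    (hy : y ^ 11 = 1) (hc : Commute u y) (hn : y ≠ y⁻¹) (S : Γ → Prop) (hS : ∀ a b, S b → S (a * b * a⁻¹))
    (hC : ∀ x, Commute u x → (S x ↔ x = y ∨ x = y⁻¹)) :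
    ∃ z : K, z ^ 11 = 1 ∧ ∀ k : ℕ, LinearMap.trace K V (ρ (y ^ k)) + LinearMap.trace K V (ρ (y⁻¹ ^ k)) =
      finrank K V * (z ^ k + z⁻¹ ^ k) := by
  classical
  set τ : Γ → K := fun g => LinearMap.trace K V (ρ g) with hτ
  obtain ⟨ω, hω⟩ : ∃ ω : K, ∑ h ∈ Finset.univ.filter S, ρ h = ω • (1 : End K V) := by
    rcases subsingleton_or_nontrivial V with h0 | h0
    · exact ⟨0, Subsingleton.elim _ _⟩
    obtain ⟨μ, hμ⟩ := End.exists_eigenvalue (∑ h ∈ Finset.univ.filter S, ρ h)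
    have h1 : ∀ g, (∑ h ∈ Finset.univ.filter S, ρ h) * ρ g = ρ g * ∑ h ∈ Finset.univ.filter S, ρ h := fun g => by
      rw [Finset.sum_mul, Finset.mul_sum]
      refine Finset.sum_nbij' (fun h => g⁻¹ * h * g⁻¹⁻¹) (fun h => g * h * g⁻¹) ?_ ?_ ?_ ?_ ?_
      · intro a ha; simpa using hS g⁻¹ a (by simpa using ha)
      · intro a ha; simpa using hS g a (by simpa using ha)
      · intro a _; group
      · intro a _; group
      · intro a _; rw [← map_mul, ← map_mul]; congr 1; group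
    have h2 := (hs (End.eigenspace (∑ h ∈ Finset.univ.filter S, ρ h) μ) fun g v hv => End.mem_eigenspace_iff.mpr (by
      rw [← End.mul_apply, h1, End.mul_apply, End.mem_eigenspace_iff.mp hv, map_smul])).resolve_left hμ
    exact ⟨μ, LinearMap.ext fun v => End.mem_eigenspace_iff.mp (h2 ▸ Submodule.mem_top)⟩
  have key : ∀ x, Commute u x → ω * τ x = τ (x * y) + τ (x * y⁻¹) := fun x hx => by
    have h1 : ω * τ x = ∑ h ∈ Finset.univ.filter S, τ (x * h) := by
      have := congrArg (fun f => LinearMap.trace K V (ρ x * f)) hω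
      simp only [Finset.mul_sum, map_sum, ← map_mul, mul_smul_comm, mul_one, map_smul, smul_eq_mul] at this
      exact this.symm
    have h2 : ({y, y⁻¹} : Finset Γ) ⊆ Finset.univ.filter S := by
      simp [Finset.insert_subset_iff, hC y hc, hC _ hc.inv_right]
    have h4 := sum3 h3 (fun w => u * w * u⁻¹) (fun w => by
      rw [show u * (u * (u * w * u⁻¹) * u⁻¹) * u⁻¹ = u ^ 3 * w * (u ^ 3)⁻¹ by
        simp only [pow_three, _root_.mul_inv_rev, mul_assoc], hu]; simp)
      (fun w => τ (x * w)) (fun w => by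
        simp only [hτ]
        rw [show x * (u * w * u⁻¹) = u * (x * w) * u⁻¹ by rw [← mul_assoc, ← mul_assoc, ← hx.eq]; group, map_mul,
          LinearMap.trace_mul_comm, ← map_mul]
        congr 2; group) (Finset.univ.filter S \ {y, y⁻¹}) fun w hw => by
        simp only [Finset.mem_sdiff, Finset.mem_filter, Finset.mem_univ, true_and, Finset.mem_insert,
          Finset.mem_singleton] at hw ⊢
        refine ⟨⟨hS u w hw.1, fun h => hw.2 (h.imp (fun h => ?_) fun h => ?_)⟩, fun h =>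
          hw.2 ((hC w (mul_inv_eq_iff_eq_mul.mp h)).mp hw.1)⟩
        · exact mul_left_cancel ((mul_inv_eq_iff_eq_mul.mp h).trans hc.eq.symm)
        · exact mul_left_cancel ((mul_inv_eq_iff_eq_mul.mp h).trans hc.inv_right.eq.symm)
    rw [h1, ← Finset.sum_sdiff h2, h4, zero_add, Finset.sum_pair hn]
  obtain ⟨z, hz⟩ := IsAlgClosed.exists_root (X ^ 2 - C ω * X + 1 : K[X]) (by
    rw [show (X ^ 2 - C ω * X + 1 : K[X]).degree = 2 by compute_degree!]; norm_num)
  have hz1 : z ^ 2 - ω * z + 1 = 0 := by simpa using hz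
  have hz0 : z ≠ 0 := by rintro rfl; simp at hz1
  have hz2 : ω = z + z⁻¹ := by field_simp; linear_combination -hz1
  have h1 : τ 1 = finrank K V := by simp [hτ]
  have main : ∀ k : ℕ, τ (y ^ k) + τ (y⁻¹ ^ k) = finrank K V * (z ^ k + z⁻¹ ^ k) := fun k => by
    induction k using Nat.twoStepInduction with
    | zero => simp only [pow_zero, h1]; ring
    | one => have := key 1 (Commute.one_right u); rw [one_mul, one_mul, h1, hz2] at this; simp only [pow_one]
             linear_combination -this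
    | more k ih1 ih2 =>
      have a1 := key _ (hc.pow_right (k + 1))
      have a2 := key _ (hc.inv_right.pow_right (k + 1))
      rw [← pow_succ, pow_succ y k, mul_inv_cancel_right, ← pow_succ] at a1
      rw [← pow_succ, pow_succ y⁻¹ k, inv_mul_cancel_right, ← pow_succ] at a2
      have a3 : z * z⁻¹ = 1 := mul_inv_cancel₀ hz0
      rw [hz2] at a1 a2
      linear_combination -a1 - a2 - ih1 + (z + z⁻¹) * ih2 + finrank K V * (z ^ k + z⁻¹ ^ k) * a3
  by_cases hd : (finrank K V : K) = 0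
  · exact ⟨1, one_pow _, fun k => by have := main k; rw [hd, zero_mul] at this ⊢; exact this⟩
  refine ⟨z, ?_, main⟩
  have h2 := main 11
  rw [inv_pow y, hy, inv_one, h1, ← two_mul, mul_comm, inv_pow] at h2
  have h4 := mul_left_cancel₀ hd h2
  have h5 : z ^ 11 ≠ 0 := pow_ne_zero _ hz0
  generalize z ^ 11 = t at *
  have h6 : (t - 1) ^ 2 = 0 := by field_simp at h4; linear_combination -h4
  exact sub_eq_zero.mp (pow_eq_zero_iff two_ne_zero |>.mp h6)

end

section
variable {F : Type*} [Field F]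

def mm (s r : F) : Matrix (Fin 2) (Fin 2) F := !![s + r, r; r, s]

theorem mm_mul {s r s' r' a b : F} (h1 : s * s' + r * r' = a) (h2 : s * r' + r * s' + r * r' = b) :
    mm s r * mm s' r' = mm a b := by
  subst h1 h2
  ext i j; fin_cases i <;> fin_cases j <;> simp [mm, Matrix.mul_apply, Fin.sum_univ_two] <;> ring

theorem mm_one : mm (1 : F) 0 = 1 := by ext i j; fin_cases i <;> fin_cases j <;> simp [mm]

variable [Fintype F]

theorem two32 (hF : Fintype.card F = 32) : (2 : F) = 0 := by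
  have := FiniteField.cast_card_eq_zero F
  rw [hF] at this
  exact pow_eq_zero_iff (n := 5) (by norm_num) |>.mp (by rw [← this]; norm_num)

theorem root32 (hF : Fintype.card F = 32) : ∃ r : F, r ^ 5 + r ^ 4 + r ^ 2 + r + 1 = 0 := by
  by_contra h
  push Not at h
  have h2 := two32 hF
  have h1 := eq_zero_of_natDegree_lt_card_of_eval_eq_zero (X + X ^ 2 + X ^ 4 + X ^ 6 + X ^ 9 + X ^ 13 + X ^ 15 +
    X ^ 16 + X ^ 17 + X ^ 18 + X ^ 19 + X ^ 21 + X ^ 22 + X ^ 25 + X ^ 26 + X ^ 27 : F[X]) Function.injective_id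
    (fun r => by
      refine (mul_eq_zero.mp ?_).resolve_right (h r)
      have h3 := FiniteField.pow_card r
      rw [hF] at h3
      simp only [eval_add, eval_pow, eval_X, id]
      linear_combination h3 + (r + r ^ 2 + r ^ 3 + r ^ 4 + r ^ 5 + 2 * r ^ 6 + r ^ 7 + r ^ 8 + r ^ 9 + r ^ 10 +
        r ^ 11 + r ^ 13 + r ^ 14 + r ^ 15 + r ^ 16 + 2 * r ^ 17 + 2 * r ^ 18 + 2 * r ^ 19 + 2 * r ^ 20 + 2 * r ^ 21 +
        2 * r ^ 22 + 2 * r ^ 23 + r ^ 24 + r ^ 25 + 2 * r ^ 26 + 2 * r ^ 27 + r ^ 28 + r ^ 29 + r ^ 30 + r ^ 31) * h2)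
    (by rw [hF]; exact lt_of_le_of_lt (b := 27) (by compute_degree) (by norm_num))
  have := congrArg (fun p => coeff p 1) h1
  simp [coeff_X_pow] at this

theorem exists_uy (hF : Fintype.card F = 32) : ∃ u y : G F, u ^ 3 = 1 ∧ y ^ 11 = 1 ∧ Commute u y ∧ y ≠ y⁻¹ ∧
    ∀ x, Commute u x → ((en x).trace = (en y).trace ↔ x = y ∨ x = y⁻¹) := by
  obtain ⟨r, hp⟩ := root32 hF
  have h2 := two32 hF
  have hd : (r ^ 2 + r ^ 4 + r) * (r ^ 2 + r ^ 4) - r * r = 1 := by
    linear_combination (1 + r + r ^ 2 + r ^ 3) * hp + (-1 - r - 2 * r ^ 2 - r ^ 3 - r ^ 4 - r ^ 5 - r ^ 7) * h2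
  let u : G F := ⟨mm 0 1, by simp only [mm, det_fin_two_of]; linear_combination -h2⟩
  let y : G F := ⟨mm (r ^ 2 + r ^ 4) r, by simp only [mm, det_fin_two_of]; exact hd⟩
  let y' : G F := ⟨mm (r ^ 2 + r ^ 4 + r) r, by
    simp only [mm, det_fin_two_of]; linear_combination hd + (r ^ 2 + r ^ 4 + r) * r * h2⟩
  have hi : y⁻¹ = y' := inv_eq_of_mul_eq_one_right (Subtype.ext ((mm_mul (by linear_combination hd + r * r * h2)
    (by linear_combination (r * (r ^ 2 + r ^ 4) + r * r) * h2)).trans mm_one))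
  have e2 : mm (r ^ 2 + r ^ 4) r * mm (r ^ 2 + r ^ 4) r = mm (r + r ^ 2 + r ^ 3 + r ^ 4) (r ^ 2) := mm_mul
    (by linear_combination (r + r ^ 2 + r ^ 3) * hp + (-r - r ^ 2 - 2 * r ^ 3 - r ^ 4 - r ^ 5 - r ^ 7) * h2)
    (by linear_combination (r ^ 3 + r ^ 5) * h2)
  have e3 : mm (r + r ^ 2 + r ^ 3 + r ^ 4) (r ^ 2) * mm (r ^ 2 + r ^ 4) r =
      mm (1 + r + r ^ 2 + r ^ 3 + r ^ 4) (r + r ^ 3) := mm_mul
    (by linear_combination (1 + r ^ 3) * hp + (-1 - r - r ^ 2 - r ^ 4 + r ^ 6) * h2)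
    (by linear_combination r * hp + (-r + r ^ 4) * h2)
  have e5 : mm (1 + r + r ^ 2 + r ^ 3 + r ^ 4) (r + r ^ 3) * mm (r + r ^ 2 + r ^ 3 + r ^ 4) (r ^ 2) =
      mm (r + r ^ 2) (1 + r ^ 2 + r ^ 3 + r ^ 4) := mm_mul
    (by linear_combination (r ^ 2 + r ^ 3) * hp + (r ^ 3 + r ^ 4 + 2 * r ^ 5 + r ^ 6) * h2)
    (by linear_combination (1 + r + r ^ 2) * hp + (-1 - r - r ^ 2 + r ^ 5) * h2)
  have e6 : mm (1 + r + r ^ 2 + r ^ 3 + r ^ 4) (r + r ^ 3) * mm (1 + r + r ^ 2 + r ^ 3 + r ^ 4) (r + r ^ 3) =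
      mm (1 + r + r ^ 3 + r ^ 4) (1 + r ^ 2 + r ^ 3 + r ^ 4) := mm_mul
    (by linear_combination (r + r ^ 2 + r ^ 3) * hp + (r ^ 2 + 2 * r ^ 4 + r ^ 5 + r ^ 6) * h2)
    (by linear_combination (1 + r) * hp + (-1 + r ^ 3 + 2 * r ^ 4 + r ^ 5 + r ^ 6 + r ^ 7) * h2)
  have e11 : mm (r + r ^ 2) (1 + r ^ 2 + r ^ 3 + r ^ 4) * mm (1 + r + r ^ 3 + r ^ 4) (1 + r ^ 2 + r ^ 3 + r ^ 4) =
      mm 1 0 := mm_mul
    (by linear_combination (r + r ^ 2 + r ^ 3) * hp + (r ^ 2 + r ^ 4 + r ^ 5 + r ^ 6) * h2)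
    (by linear_combination (1 + r + 2 * r ^ 2 + 3 * r ^ 3 + 4 * r ^ 4 + 3 * r ^ 5 + 3 * r ^ 6 + 2 * r ^ 7 + r ^ 8) * h2)
  have ey : en y = !![r ^ 2 + r ^ 4 + r, r; r, r ^ 2 + r ^ 4] := rfl
  have ey' : en y' = !![r ^ 2 + r ^ 4 + r + r, r; r, r ^ 2 + r ^ 4 + r] := rfl
  have eu : en u = !![0 + 1, 1; 1, 0] := rfl
  refine ⟨u, y, Subtype.ext ?_, Subtype.ext ?_, Subtype.ext ((mm_mul rfl rfl).trans (mm_mul (by ring) (by ring)).symm),
    fun h => ?_, fun x hx => ?_⟩
  · show mm (0 : F) 1 ^ 3 = 1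
    rw [pow_three', mm_mul (a := 1) (b := 1) (by ring) (by ring), mm_mul (a := 1) (b := 0) (by ring) (by linear_combination h2),
      mm_one]
  · show mm (r ^ 2 + r ^ 4) r ^ 11 = 1
    rw [← mm_one, ← e11, ← e6, ← e5, ← e3, ← e2]
    simp only [pow_succ, pow_zero, one_mul, mul_assoc]
  · have := congrArg (fun g => en g 1 1) (h.trans hi)
    simp only [ey, ey'] at this
    have h0 : r = 0 := by simpa using this
    simp [h0] at hp
  · have a1 := congrArg (fun g => en g 0 0) hx.eq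
    have a2 := congrArg (fun g => en g 1 0) hx.eq
    have a3 := G_det x
    simp [G_mul, eu] at a1 a2
    rw [hi]
    constructor
    · intro h
      simp [trace_fin_two, ey] at h
      have a4 : en x 0 1 = r := by linear_combination -a1 - a2 + h + (r ^ 2 + r ^ 4 - en x 1 1) * h2
      rw [a4] at a1
      rw [a2, a1, a4] at a3
      have a5 : (en x 1 1 - (r ^ 2 + r ^ 4)) * (en x 1 1 - (r ^ 2 + r ^ 4 + r)) = 0 := by
        linear_combination a3 + hd + (1 + r * r - en x 1 1 * (r ^ 2 + r ^ 4 + r)) * h2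
      refine (mul_eq_zero.mp a5).imp (fun h => ?_) fun h => ?_ <;> rw [sub_eq_zero] at h <;>
        apply G_ext <;> simp [ey, ey', a1, a2, a4, h] <;> ring
    · rintro (rfl | rfl)
      · rfl
      · simp [trace_fin_two, ey, ey']; linear_combination r * h2

end

end Cfsg.Agent.LD.M
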