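import Cfsg.Agent.LD.N2
import Cfsg.Agent.LD.N4

set_option autoImplicit false
set_option linter.unusedSectionVars false
set_option linter.style.haveILetI false
set_option maxRecDepth 100000

/-! No subgroup `PSL₂(41)` or `PSL₂(32)` in `E₈(3)`. -/

namespace Cfsg.Agent.LD.M

open Polynomial Matrix Module Cfsg.Lie Cfsg.Agent.LD.E8 Cfsg.Agent.LD.T2

theorem dg_up {F : Type*} [Field F] (t : Fˣ) (c : F) : dg t * up c = up (t * t * c) * dg t := by
  apply G_ext <;> simp [en_dg, en_up, G_mul]
  field_simp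

theorem exists_θ {F : Type*} [Field F] (H : Subgroup ↥(chevE8.group (ZMod 3)))
    (e : ↥H ≃* Matrix.ProjectiveSpecialLinearGroup (Fin 2) F) :
    ∃ θ : G F →* chevE8.group (ZMod 3), ∀ g, θ g = 1 ↔ g ∈ Subgroup.center (G F) :=
  ⟨H.subtype.comp (e.symm.toMonoidHom.comp (QuotientGroup.mk' (Subgroup.center (G F)))), fun g => by
    rw [← QuotientGroup.eq_one_iff]; simp⟩

theorem up_nc {F : Type*} [Field F] {c : F} (hc : c ≠ 0) : up c ∉ Subgroup.center (G F) := fun h => by
  have := congrArg (fun g => en g 0 0) (Subgroup.mem_center_iff.mp h (lo 1))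
  simp [G_mul, en_lo, en_up, hc] at this

theorem no_L41 {F : Type*} [Field F] [Fintype F] (hF : Fintype.card F = 41)
    (H : Subgroup ↥(chevE8.group (ZMod 3))) (e : ↥H ≃* Matrix.ProjectiveSpecialLinearGroup (Fin 2) F) : False := by
  obtain ⟨θ, hθ⟩ := exists_θ H e
  have h0 : (41 : F) = 0 := by have := FiniteField.cast_card_eq_zero F; rw [hF] at this; exact_mod_cast this
  have h1 : ∀ n : ℕ, (up 1 : G F) ^ n = up (n : F) := fun n => by
    induction n with
    | zero => simp [up_zero]
    | succ n ih => rw [pow_succ, ih, ← up_add]; simp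
  have h2 : (17 : F) ≠ 0 := fun h => one_ne_zero (α := F) (by linear_combination 29 * h - 12 * h0)
  refine up_nc one_ne_zero ((hθ _).mp (no41 (θ (up 1)) (θ (dg (Units.mk0 17 h2))) ?_ ?_))
  · rw [← map_pow, h1, Nat.cast_ofNat, h0, up_zero, map_one]
  · rw [← map_pow, ← map_mul, ← map_mul, h1, dg_up]
    congr 3
    simp only [Units.val_mk0, Nat.cast_ofNat]
    linear_combination 7 * h0

section
variable {F : Type*} [Field F] [Fintype F] [DecidableEq F] {K : Type*} [Field K]

def upH : Multiplicative F →* G F where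
  toFun c := up c.toAdd
  map_one' := up_zero
  map_mul' _ _ := up_add _ _

theorem T2U (hF : Fintype.card F = 32) (h2 : (2 : K) ≠ 0) {V : Type*} [AddCommGroup V] [Module K V]
    [FiniteDimensional K V] (ρ : Representation K (G F) V) :
    (32 * finrank K (Representation.invariants (ρ.comp upH)) : ℤ) = finrank K V +
      31 * ((dE (ρ (up 1)) 1 : ℤ) - dE (ρ (up 1)) (-1)) := by
  have h1 := T2.T2 h2 (P := Multiplicative F) (IsPGroup.of_card (n := 5) (by simp [hF])) (ρ.comp upH)
  rw [Fintype.card_multiplicative, hF, ← Finset.add_sum_erase _ _ (Finset.mem_univ 1), map_one] at h1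
  have h3 : End.eigenspace (1 : End K V) 1 = ⊤ := eq_top_iff.mpr fun v _ => End.mem_eigenspace_iff.mpr (by simp)
  have h4 : End.eigenspace (1 : End K V) (-1) = ⊥ := eq_bot_iff.mpr fun v hv => by
    have h5 := End.mem_eigenspace_iff.mp hv
    have h6 : (2 : K) • v = 0 := by rw [two_smul]; nth_rewrite 1 [show v = (-1 : K) • v from h5]; simp
    exact (smul_eq_zero.mp h6).resolve_left h2
  have h5 : ∀ c ∈ (Finset.univ : Finset (Multiplicative F)).erase 1, ∀ a : K,
      finrank K (End.eigenspace ((ρ.comp upH) c) a) = dE (ρ (up 1)) a := fun c hc a => by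
    have h6 : c.toAdd ≠ 0 := (Finset.mem_erase.mp hc).1
    have h7 := FiniteField.pow_card c.toAdd
    rw [hF] at h7
    have h8 : (ρ.comp upH) c = ρ (dg (Units.mk0 _ (pow_ne_zero 16 h6)) * up 1 * (dg (Units.mk0 _ (pow_ne_zero 16 h6)))⁻¹) := by
      rw [dg_up, mul_inv_cancel_right, Units.val_mk0, mul_one, ← pow_add, h7]; rfl
    rw [h8, conj_dim]; rfl
  rw [h3, h4, finrank_top, finrank_bot, Finset.sum_congr rfl fun c hc => congrArg₂ (fun a b : ℕ => (a : ℤ) - b)
    (h5 c hc 1) (h5 c hc (-1)), Finset.sum_const, Finset.card_erase_of_mem (Finset.mem_univ _), Finset.card_univ,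
    Fintype.card_multiplicative, hF] at h1
  simpa using h1

universe u

theorem gen32 [IsAlgClosed K] (hF : Fintype.card F = 32) (h3 : (3 : K) = 0) {u y : G F} (hu : u ^ 3 = 1)
    (hy : y ^ 11 = 1) (hc : Commute u y) (hn : y ≠ y⁻¹)
    (hC : ∀ x, Commute u x → ((en x).trace = (en y).trace ↔ x = y ∨ x = y⁻¹)) (n : ℕ) :
    ∀ (V : Type u) [AddCommGroup V] [Module K V] [FiniteDimensional K V] (ρ : Representation K (G F) V),
      finrank K V < n → (∀ v, ∑ c : F, ρ (up c) v = 0) → ∃ I : Multiset K, 31 * I.card = finrank K V ∧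
        (∀ z ∈ I, z ^ 11 = 1) ∧ ∀ k : ℕ, LinearMap.trace K V (ρ (y ^ k)) + LinearMap.trace K V (ρ (y⁻¹ ^ k)) =
          (I.map fun z => z ^ k + z⁻¹ ^ k).sum := by
  induction n with
  | zero => intro V _ _ _ _ h; exact absurd h (Nat.not_lt_zero _)
  | succ n ih =>
  intro V _ _ _ ρ hn h0
  by_cases hs : ∀ W : Submodule K V, (∀ g, W ≤ W.comap (ρ g)) → W = ⊥ ∨ W = ⊤
  · obtain ⟨z, hz, h⟩ := brauer h3 ρ hs hu hy hc ‹_› (fun x => (en x).trace = (en y).trace) (fun a b hb => by
      rw [← hb, en_mul, trace_mul_comm, ← en_mul, inv_mul_cancel_left]) hC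
    have h2 : (2 : K) ≠ 0 := fun h => one_ne_zero (α := K) (by linear_combination h3 - h)
    have h4 := T2U hF h2 ρ
    have h5 : Representation.invariants (ρ.comp upH) = ⊥ := eq_bot_iff.mpr fun v hv => by
      have h6 := h0 v
      have h8 : ∀ c : F, ρ (up c) v = v := fun c => hv (Multiplicative.ofAdd c)
      rw [Finset.sum_congr rfl fun c _ => h8 c, Finset.sum_const, Finset.card_univ, hF,
        ← Nat.cast_smul_eq_nsmul K] at h6
      refine (smul_eq_zero.mp h6).resolve_left fun h7 => h2 ?_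
      push_cast at h7
      linear_combination h7 - 10 * h3
    rw [h5, finrank_bot] at h4
    have h6 : 31 * (finrank K V / 31) = finrank K V := by omega
    refine ⟨Multiset.replicate (finrank K V / 31) z, by simpa using h6, fun w hw => Multiset.eq_of_mem_replicate hw ▸ hz,
      fun k => ?_⟩
    rw [h, Multiset.map_replicate, Multiset.sum_replicate, nsmul_eq_mul]
    conv_lhs => rw [← h6]
    push_cast
    linear_combination 10 * ((finrank K V / 31 : ℕ) : K) * (z ^ k + z⁻¹ ^ k) * h3
  push Not at hs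
  obtain ⟨W, hW, h1, h2⟩ := hs
  have h3 := W.finrank_quotient_add_finrank
  have h4 : 0 < finrank K W := Nat.pos_of_ne_zero fun h => h1 (Submodule.finrank_eq_zero.mp h)
  have h5 : finrank K W < finrank K V := Submodule.finrank_lt h2
  obtain ⟨A, hA, hA', hA''⟩ := ih W (ρ.subrepresentation W hW) (by omega) fun v => Subtype.ext (by
    rw [Submodule.coe_sum]; exact h0 v)
  obtain ⟨B, hB, hB', hB''⟩ := ih (V ⧸ W) (ρ.quotient W hW) (by omega) fun v => by
    obtain ⟨v, rfl⟩ := W.mkQ_surjective v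
    have := congrArg W.mkQ (h0 v)
    rw [map_sum, map_zero] at this
    exact this
  refine ⟨A + B, by rw [Multiset.card_add]; omega, fun a ha => (Multiset.mem_add.mp ha).elim (hA' a) (hB' a),
    fun k => ?_⟩
  rw [Multiset.map_add, Multiset.sum_add, ← hA'', ← hB'', trace_add _ W (hW _), trace_add (ρ (y⁻¹ ^ k)) W (hW _)]
  exact add_add_add_comm _ _ _ _

theorem geo {l z : K} (hl : l ^ 11 = 1) (hz : z ^ 11 = 1) [DecidableEq K] :
    ∑ j ∈ Finset.range 11, l⁻¹ ^ j * z ^ j = 11 * if l = z then 1 else 0 := by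
  have h0 : l ≠ 0 := by rintro rfl; simp at hl
  simp only [← mul_pow]
  split_ifs with h
  · simp [← h, h0]
  · have := mul_geom_sum (l⁻¹ * z) 11
    rw [mul_pow, inv_pow, hl, hz, inv_one, mul_one, sub_self] at this
    rw [(mul_eq_zero.mp this).resolve_left fun h1 => h (by field_simp at h1; linear_combination -h1), mul_zero]

theorem geoI {l : K} (hl : l ^ 11 = 1) [DecidableEq K] (I : Multiset K) (hI : ∀ z ∈ I, z ^ 11 = 1) :
    ∑ j ∈ Finset.range 11, l⁻¹ ^ j * (I.map fun z => z ^ j + z⁻¹ ^ j).sum = 11 * (I.count l + I.count l⁻¹ : ℕ) := by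
  induction I using Multiset.induction_on with
  | empty => simp
  | cons z I ih =>
    have hz := hI z (Multiset.mem_cons_self _ _)
    simp only [Multiset.map_cons, Multiset.sum_cons, mul_add, Finset.sum_add_distrib, Multiset.count_cons]
    rw [ih fun w hw => hI w (Multiset.mem_cons_of_mem hw), geo hl hz, geo hl (by rw [inv_pow, hz, inv_one])]
    simp only [inv_eq_iff_eq_inv]
    push_cast
    ring

end

theorem no_L32 {F : Type*} [Field F] [Fintype F] (hF : Fintype.card F = 32)
    (H : Subgroup ↥(chevE8.group (ZMod 3))) (e : ↥H ≃* Matrix.ProjectiveSpecialLinearGroup (Fin 2) F) : False := by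
  classical
  obtain ⟨θ, hθ⟩ := exists_θ H e
  haveI : Fact (Nat.Prime 3) := ⟨Nat.prime_three⟩
  let K := AlgebraicClosure (ZMod 3)
  haveI : CharP K 3 := charP_of_injective_algebraMap (algebraMap (ZMod 3) K).injective 3
  have h3 : (3 : K) = 0 := by exact_mod_cast CharP.cast_eq_zero K 3
  have h2 := two32 hF
  let ρ : Representation K (G F) (chevE8.Idx → K) := (rE K).comp θ
  have hd := dim2 (K := K) (g := θ (up 1)) (by rw [← map_pow, pow_two, ← up_add, one_add_one_eq_two, h2, up_zero, map_one])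
    fun h => up_nc one_ne_zero ((hθ _).mp h)
  change dE (ρ (up 1)) 1 = 120 ∧ dE (ρ (up 1)) (-1) = 128 ∨ dE (ρ (up 1)) 1 = 136 ∧ dE (ρ (up 1)) (-1) = 112 at hd
  rcases hd with hd | hd
  · have h4 := T2U hF (fun h => one_ne_zero (α := K) (by linear_combination h3 - h)) ρ
    rw [rk248, hd.1, hd.2] at h4
    have h5 : Representation.invariants (ρ.comp upH) = ⊥ := Submodule.finrank_eq_zero.mp (by omega)
    obtain ⟨u, y, hu, hy, hc, hn, hC⟩ := exists_uy hF
    obtain ⟨I, h6, h7, h8⟩ := gen32 hF h3 hu hy hc hn hC _ _ ρ (Nat.lt_succ_self _) fun v => by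
      rw [← Submodule.mem_bot K, ← h5]
      intro c
      rw [map_sum]
      refine Fintype.sum_equiv (Equiv.addLeft c.toAdd) _ _ fun d => ?_
      show ρ (up c.toAdd) _ = ρ (up (c.toAdd + d)) v
      rw [up_add, map_mul]; rfl
    rw [rk248] at h6
    have h9 : θ y ≠ 1 := fun h => by
      have a2 := congrArg (fun g => en g 0 0) (Subgroup.mem_center_iff.mp ((hθ _).mp h) (lo 1))
      have a3 := congrArg (fun g => en g 0 0) (Subgroup.mem_center_iff.mp ((hθ _).mp h) (up 1))
      have a4 := congrArg (fun g => en g 0 1) (Subgroup.mem_center_iff.mp ((hθ _).mp h) (up 1))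
      have a5 := G_det y
      simp [G_mul, en_lo, en_up] at a2 a3 a4
      refine hn (eq_inv_of_mul_eq_one_left ?_)
      apply G_ext <;> simp [G_mul, en_one, a2, a3]
      · linear_combination a5 - en y 0 0 * a4 + en y 1 0 * a2
      · linear_combination a5 + en y 1 1 * a4 + en y 1 0 * a2
    have h11 : ((11 : ℕ) : K) ≠ 0 := fun h7 => absurd ((CharP.cast_eq_zero_iff K 3 11).mp h7) (by decide)
    have h10 : ∀ l : K, IsPrimitiveRoot l 11 → 2 ≤ I.count l + I.count l⁻¹ := fun l hl => by
      have a1 := mult_trace h11 (f := ρ y) (by rw [← map_pow, hy, map_one]) hl.pow_eq_one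
      have a2 := mult_trace h11 (f := ρ y⁻¹) (by rw [← map_pow, inv_pow, hy, inv_one, map_one]) hl.pow_eq_one
      have b1 : finrank K (End.eigenspace (ρ y) l) = 22 := dim11 (g := θ y) (by rw [← map_pow, hy, map_one]) h9 hl
      have b2 : finrank K (End.eigenspace (ρ y⁻¹) l) = 22 := dim11 (g := θ y⁻¹)
        (by rw [← map_pow, inv_pow, hy, inv_one, map_one]) (by rwa [map_inv, Ne, inv_eq_one]) hl
      have a3 := geoI hl.pow_eq_one I h7
      simp only [← h8, mul_add, Finset.sum_add_distrib, map_pow] at a3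
      rw [← a1, ← a2, b1, b2] at a3
      generalize I.count l + I.count l⁻¹ = N at a3
      have a4 : ((N + 1 : ℕ) : K) = 0 := by
        push_cast at a3 ⊢
        linear_combination a3 + (4 * N - 161) * h3
      have := (CharP.cast_eq_zero_iff K 3 _).mp a4
      omega
    haveI : NeZero ((11 : ℕ) : K) := ⟨h11⟩
    obtain ⟨η, hη⟩ := HasEnoughRootsOfUnity.exists_primitiveRoot K 11
    have c1 : ∀ k, k < 11 → 0 < k → 2 ≤ I.count (η ^ k) + I.count (η ^ (11 - k)) := fun k h1 h2 => by
      have := h10 _ (hη.pow_of_coprime k (Nat.Coprime.symm (Nat.coprime_of_lt_prime h2.ne' h1 (by norm_num))))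
      rwa [show (η ^ k)⁻¹ = η ^ (11 - k) from inv_eq_of_mul_eq_one_right (by
        rw [← pow_add, Nat.add_sub_cancel' h1.le, hη.pow_eq_one])] at this
    have c2 : ∑ k ∈ Finset.range 11, I.count (η ^ k) ≤ I.card := by
      rw [← Finset.sum_image (s := Finset.range 11) (g := fun k => η ^ k) (f := fun a => I.count a)
        fun a ha b hb h => hη.pow_inj (by simpa using ha) (by simpa using hb) h, ← Multiset.toFinset_sum_count_eq]
      exact Finset.sum_le_sum_of_ne_zero fun a _ h => Multiset.mem_toFinset.mpr (Multiset.count_ne_zero.mp h)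
    simp only [Finset.sum_range_succ, Finset.sum_range_zero] at c2
    have d1 := c1 1 (by norm_num) (by norm_num)
    have d2 := c1 2 (by norm_num) (by norm_num)
    have d3 := c1 3 (by norm_num) (by norm_num)
    have d4 := c1 4 (by norm_num) (by norm_num)
    have d5 := c1 5 (by norm_num) (by norm_num)
    simp only [Nat.reduceSub] at d1 d2 d3 d4 d5
    omega
  · obtain ⟨a, ha⟩ : ∃ a : Fˣ, (a : F) * a ≠ 1 := by
      obtain ⟨r, hr⟩ := root32 hF
      have h0 : r ≠ 0 := by rintro rfl; simp at hr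
      exact ⟨Units.mk0 r h0, fun h => one_ne_zero (α := F) (by
        rw [Units.val_mk0] at h
        linear_combination hr - (r ^ 3 + r ^ 2 + r + 2) * h - (r + 1) * h2)⟩
    have e1 : (wn : G F) = lo 1 * up 1 * (lo 1)⁻¹ := by
      rw [eq_mul_inv_iff_mul_eq]
      apply G_ext <;> simp [G_mul, en_lo, en_up, en_wn]
      · linear_combination -h2
      · linear_combination -h2
    have e2 : ∀ t : Fˣ, wn * dg t = dg t⁻¹ * wn := fun t => by
      apply G_ext <;> simp [G_mul, en_dg, en_wn]
    have h4 := dihedral (s := ρ wn) (x := ρ (dg a)) (x' := ρ (dg a⁻¹))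
      (by rw [← map_mul, ← dg_mul, mul_inv_cancel, dg_one, map_one]) (by rw [← map_mul, e2, map_mul])
      (by rw [← map_mul, e2, map_mul, inv_inv])
    have h5 : ∀ n : ℕ, dg (a ^ n) = dg a ^ n := fun n => by
      induction n with
      | zero => simp [dg_one]
      | succ n ih => rw [pow_succ, dg_mul, ih, pow_succ]
    have h6 : a ^ 31 = 1 := by rw [← pow_card_eq_one (x := a), Fintype.card_units, hF]
    have h7 : finrank K (End.eigenspace (ρ (dg a ^ 2)) 1) = 8 := dim31 (g := θ (dg a ^ 2))
      (by rw [← map_pow, ← pow_mul, mul_comm, pow_mul, ← h5, h6, dg_one, one_pow, map_one]) fun h => by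
        have a1 := congrArg (fun g => en g 0 1) (Subgroup.mem_center_iff.mp ((hθ _).mp h) (up 1))
        simp [G_mul, en_dg, en_up, pow_two] at a1
        have a2 : ((a : F) * a - 1) ^ 2 = 0 := by field_simp at a1; linear_combination -a1 + (1 - (a : F) ^ 2) * h2
        exact ha (sub_eq_zero.mp (pow_eq_zero_iff two_ne_zero |>.mp a2))
    rw [← map_pow, h7, e1, conj_dim, conj_dim] at h4
    unfold dE at hd
    omega

end Cfsg.Agent.LD.M
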